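import Cfsg.Agent.H42.PcDefs

/-! Conjugacy of the cyclic subgroups generated by outer `2`-elements with inner squares. -/

set_option autoImplicit false

namespace Cfsg.Agent.H49.PcOrd

open Subgroup Cfsg.Agent.H42.Pc

universe u

theorem cc_of {G : Type u} [Group G] [Finite G] (hP : PP G) {y y' : G} (hy : Two y)
    (h : orderOf y = orderOf y') : CC y y' := by
  obtain ⟨k, hk⟩ := hy
  obtain ⟨g, hg⟩ := hP 2 Nat.prime_two (zpowers y) (zpowers y') inferInstance inferInstance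
    (by
      rintro ⟨_, n, rfl⟩
      refine ⟨k, Subtype.ext ?_⟩
      show (y ^ n) ^ 2 ^ k = 1
      rw [← zpow_natCast, ← zpow_mul, mul_comm, zpow_mul, zpow_natCast, hk, one_zpow])
    (by rw [Nat.card_zpowers, Nat.card_zpowers, h])
  exact ⟨g, by rw [hg, MonoidHom.map_zpowers]; rfl⟩

theorem ord (key : KeyStmt.{u}) : OrdStmt.{u} := by
  intro G _ _ hP S _
  have : Fact (Nat.Prime 2) := ⟨Nat.prime_two⟩
  have two : ∀ y : G, y ∉ S → y * y ∈ S → orderOf (y : G ⧸ S) = 2 := fun y h1 h2 =>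
    orderOf_eq_prime (by rw [pow_two, ← QuotientGroup.mk_mul, QuotientGroup.eq_one_iff]; exact h2)
      fun e => h1 ((QuotientGroup.eq_one_iff y).1 e)
  refine ⟨fun y y' hy hy' h1 h1' h2 h2' => cc_of hP hy
    (key G hP S 2 Nat.prime_two y y' hy hy' h1 h1' ((two y h1 h2).trans (two y' h1' h2').symm)),
    fun hS y hy => ?_⟩
  by_cases y1 : y = 1
  · rw [y1]; exact one_mem _
  obtain ⟨s, hs⟩ := exists_prime_orderOf_dvd_card' (G := S) 2 (even_iff_two_dvd.1 hS)
  rw [← Subgroup.orderOf_coe] at hs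
  obtain ⟨g, hg⟩ := cc_of hP (y := s) (y' := y) ⟨1, by rw [pow_one, ← hs, pow_orderOf_eq_one]⟩
    (hs.trans (orderOf_eq_prime (by rw [pow_two, hy]) y1).symm)
  exact zpowers_le.2 (Subgroup.Normal.conj_mem inferInstance _ s.2 g) (hg ▸ mem_zpowers y)

end Cfsg.Agent.H49.PcOrd
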