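import Mathlib

/-!
# Split BN-pairs of rank two: generalized polygons with a nilpotent transitive normal subgroup

The paper proof is in `stubs/notes/h49_bn2.md`.
-/

set_option autoImplicit false

namespace Cfsg.Agent.H49.BN2

universe u

/-- A thick generalized `n`-gon, given by the distance function of its incidence graph. -/
structure Pol (n : ℕ) (X : Type u) where
  d : X → X → ℕ
  d_zero : ∀ x y, d x y = 0 ↔ x = y
  d_symm : ∀ x y, d x y = d y x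
  d_le : ∀ x y, d x y ≤ n
  step : ∀ x y z, d x y = 1 → d y z = d x z + 1 ∨ d x z = d y z + 1
  ex : ∀ x z, x ≠ z → ∃ y, d x y = 1 ∧ d y z + 1 = d x z
  uniq : ∀ x y y' z, d x z < n → d x y = 1 → d x y' = 1 → d y z < d x z → d y' z < d x z → y = y'
  thick : ∀ x y y', ∃ w, d x w = 1 ∧ w ≠ y ∧ w ≠ y'

namespace Pol

variable {n : ℕ} {X : Type u} (Γ : Pol n X)

/-- The neighbours of `x`. -/
def nb (x : X) : Set X := {y | Γ.d x y = 1}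

/-- The number of neighbours minus one. -/
noncomputable def q (x : X) : ℕ := (Γ.nb x).ncard - 1

/-- The edges `x y` and `u v` are opposite (`u` opposite `x`, `v` opposite `y`). -/
def Opp (x y u v : X) : Prop := Γ.d x y = 1 ∧ Γ.d u v = 1 ∧ Γ.d x u = n ∧ Γ.d y v = n

/-- Closed under the (unique) geodesics between non-opposite vertices. -/
def Conv (F : Set X) : Prop :=
  ∀ x ∈ F, ∀ z ∈ F, ∀ w, Γ.d x z < n → Γ.d x w + Γ.d w z = Γ.d x z → w ∈ F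

/-- `F` contains a pair of opposite edges. -/
def HasOpp (F : Set X) : Prop := ∃ x ∈ F, ∃ y ∈ F, ∃ u ∈ F, ∃ v ∈ F, Γ.Opp x y u v

/-- A walk of length `k` without backtracking. -/
def Path (k : ℕ) (f : ℕ → X) : Prop :=
  (∀ i < k, Γ.d (f i) (f (i + 1)) = 1) ∧ ∀ i, i + 2 ≤ k → f i ≠ f (i + 2)

/-- An apartment. -/
def Apt (a : ℤ → X) : Prop :=
  (∀ i, a (i + 2 * n) = a i) ∧ ∀ (i : ℤ) (k : ℕ), k ≤ n → Γ.d (a i) (a (i + k)) = k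

/-- Basic geometry of a polygon. -/
structure Bas : Prop where
  tri : ∀ x y z, Γ.d x z ≤ Γ.d x y + Γ.d y z
  par : ∀ x y z, Even (Γ.d x y + Γ.d y z + Γ.d x z)
  away : ∀ x y y' z, Γ.d x y = 1 → Γ.d x y' = 1 → y ≠ y' → Γ.d z y < Γ.d z x → Γ.d z x < n →
    Γ.d z y' = Γ.d z x + 1
  glue : ∀ x x' y z' z, Γ.d y x' = 1 → Γ.d y z' = 1 → x' ≠ z' → Γ.d x x' + 1 = Γ.d x y →
    Γ.d z' z + 1 = Γ.d y z → Γ.d x y + Γ.d y z ≤ n → Γ.d x z = Γ.d x y + Γ.d y z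
  geo_ex : ∀ x z k, k ≤ Γ.d x z → ∃ w, Γ.d x w = k ∧ Γ.d x w + Γ.d w z = Γ.d x z
  geo_uniq : ∀ x z w w', Γ.d x z < n → Γ.d x w + Γ.d w z = Γ.d x z →
    Γ.d x w' + Γ.d w' z = Γ.d x z → Γ.d x w = Γ.d x w' → w = w'
  ext : ∀ z x k, Γ.d z x + k ≤ n → ∃ w, Γ.d x w = k ∧ Γ.d z w = Γ.d z x + k
  path_d : ∀ k f, Γ.Path k f → ∀ i j, i + j ≤ k → j ≤ n → Γ.d (f i) (f (i + j)) = j
  fix2 : ∀ F, Γ.Conv F → Γ.HasOpp F → ∀ x ∈ F, ∀ y, ∃ w ∈ F, Γ.d x w = 1 ∧ w ≠ y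
  extF : ∀ F, Γ.Conv F → Γ.HasOpp F → ∀ x ∈ F, ∀ z k, Γ.d z x + k ≤ n →
    ∃ w ∈ F, Γ.d x w = k ∧ Γ.d z w = Γ.d z x + k
  rig : ∀ F, Γ.Conv F → Γ.HasOpp F → ∀ x y, Γ.d x y = 1 → Γ.nb x ⊆ F → Γ.nb y ⊆ F → ∀ v, v ∈ F
  rigA : ∀ F, Γ.Conv F → ∀ x y a, 2 ≤ a → (∀ v, Γ.d x v ≤ a → v ∈ F) → y ∈ F →
    n + 1 ≤ a + Γ.d x y → ∀ v, v ∈ F
  apt : ∀ x y u v, Γ.Opp x y u v → ∃ a, Γ.Apt a ∧ a 0 = x ∧ a 1 = y ∧ a n = u ∧ a (n + 1) = v
  apt_mem : ∀ F, Γ.Conv F → ∀ a, Γ.Apt a → a 0 ∈ F → a 1 ∈ F → a n ∈ F → a (n + 1) ∈ F →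
    ∀ i, a i ∈ F
  q_opp : ∀ x y, Γ.d x y = n → Γ.q x = Γ.q y
  two_le_q : ∀ x, 2 ≤ Γ.q x
  card_nb : ∀ x y, Γ.d x y = 1 → (Γ.nb x \ {y}).ncard = Γ.q x
  iso : ∀ σ : Equiv.Perm X, (∀ x y, Γ.d (σ x) (σ y) = 1 ↔ Γ.d x y = 1) →
    ∀ x y, Γ.d (σ x) (σ y) = Γ.d x y

/-- Counting spheres. -/
structure Sph : Prop where
  le : ∀ a k m, 1 ≤ k → (∀ w, Γ.d a w = k → Γ.q w ≤ m) →
    {v | Γ.d a v = k + 1}.ncard ≤ {w | Γ.d a w = k}.ncard * m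
  ge : ∀ (F : Set X) a k m, k + 1 < n → (∀ w ∈ F, Γ.d a w = k → m + 1 ≤ (Γ.nb w ∩ F).ncard) →
    {w | w ∈ F ∧ Γ.d a w = k}.ncard * m ≤ {v | v ∈ F ∧ Γ.d a v = k + 1}.ncard

/-- No proper full suboctagon with many lines on a point (used for `n = 8`): `l` is a line, the
vertices at even distance from `l` are the lines. -/
def O8c : Prop :=
  ∀ (F : Set X) (l : X) (s t : ℕ), Γ.Conv F → l ∈ F → (∀ v, Even (Γ.d l v) → Γ.q v = s) →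
    (∀ v, Odd (Γ.d l v) → Γ.q v = t) → t ≤ s ^ 2 → (∀ v ∈ F, Even (Γ.d l v) → Γ.nb v ⊆ F) →
    (∀ v ∈ F, Odd (Γ.d l v) → s + 1 ≤ (Γ.nb v ∩ F).ncard ∧ 2 * (Γ.nb v ∩ F).ncard ≤ t + 2) → False

end Pol

/-- A polygon with a faithful group of automorphisms and an invariant family of subgroups `V x y`,
one for each edge, fixing the edge and transitive on the opposite edges. -/
structure Sys0 (n : ℕ) (X G : Type u) [Group G] [MulAction G X] extends Pol n X where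
  d_smul : ∀ (g : G) x y, d (g • x) (g • y) = d x y
  faith : ∀ g : G, (∀ x : X, g • x = x) → g = 1
  V : X → X → Subgroup G
  V_symm : ∀ x y, V x y = V y x
  V_fix : ∀ x y, d x y = 1 → ∀ g ∈ V x y, g • x = x
  V_conj : ∀ x y, d x y = 1 → ∀ h : G, ∀ g ∈ V x y, h * g * h⁻¹ ∈ V (h • x) (h • y)
  V_tr : ∀ x y u v u' v', toPol.Opp x y u v → toPol.Opp x y u' v' →
    ∃ g ∈ V x y, g • u = u' ∧ g • v = v'

namespace Sys0

variable {n : ℕ} {X G : Type u} [Group G] [MulAction G X] (S : Sys0 n X G)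

/-- The subgroups `V x y` are nilpotent. -/
def Nil : Prop := ∀ x y, S.d x y = 1 → Group.IsNilpotent (S.V x y)

/-- The subgroups `V x y` act regularly on the opposite edges. -/
def Reg0 : Prop :=
  ∀ x y u v, S.toPol.Opp x y u v → ∀ g ∈ S.V x y, g • u = u → g • v = v → g = 1

end Sys0

/-- The subgroups `V x y` are `p`-groups, and an element of `V x y` that fixes a second edge on `x`
lies in the subgroup of that edge. -/
structure Sys (n p : ℕ) (X G : Type u) [Group G] [MulAction G X] extends Sys0 n X G where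
  hp : p.Prime
  V_p : ∀ x y, d x y = 1 → IsPGroup p (V x y)
  V_uni : ∀ x y y', d x y = 1 → d x y' = 1 → ∀ g ∈ V x y, g • y' = y' → g ∈ V x y'

namespace Sys

variable {n p : ℕ} {X G : Type u} [Group G] [MulAction G X] (S : Sys n p X G)

/-- The elements fixing the ball of radius `k` around `x`. -/
def fixB (k : ℕ) (x : X) : Subgroup G where
  carrier := {g | ∀ v, S.d x v ≤ k → g • v = v}
  one_mem' := fun v _ => one_smul G v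
  mul_mem' := fun {a b} ha hb v hv => by rw [mul_smul, hb v hv, ha v hv]
  inv_mem' := fun {a} ha v hv => by rw [inv_smul_eq_iff, ha v hv]

/-- The unipotent elements fixing the ball of radius `k` around `x`. -/
def Q (k : ℕ) (x : X) : Subgroup G := (⨅ y ∈ S.toPol.nb x, S.V x y) ⊓ S.fixB k x

/-- The centre of `V x y`. -/
def Z (x y : X) : Subgroup G := S.V x y ⊓ Subgroup.centralizer (S.V x y : Set G)

/-- The central elations with centre `x` and order dividing `p` in the centre of `V x y`. -/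
def A (x y : X) : Subgroup G where
  carrier := {g | g ∈ S.Z x y ∧ g ∈ S.fixB (n / 2) x ∧ g ^ p = 1}
  one_mem' := ⟨one_mem _, one_mem _, one_pow p⟩
  mul_mem' := fun {a b} ha hb => ⟨mul_mem ha.1 hb.1, mul_mem ha.2.1 hb.2.1, by
    have h : Commute a b := hb.1.2 a ha.1.1
    rw [h.mul_pow, ha.2.2, hb.2.2, one_mul]⟩
  inv_mem' := fun {a} ha => ⟨inv_mem ha.1, inv_mem ha.2.1, by rw [inv_pow, ha.2.2, inv_one]⟩

/-- The group generated by the `A y l`, `y` on `l`. -/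
def E (l : X) : Subgroup G := ⨆ y ∈ S.toPol.nb l, S.A y l

/-- The group generated by the `E l`, `l` on `x`. -/
def F (x : X) : Subgroup G := ⨆ l ∈ S.toPol.nb x, S.E l

/-- The stabiliser in `V x y` of `u` and `v`. -/
def D (x y u v : X) : Subgroup G := S.V x y ⊓ MulAction.stabilizer G u ⊓ MulAction.stabilizer G v

/-- `x` is the centre of a non-trivial unipotent central elation (a "point"). -/
def Cen (x : X) : Prop := ∃ g ∈ S.Q (n / 2) x, g ≠ 1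

/-- All neighbours of `l` are centres (a "line"). -/
def Ln (l : X) : Prop := ∀ y, S.d l y = 1 → S.Cen y

/-- The groups `V x y` act regularly on the neighbours of `x` other than `y`. -/
def Reg (x : X) : Prop :=
  ∀ y z, S.d x y = 1 → S.d x z = 1 → y ≠ z → ∀ g ∈ S.V x y, g • z = z → g ∈ S.fixB 1 x

/-- Basic facts on a system. -/
structure Bas : Prop where
  conv : ∀ K : Set G, S.toPol.Conv {x | ∀ g ∈ K, g • x = x}
  geo_fix : ∀ (g : G) x z w, g • x = x → g • z = z → S.d x z < n →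
    S.d x w + S.d w z = S.d x z → g • w = w
  rig : ∀ (g : G) x y u v x' y', S.toPol.Opp x y u v → g • x = x → g • y = y → g • u = u →
    g • v = v → S.d x' y' = 1 → g ∈ S.fixB 1 x' → g ∈ S.fixB 1 y' → g = 1
  rigA : ∀ (g : G) x y a, 2 ≤ a → g ∈ S.fixB a x → g • y = y → n + 1 ≤ a + S.d x y → g = 1
  uni : ∀ x y u v, S.d x y = 1 → S.d u v = 1 → ∀ g ∈ S.V x y, g • u = u → g • v = v → g ∈ S.V u v
  tr : ∀ x y u u' k, S.d x y = 1 → S.d x u = k + 1 → S.d y u = k → S.d x u' = k + 1 →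
    S.d y u' = k → ∃ g ∈ S.V x y, g • u = u'
  flag : ∀ x y x' y', S.d x y = 1 → S.d x' y' = 1 → Even (S.d x x') →
    ∃ g : G, g • x = x' ∧ g • y = y'
  pair : ∀ x u x' u', S.d x u = S.d x' u' → Even (S.d x x') → ∃ g : G, g • x = x' ∧ g • u = u'
  strong : ∀ x y u v x' y' u' v', S.toPol.Opp x y u v → S.toPol.Opp x' y' u' v' →
    Even (S.d x x') → ∃ g : G, g • x = x' ∧ g • y = y' ∧ g • u = u' ∧ g • v = v'
  dn : ∀ x y u v x' y' u' v', S.toPol.Opp x y u v → S.toPol.Opp x' y' u' v' →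
    (∀ g ∈ S.D x y u v, g • x' = x' ∧ g • y' = y' ∧ g • u' = u' ∧ g • v' = v') →
    S.D x' y' u' v' = S.D x y u v
  q_even : ∀ x x', Even (S.d x x') → S.toPol.q x = S.toPol.q x'
  q_pow : ∀ x, ∃ k, S.toPol.q x = p ^ (k + 1)
  mem_Q : ∀ k x y, 1 ≤ k → S.d x y = 1 → ∀ g ∈ S.V x y, g ∈ S.fixB k x → g ∈ S.Q k x
  Q_le : ∀ k x y, S.d x y = 1 → S.Q k x ≤ S.V x y
  Q_mono : ∀ k l x y, 1 ≤ l → l + S.d x y ≤ k → S.Q k x ≤ S.Q l y
  fixB_conj : ∀ k x (h : G), ∀ g ∈ S.fixB k x, h * g * h⁻¹ ∈ S.fixB k (h • x)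
  Q_conj : ∀ k x (h : G), ∀ g ∈ S.Q k x, h * g * h⁻¹ ∈ S.Q k (h • x)
  Z_conj : ∀ x y (h : G), S.d x y = 1 → ∀ g ∈ S.Z x y, h * g * h⁻¹ ∈ S.Z (h • x) (h • y)
  A_conj : ∀ x y (h : G), S.d x y = 1 → ∀ g ∈ S.A x y, h * g * h⁻¹ ∈ S.A (h • x) (h • y)
  E_conj : ∀ l (h : G), ∀ g ∈ S.E l, h * g * h⁻¹ ∈ S.E (h • l)
  F_conj : ∀ x (h : G), ∀ g ∈ S.F x, h * g * h⁻¹ ∈ S.F (h • x)
  card_Z : ∀ x y x' y', S.d x y = 1 → S.d x' y' = 1 → Nat.card (S.Z x y) = Nat.card (S.Z x' y')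
  card_A : ∀ x y x' y', S.d x y = 1 → S.d x' y' = 1 → Even (S.d x x') →
    Nat.card (S.A x y) = Nat.card (S.A x' y')
  Z_symm : ∀ x y, S.Z x y = S.Z y x
  Z_ne : ∀ x y, S.d x y = 1 → ∃ z ∈ S.Z x y, z ≠ 1
  Z_all : ∀ x y u u' k, S.d x y = 1 → S.d x u = k + 1 → S.d y u = k → S.d x u' = k + 1 →
    S.d y u' = k → ∀ z ∈ S.Z x y, z • u = u → z • u' = u'
  A_ne : ∀ x y, 4 ≤ n → S.Cen x → S.d x y = 1 → ∃ a ∈ S.A x y, a ≠ 1
  A_le : ∀ x y, 4 ≤ n → S.d x y = 1 → S.A x y ≤ S.Q (n / 2) x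
  cen_even : ∀ x x', S.Cen x → Even (S.d x x') → S.Cen x'
  ln_odd : ∀ x l, S.Cen x → Odd (S.d x l) → S.Ln l
  E_le : ∀ l, 4 ≤ n → S.E l ≤ S.Q (n / 2 - 1) l
  E_cent : ∀ l, ∀ e ∈ S.E l, ∀ g ∈ S.Q 1 l, g * e = e * g
  E_pow : ∀ l, 4 ≤ n → ∀ e ∈ S.E l, e ^ p = 1
  reg0 : (∀ x, S.Reg x) → S.toSys0.Reg0

/-- The centre of `V x y` fixes large balls around `x` and `y`. -/
def Zt : Prop := ∀ x y, S.d x y = 1 → S.Z x y ≤ S.Q ((n - 1) / 2) x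

/-- `Q 1 x ⊓ Q 1 x'` is transitive on the geodesics of length `k + 1 ≤ (n + 1) / 2` from `x` with a
given first step `y ≠ x'`. -/
def T1 : Prop :=
  ∀ x x' y u u' k, S.d x x' = 1 → S.d x y = 1 → y ≠ x' → 2 * (k + 1) ≤ n + 1 →
    S.d x u = k + 1 → S.d y u = k → S.d x u' = k + 1 → S.d y u' = k →
    ∃ g ∈ S.Q 1 x ⊓ S.Q 1 x', g • u = u'

/-- Moufang sets with abelian root groups. -/
def Ms : Prop :=
  ∀ (x α : X) (R : Subgroup G), S.d x α = 1 → R ≤ S.V x α →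
    (∀ β γ, S.d x β = 1 → S.d x γ = 1 → β ≠ α → γ ≠ α → ∃ r ∈ R, r • β = γ) →
    (∀ r ∈ R, ∀ r' ∈ R, ∀ β, S.d x β = 1 → (r * r') • β = (r' * r) • β) →
    (∀ g : G, g • x = x → g • α = α → ∀ r ∈ R, ∃ r' ∈ R, ∀ β, S.d x β = 1 →
      (g * r * g⁻¹) • β = r' • β) →
    (p = 2 → ∀ r ∈ R, ∀ β, S.d x β = 1 → (r * r) • β = β) →
    (p ≠ 2 → ∃ h : G, h • x = x ∧ h • α = α ∧ ∀ r ∈ R, ∀ β, S.d x β = 1 →
      (h * r * h⁻¹ * r) • β = β) →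
    S.Reg x

/-- An inverting element. -/
def Inv : Prop :=
  ∀ (z L M : X) (Φ T K : X → Subgroup G) (c : G), S.d z L = 1 → S.d z M = 1 → L ≠ M →
    (∀ (g : G) l, g • z = z → S.d z l = 1 → ∀ f ∈ Φ l, g * f * g⁻¹ ∈ Φ (g • l)) →
    (∀ (g : G) l, g • z = z → S.d z l = 1 → ∀ f ∈ K l, g * f * g⁻¹ ∈ K (g • l)) →
    (∀ l, S.d z l = 1 → Φ l ≤ S.fixB 1 l) → (∀ l, S.d z l = 1 → T l ≤ S.fixB 1 l) →
    (∀ l l', S.d z l = 1 → S.d z l' = 1 → K l ≤ S.fixB 1 l') →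
    (∀ l, S.d z l = 1 → ∀ t ∈ T l, ∀ f ∈ Φ l, t * f * t⁻¹ * f⁻¹ ∈ K l) →
    (∀ l l', S.d z l = 1 → S.d z l' = 1 → l ≠ M → l' ≠ M → ∃ t ∈ T M, t • l = l') →
    c ∈ Φ L → c ∈ T L → c • M ≠ M →
    ∃ h : G, h • z = z ∧ h • M = M ∧ ∀ r ∈ Φ L ⊓ S.fixB 1 z, ∀ β, S.d M β = 1 →
      (h * r * h⁻¹ * r) • β = β

/-- Quadrangles: root elations for the roots whose ends are lines. -/
def Q4u : Prop :=
  ∀ M P L R x x', S.Cen P → S.d P M = 1 → S.d P L = 1 → M ≠ L → S.d L R = 1 → R ≠ P →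
    S.d M x = 1 → S.d M x' = 1 → x ≠ P → x' ≠ P → ∃ g ∈ S.E L ⊓ S.Q 1 P ⊓ S.Q 1 R, g • x = x'

/-- Hexagons: the central elations. -/
structure H6l : Prop where
  eq : ∀ P l, S.Cen P → S.d P l = 1 → S.Q 3 P = S.A P l
  tr : ∀ P l y y', S.Cen P → S.d P l = 3 → S.d l y = 1 → S.d l y' = 1 → S.d P y = 4 →
    S.d P y' = 4 → ∃ g ∈ S.Q 3 P, g • y = y'
  reg : ∀ l, S.Ln l → S.Reg l
  part : ∀ l, S.Ln l → ∀ e ∈ S.E l, ∃ v, S.d l v = 1 ∧ e ∈ S.Q 3 v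
  comm : ∀ P y y', S.Cen P → S.d P y = 2 → S.d P y' = 2 → ∀ a ∈ S.Q 3 y, ∀ b ∈ S.Q 3 y',
    a * b * a⁻¹ * b⁻¹ ∈ S.Q 3 P

/-- Hexagons: a transitive group on the lines through a point. -/
def H6t : Prop :=
  ∀ P α R β β', S.Cen P → S.d P α = 1 → S.d α R = 1 → R ≠ P → S.d R β = 1 → S.d R β' = 1 →
    β ≠ α → β' ≠ α → ∃ g ∈ S.F P ⊓ S.fixB 1 α, g • β = β'

/-- Octagons: the lines. -/
def O8l : Prop :=
  ∀ l, S.Ln l → S.Reg l ∧ ∀ y, S.d l y = 1 → S.toPol.q l ≤ Nat.card (S.A y l)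

/-- Higman's inequality. -/
def Hig : Prop := ∀ x y, S.d x y = 1 → S.toPol.q x ≤ S.toPol.q y ^ 2

end Sys

/-- Statements about all finite polygons. -/
def AllP (P : ∀ {n : ℕ} {X : Type u} (_ : Pol n X), Prop) : Prop :=
  ∀ {n : ℕ} {X : Type u} [Finite X] (Γ : Pol n X), 3 ≤ n → P Γ

/-- Statements about all finite systems; the basic facts are available. -/
def AllS (P : ∀ {n p : ℕ} {X G : Type u} [Group G] [MulAction G X] (_ : Sys n p X G), Prop) :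
    Prop :=
  ∀ {n p : ℕ} {X G : Type u} [Group G] [MulAction G X] [Finite X] [Finite G] (S : Sys n p X G),
    3 ≤ n → S.toPol.Bas → S.Bas → P S

/-- **G1** -/
def G1Stmt : Prop := AllP.{u} fun Γ => Γ.Bas

/-- **SPH** -/
def SphStmt : Prop := AllP.{u} fun Γ => Γ.Bas → Γ.Sph

/-- **O8C** -/
def O8cStmt : Prop := AllP.{u} fun {n _} Γ => n = 8 → Γ.Bas → Γ.Sph → Γ.O8c

/-- **G2** -/
def G2Stmt : Prop :=
  ∀ {n p : ℕ} {X G : Type u} [Group G] [MulAction G X] [Finite X] [Finite G] (S : Sys n p X G),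
    3 ≤ n → S.toPol.Bas → S.Bas

/-- **P0** -/
def P0Stmt : Prop :=
  ∀ {n : ℕ} {X G : Type u} [Group G] [MulAction G X] [Finite X] [Finite G] [Nonempty X]
    (S : Sys0 n X G), 3 ≤ n → S.toPol.Bas → S.Nil →
    ∃ (p : ℕ) (S' : Sys n p X G), S'.toPol = S.toPol ∧ ∀ x y, S.d x y = 1 → S.V x y ≤ S'.V x y

/-- **ZT** -/
def ZtStmt : Prop := AllS.{u} fun S => S.Zt

/-- **T1** -/
def T1Stmt : Prop := AllS.{u} fun S => S.Zt → S.T1

/-- **MS** -/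
def MsStmt : Prop := AllS.{u} fun S => S.Ms

/-- **INV** -/
def InvStmt : Prop := AllS.{u} fun S => S.Inv

/-- **N3** -/
def N3Stmt : Prop := AllS.{u} fun {n _ _ _} _ _ S => n = 3 → S.Zt → S.T1 → S.toSys0.Reg0

/-- **CE4** -/
def Ce4Stmt : Prop := AllS.{u} fun {n _ _ _} _ _ S =>
  n = 4 → S.Zt → S.T1 → (∃ x, S.Cen x) ∨ S.toSys0.Reg0

/-- **CE68** -/
def Ce68Stmt : Prop := AllS.{u} fun {n _ X _} _ _ S =>
  n = 6 ∨ n = 8 → S.Zt → S.T1 → Nonempty X → ∃ x, S.Cen x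

/-- **Q4U** -/
def Q4uStmt : Prop := AllS.{u} fun {n _ _ _} _ _ S => n = 4 → S.T1 → S.Q4u

/-- **Q4L** -/
def Q4lStmt : Prop := AllS.{u} fun {n _ _ _} _ _ S =>
  n = 4 → S.T1 → S.Ms → S.Inv → S.Q4u → ∀ l, S.Ln l → S.Reg l

/-- **Q4P** -/
def Q4pStmt : Prop := AllS.{u} fun {n _ _ _} _ _ S =>
  n = 4 → S.T1 → S.Q4u → (∀ l, S.Ln l → S.Reg l) → (∃ x, S.Cen x) → S.toSys0.Reg0

/-- **H6L** -/
def H6lStmt : Prop := AllS.{u} fun {n _ _ _} _ _ S => n = 6 → S.T1 → S.H6l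

/-- **H6T** -/
def H6tStmt : Prop := AllS.{u} fun {n _ _ _} _ _ S => n = 6 → S.H6l → S.H6t

/-- **H6P** -/
def H6pStmt : Prop := AllS.{u} fun {n _ _ _} _ _ S =>
  n = 6 → S.T1 → S.Ms → S.Inv → S.H6l → S.H6t → ∀ x, S.Cen x → S.Reg x

/-- **O8L** -/
def O8lStmt : Prop := AllS.{u} fun {n _ _ _} _ _ S => n = 8 → S.T1 → S.O8l

/-- **HIG** -/
def HigStmt : Prop := AllS.{u} fun {n _ _ _} _ _ S => n = 8 → S.toPol.Sph → S.Hig

/-- **O8F** -/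
def O8fStmt : Prop := AllS.{u} fun {n _ _ _} _ _ S =>
  n = 8 → S.toPol.O8c → S.Hig → S.O8l → (∃ x, S.Cen x) → S.toSys0.Reg0

/-- The rank two theorem. -/
def R2Stmt : Prop :=
  ∀ {n : ℕ} {X G : Type u} [Group G] [MulAction G X] [Finite X] [Finite G] (S : Sys0 n X G),
    n = 3 ∨ n = 4 ∨ n = 6 ∨ n = 8 → S.Nil → S.Reg0

/-- All pieces of the rank two theorem. -/
structure Pieces : Prop where
  g1 : G1Stmt.{u}
  sph : SphStmt.{u}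
  o8c : O8cStmt.{u}
  g2 : G2Stmt.{u}
  p0 : P0Stmt.{u}
  zt : ZtStmt.{u}
  t1 : T1Stmt.{u}
  ms : MsStmt.{u}
  inv : InvStmt.{u}
  n3 : N3Stmt.{u}
  ce4 : Ce4Stmt.{u}
  ce68 : Ce68Stmt.{u}
  q4u : Q4uStmt.{u}
  q4l : Q4lStmt.{u}
  q4p : Q4pStmt.{u}
  h6l : H6lStmt.{u}
  h6t : H6tStmt.{u}
  h6p : H6pStmt.{u}
  o8l : O8lStmt.{u}
  hig : HigStmt.{u}
  o8f : O8fStmt.{u}

/-- Assembly of the rank two theorem. -/
theorem r2 (H : Pieces.{u}) : R2Stmt.{u} := by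
  intro n X G _ _ _ _ S0 hn hnil x y u v ho g hg hu hv
  have h3 : 3 ≤ n := by omega
  haveI : Nonempty X := ⟨x⟩
  obtain ⟨p, S, hS, hV⟩ := H.p0 S0 h3 (H.g1 S0.toPol h3) hnil
  have b1 : S.toPol.Bas := H.g1 S.toPol h3
  have b2 : S.Bas := H.g2 S h3 b1
  have zt := H.zt S h3 b1 b2
  have t1 := H.t1 S h3 b1 b2 zt
  have ms := H.ms S h3 b1 b2
  have inv := H.inv S h3 b1 b2
  suffices h : S.toSys0.Reg0 from h x y u v (hS ▸ ho) g (hV x y ho.1 hg) hu hv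
  rcases hn with hn | hn | hn | hn
  · exact H.n3 S h3 b1 b2 hn zt t1
  · rcases H.ce4 S h3 b1 b2 hn zt t1 with hc | hc
    · have q4u := H.q4u S h3 b1 b2 hn t1
      exact H.q4p S h3 b1 b2 hn t1 q4u (H.q4l S h3 b1 b2 hn t1 ms inv q4u) hc
    · exact hc
  · obtain ⟨o, hc⟩ := H.ce68 S h3 b1 b2 (.inl hn) zt t1 ⟨x⟩
    have h6l := H.h6l S h3 b1 b2 hn t1
    refine b2.reg0 fun w => ?_
    rcases Nat.even_or_odd (S.d o w) with he | he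
    · exact H.h6p S h3 b1 b2 hn t1 ms inv h6l (H.h6t S h3 b1 b2 hn h6l) w (b2.cen_even o w hc he)
    · exact h6l.reg w (b2.ln_odd o w hc he)
  · have sph := H.sph S.toPol h3 b1
    exact H.o8f S h3 b1 b2 hn (H.o8c S.toPol h3 hn b1 sph) (H.hig S h3 b1 b2 hn sph)
      (H.o8l S h3 b1 b2 hn t1) (H.ce68 S h3 b1 b2 (.inr hn) zt t1 ⟨x⟩)

end Cfsg.Agent.H49.BN2
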