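import Cfsg.Agent.H49.BN2Kit

set_option autoImplicit false

namespace Cfsg.Agent.H49.BN2.H6L

open Cfsg.Agent.H49.BN2 Sys

universe u

variable {p : ℕ} {X G : Type u} [Group G] [MulAction G X] {S : Sys 6 p X G}
  (b1 : S.toPol.Bas) (b2 : S.Bas) (t1 : S.T1)
include b1 b2 t1

omit b1 in
theorem act1 {l y m z : X} (ly : S.d l y = 1) (ym : S.d y m = 1) (ml : m ≠ l) (lz : S.d l z = 1)
    (zy : z ≠ y) {e : G} (he : e ∈ S.E l) : ∃ a ∈ S.A z l, a⁻¹ * e ∈ S.fixB 1 m := by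
  have ml2 : S.d m l = 2 := two ym (sy ly) ml
  have far : ∀ v, S.d l v = 1 → v ≠ y → S.d m v = 3 := fun v h1 h2 =>
    fwd (by omega) ml2 (sy ym) ly h1 h2
  refine act b2 (fun a ha => ha.2.1 m (by rw [S.d_symm, far z lz zy])) (fun v hv => ?_) he
  by_cases e : v = y
  · left
    intro a ha w hw
    refine ha.2.1 w ?_
    have := S.step m y w (sy ym)
    rw [e]; omega
  · right
    obtain ⟨t, ht, tz⟩ := t2 t1 (sy ym) (k := 2) (by omega) (far z lz zy) (two ly lz zy.symm)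
      (far v hv e) (two ly hv (Ne.symm e))
    refine ⟨t, ht.2, tz, ?_⟩
    exact back_uniq (k := 2) (by omega) (far v hv e) (by rw [d_left t tz]; exact sy lz) (sy hv)
      (by rw [d_left t (fix_self ht.2)]; exact ml2) ml2

theorem eqA {l z : X} (lz : S.d l z = 1) {e : G} (he : e ∈ S.E l) (h3 : e ∈ S.fixB 3 z) :
    e ∈ S.A z l := by
  obtain ⟨y, ly, yz, -⟩ := S.thick l z z
  obtain ⟨m, ym, ml, -⟩ := S.thick y l l
  obtain ⟨a, ha, h⟩ := act1 b2 t1 ly ym ml lz yz.symm he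
  have zm : S.d z m = 3 := fwd (by omega) (two lz ly yz.symm) (sy lz) (sy ly) ym ml
  have := disj b1 b2 (by omega) (mul_mem (inv_mem ha.2.1) h3) h (by omega)
  rwa [← inv_mul_eq_one.1 this]

section

variable {l z y1 P y : X} (lz : S.d l z = 1) (zy1 : S.d z y1 = 1) (n1 : y1 ≠ l)
  (y1P : S.d y1 P = 1) (n2 : P ≠ z)
include lz zy1 n1 y1P n2

omit b1 b2 t1 in
theorem dPl : S.d P l = 3 := sy (fwd (by omega) (two (sy lz) zy1 n1.symm) lz (sy zy1) y1P n2)

omit b1 b2 t1 in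
theorem dPy (ly : S.d l y = 1) (n3 : y ≠ z) : S.d P y = 4 :=
  fwd (by omega) (dPl lz zy1 n1 y1P n2) (two y1P (sy zy1) n2) lz ly n3

theorem comm3 (ly : S.d l y = 1) (n3 : y ≠ z) {u e : G} (hu : u ∈ S.A P y1) (he : e ∈ S.A y l) :
    u * e * u⁻¹ * e⁻¹ ∈ S.A z l := by
  have ul : u • l = l := hu.2.1 l (by rw [dPl lz zy1 n1 y1P n2])
  have ey : e • y1 = y1 := he.2.1 y1 (by rw [dPl (sy zy1) (sy lz) n1.symm ly n3])
  have k1 : u * e * u⁻¹ * e⁻¹ ∈ S.E l := by
    have := b2.E_conj l u e (mem_E ly he)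
    rw [ul] at this
    exact mul_mem this (inv_mem (mem_E ly he))
  have k2 : u * e * u⁻¹ * e⁻¹ ∈ S.E y1 := by
    have := b2.E_conj y1 e _ (inv_mem (mem_E y1P hu))
    rw [ey] at this
    have := mul_mem (mem_E y1P hu) this
    convert this using 1
    group
  have k3 := (b2.E_le l (by omega) k1).2
  refine eqA b1 b2 t1 lz k1 (fixB_succ (k3 z (by omega)) fun m hm => ?_)
  by_cases e : m = l
  · rw [e]; exact k3
  · obtain ⟨g, hg, gm⟩ := t2 t1 lz (k := 1) (by omega) (two (sy lz) zy1 n1.symm) zy1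
      (two (sy lz) hm (Ne.symm e)) hm
    rw [← gm]
    exact trick b2 (b2.E_le y1 (by omega) k2).2 (b2.E_cent l _ k1 g hg)

variable [Finite G]

theorem surj (ly : S.d l y = 1) (n3 : y ≠ z) {e f : G} (he : e ∈ S.A y l) (e1 : e ≠ 1)
    (hf : f ∈ S.A z l) : ∃ u ∈ S.A P y1, u * e * u⁻¹ = f * e := by
  obtain ⟨u, hu, h⟩ := onto (s := (S.A P y1 : Set G)) (t := (S.A z l : Set G))
    (ncard_A b2 (sy lz) (sy y1P) (by rw [two (sy zy1) y1P n2.symm]; decide)).le
    (fun u => u * e * u⁻¹ * e⁻¹) (fun u hu => comm3 b1 b2 t1 lz zy1 n1 y1P n2 ly n3 hu he)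
    (fun u hu u' hu' h => by
      have hc : u'⁻¹ * u ∈ S.A P y1 := mul_mem (inv_mem hu') hu
      have h1 : u'⁻¹ * u * e = e * (u'⁻¹ * u) := by
        have h : u * e * u⁻¹ = u' * e * u'⁻¹ := mul_right_cancel h
        calc u'⁻¹ * u * e = u'⁻¹ * (u * e * u⁻¹) * u := by group
          _ = _ := by rw [h]; group
      have h2 : (u'⁻¹ * u) • y = y := by
        by_contra hne
        have := two (by rw [d_left _ (hc.2.1 l (by rw [dPl lz zy1 n1 y1P n2]))]; exact ly) ly hne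
        exact e1 (disj b1 b2 (by omega) (trick b2 he.2.1 h1) he.2.1 (by omega))
      have := b2.rigA _ P y 3 (by omega) hc.2.1 h2 (by rw [dPy lz zy1 n1 y1P n2 ly n3])
      exact (inv_mul_eq_one.1 this).symm) hf
  exact ⟨u, hu, by rw [← h]; group⟩

theorem tr0 (hl : S.Ln l) (ly : S.d l y = 1) (n3 : y ≠ z) {s : X} (ls : S.d l s = 1) (n4 : s ≠ z) :
    ∃ u ∈ S.A P y1, u • y = s := by
  by_cases n5 : y = s
  · exact ⟨1, one_mem _, by rw [one_smul, n5]⟩
  obtain ⟨m, sm, ml, -⟩ := S.thick s l l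
  obtain ⟨f, hf, f1⟩ := b2.A_ne z l (by omega) (hl z lz) (sy lz)
  obtain ⟨a, ha, h⟩ := act1 b2 t1 ls sm ml ly n5 (mem_E lz hf)
  have far : ∀ v, S.d l v = 1 → v ≠ s → S.d v m = 3 := fun v h1 h2 =>
    sy (fwd (by omega) (two sm (sy ls) ml) (sy sm) ls h1 h2)
  have a1 : a⁻¹ ≠ 1 := fun e => by
    rw [e, one_mul] at h
    exact f1 (disj b1 b2 (by omega) hf.2.1 h (by rw [far z lz n4.symm]))
  obtain ⟨u, hu, e⟩ := surj b1 b2 t1 lz zy1 n1 y1P n2 ly n3 (inv_mem ha) a1 hf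
  refine ⟨u, hu, by_contra fun hne => a1 ?_⟩
  rw [← E_comm b2 (by omega) (mem_E ly (inv_mem ha)) (mem_E lz hf), ← eq_comm] at e
  have ul : u • l = l := hu.2.1 l (by rw [dPl lz zy1 n1 y1P n2])
  have := disj b1 b2 (by omega) (b2.fixB_conj _ y u _ (inv_mem ha).2.1) (e ▸ h)
    (by rw [far _ (by rwa [d_left u ul]) hne])
  simpa using this

theorem eq0 (hl : S.Ln l) : S.Q 3 P = S.A P y1 := by
  refine le_antisymm (fun g hg => ?_) (b2.A_le P y1 (by omega) (sy y1P))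
  obtain ⟨y, ly, n3, -⟩ := S.thick l z z
  have gl : g • l = l := hg.2 l (by rw [dPl lz zy1 n1 y1P n2])
  have gz : g • z = z := hg.2 z (by rw [two y1P (sy zy1) n2]; omega)
  obtain ⟨u, hu, e⟩ := tr0 b1 b2 t1 lz zy1 n1 y1P n2 hl ly n3 (s := g • y) (by rwa [d_left g gl])
    fun e => n3 (smul_left_cancel g (e.trans gz.symm))
  have := b2.rigA _ P y 3 (by omega) (mul_mem (inv_mem hu.2.1) hg.2)
    (by rw [mul_smul, inv_smul_eq_iff, e]) (by rw [dPy lz zy1 n1 y1P n2 ly n3])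
  rwa [← inv_mul_eq_one.1 this]

end

variable [Finite G]

theorem eq1 {P l : X} (hP : S.Cen P) (h : S.d P l = 1) : S.Q 3 P = S.A P l := by
  obtain ⟨z, lz, zP, -⟩ := S.thick l P P
  obtain ⟨m, zm, ml, -⟩ := S.thick z l l
  exact eq0 b1 b2 t1 (sy zm) (sy lz) ml.symm (sy h) zP.symm
    (b2.ln_odd P m hP (by rw [dPl (sy zm) (sy lz) ml.symm (sy h) zP.symm]; decide))

theorem h6l : S.H6l where
  eq _ _ := eq1 b1 b2 t1
  tr P l y y' hP h ly ly' py py' := by
    obtain ⟨z, lz, pz⟩ := back h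
    obtain ⟨y1, zy1, py1⟩ := back pz
    obtain ⟨u, hu, e⟩ := tr0 b1 b2 t1 lz zy1 (S.ne_of_d (x := P) (by omega)) (sy py1)
      (S.ne_of_pos (by omega)) (b2.ln_odd P l hP (by rw [h]; decide)) ly
      (S.ne_of_d (x := P) (by omega)) ly' (S.ne_of_d (x := P) (by omega))
    exact ⟨u, b2.A_le P y1 (by omega) py1 hu, e⟩
  reg l hl z y lz ly zy w hw wy := by
    obtain ⟨y1, zy1, n1, -⟩ := S.thick z l l
    obtain ⟨P, y1P, n2, -⟩ := S.thick y1 z z
    have wl := S.V_fix l z lz w hw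
    have wz := V_fix' lz hw
    have lP := sy (dPl lz zy1 n1 y1P n2)
    have zP := two (sy zy1) y1P n2.symm
    obtain ⟨t, ht, tP⟩ := t2 t1 lz (k := 2) (by omega) (u := w • P) (by rwa [d_left w wl])
      (by rwa [d_left w wz]) lP zP
    have hV : t * w ∈ S.V l z := mul_mem (b2.Q_le 1 l z lz ht) hw
    have e1 : (t * w) • P = P := by rw [mul_smul, tP]
    have e2 : (t * w) • y1 = y1 := b2.geo_fix _ z P y1 (V_fix' lz hV) e1 (by omega) (by omega)
    have hV' := b2.uni l z P y1 lz (sy y1P) _ hV e1 e2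
    have e3 : (t * w) • y = y := by rw [mul_smul, wy, ht.2 y ly.le]
    refine fix1 wl fun s ls => ?_
    by_cases n4 : s = z
    · rw [n4, wz]
    obtain ⟨u, hu, e⟩ := tr0 b1 b2 t1 lz zy1 n1 y1P n2 hl ly zy.symm ls n4
    have := comm_smul (A_cent hu hV') e3
    rw [e, mul_smul] at this
    exact smul_left_cancel t (this.trans (ht.2 s ls.le).symm)
  part l hl e he := by
    obtain ⟨z, lz, -⟩ := S.thick l l l
    obtain ⟨y, ly, n3, -⟩ := S.thick l z z
    obtain ⟨y1, zy1, n1, -⟩ := S.thick z l l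
    obtain ⟨P, y1P, n2, -⟩ := S.thick y1 z z
    have key : e ∈ S.A z l ⊔ S.A y l := by
      refine E_le_of (fun v lv a ha => ?_) he
      by_cases n4 : v = z
      · exact Subgroup.mem_sup_left (n4 ▸ ha)
      obtain ⟨u, hu, e⟩ := tr0 b1 b2 t1 lz zy1 n1 y1P n2 hl lv n4 ly n3
      have h1 := b2.A_conj v l u (sy lv) a ha
      rw [e, hu.2.1 l (by rw [dPl lz zy1 n1 y1P n2])] at h1
      have h2 := comm3 b1 b2 t1 lz zy1 n1 y1P n2 lv n4 hu ha
      have := mul_mem (Subgroup.mem_sup_left (T := S.A y l) (inv_mem h2))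
        (Subgroup.mem_sup_right (S := S.A z l) h1)
      convert this using 1
      group
    have key2 : ∃ f ∈ S.A z l, ∃ a ∈ S.A y l, f * a = e := by
      let K : Subgroup G :=
        { carrier := {e | ∃ f ∈ S.A z l, ∃ a ∈ S.A y l, f * a = e}
          one_mem' := ⟨1, one_mem _, 1, one_mem _, one_mul 1⟩
          mul_mem' := by
            rintro _ _ ⟨f, hf, a, ha, rfl⟩ ⟨f', hf', a', ha', rfl⟩
            refine ⟨_, mul_mem hf hf', _, mul_mem ha ha', ?_⟩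
            rw [mul_assoc f, ← mul_assoc f', E_comm b2 (by omega) (mem_E lz hf') (mem_E ly ha)]
            group
          inv_mem' := by
            rintro _ ⟨f, hf, a, ha, rfl⟩
            refine ⟨_, inv_mem hf, _, inv_mem ha, ?_⟩
            rw [E_comm b2 (by omega) (mem_E lz hf) (mem_E ly ha), mul_inv_rev] }
      exact (sup_le (fun f hf => ⟨f, hf, 1, one_mem _, mul_one f⟩)
        (fun a ha => ⟨1, one_mem _, a, ha, one_mul a⟩) : _ ≤ K) key
    obtain ⟨f, hf, a, ha, rfl⟩ := key2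
    by_cases a1 : a = 1
    · exact ⟨z, lz, by rw [a1, mul_one]; exact b2.A_le z l (by omega) (sy lz) hf⟩
    obtain ⟨u, hu, e⟩ := surj b1 b2 t1 lz zy1 n1 y1P n2 ly n3 ha a1 hf
    exact ⟨u • y, by rwa [d_left u (hu.2.1 l (by rw [dPl lz zy1 n1 y1P n2]))],
      e ▸ b2.Q_conj _ y u a (b2.A_le y l (by omega) (sy ly) ha)⟩
  comm P y y' hP py py' a ha b hb := by
    obtain ⟨m, ym, pm⟩ := back py
    obtain ⟨l, yl, pl⟩ := back py'
    rw [eq1 b1 b2 t1 (b2.cen_even P y hP (by rw [py]; decide)) ym] at ha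
    rw [eq1 b1 b2 t1 (b2.cen_even P y' hP (by rw [py']; decide)) yl] at hb
    by_cases e : m = l
    · subst e
      rw [E_comm b2 (by omega) (mem_E (sy ym) ha) (mem_E (sy yl) hb)]
      simpa using one_mem _
    · exact b2.A_le P l (by omega) pl (comm3 b1 b2 t1 (sy pl) pm e (sy ym)
        (S.ne_of_pos (by omega)).symm (sy yl) (S.ne_of_pos (by omega)).symm ha hb)

omit b1 b2 t1 in
theorem h6lStmt : H6lStmt.{u} := by
  intro n p X G _ _ _ _ S _ b1 b2 hn t1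
  subst hn
  exact h6l b1 b2 t1

end Cfsg.Agent.H49.BN2.H6L
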