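import Cfsg.Agent.H49.BN2Kit

set_option autoImplicit false

namespace Cfsg.Agent.H49.BN2.H6T

open Cfsg.Agent.H49.BN2 Sys

universe u

variable {p : ℕ} {X G : Type u} [Group G] [MulAction G X] {S : Sys 6 p X G}
  (b1 : S.toPol.Bas) (b2 : S.Bas) (H : S.H6l)
include b1 b2

/-- The line at distance three from `s` on the way to `a`. -/
theorem lam {P l s a x x' : X} {g : G} (pl : S.d P l = 1) (ls : S.d l s = 1) (sP : s ≠ P)
    (la : S.d l a = 6) (xa : S.d x a = 1) (sx : S.d s x = 6) (hg : g ∈ S.Q 3 s) (gx : g • x = x') :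
    ∃ lam, S.d a lam = 2 ∧ S.d lam x' = 3 ∧ S.d lam P = 5 ∧ S.d lam l = 4 := by
  have sa : S.d s a = 5 := by have := opp_nb sx xa; omega
  obtain ⟨lam, h1, h2⟩ := b1.geo_ex s a 3 (by omega)
  have h3 : S.d a lam = 2 := by rw [S.d_symm]; omega
  have h4 : S.d lam x = 3 := by
    have := b1.tri s lam x
    have := b1.tri lam a x
    rw [S.d_symm a x, S.d_symm lam a] at this
    omega
  have h5 : S.d lam l = 4 := by
    have := b1.tri l lam a
    have := S.step l s lam ls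
    rw [S.d_symm l lam, S.d_symm lam a] at *
    omega
  refine ⟨lam, h3, by rw [← gx, d_left g (hg.2 lam h1.le), h4], ?_, h5⟩
  exact fwd (by omega) h5 (sy h1) ls (sy pl) sP.symm

include H

theorem Q_le_F {P l s : X} (hP : S.Cen P) (pl : S.d P l = 1) (ls : S.d l s = 1) {g : G}
    (hg : g ∈ S.Q 3 s) : g ∈ S.E l :=
  mem_E ls (H.eq s l (b2.ln_odd P l hP (by rw [pl]; decide) s ls) (sy ls) ▸ hg)

theorem h6t [Finite X] : S.H6t := by
  intro P α R β β' hP pα αR RP Rβ Rβ' n1 n2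
  have lα := b2.ln_odd P α hP (by rw [pα]; decide)
  have dS : ∀ l s, S.d P l = 1 → l ≠ α → S.d l s = 1 → s ≠ P → S.d s α = 3 := fun l s a b c e =>
    sy (fwd (by omega) (two pα a b.symm) (sy pα) (sy a) c e)
  have dR : ∀ l s y, S.d P l = 1 → l ≠ α → S.d l s = 1 → s ≠ P → S.d α y = 1 → y ≠ P →
      S.d s y = 4 := fun l s y a b c e f g =>
    fwd (by omega) (dS l s a b c e) (two c (sy a) e) (sy pα) f g
  obtain ⟨l0, pl0, l0α, -⟩ := S.thick P α α
  obtain ⟨s0, l0s, s0P, -⟩ := S.thick l0 P P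
  obtain ⟨v, hv, v1⟩ := b2.ln_odd P l0 hP (by rw [pl0]; decide) s0 l0s
  have vα : v • α = α := hv.2 α (by rw [dS l0 s0 pl0 l0α l0s s0P])
  have vP : v • P = P := hv.2 P (by rw [two l0s (sy pl0) s0P]; omega)
  have αR' : S.d α (v • R) = 1 := by rwa [d_left v vα]
  have R'P : v • R ≠ P := fun e => RP (smul_left_cancel v (e.trans vP.symm))
  have R'R : v • R ≠ R := fun e =>
    v1 (b2.rigA v s0 R 3 (by omega) hv.2 e (by rw [dR l0 s0 R pl0 l0α l0s s0P αR RP]))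
  have ex : ∀ l, ∃ s, ∃ g : G, l ∈ S.toPol.nb P \ {α} →
      S.d l s = 1 ∧ s ≠ P ∧ g ∈ S.Q 3 s ∧ g • R = v • R := fun l => by
    by_cases hl : l ∈ S.toPol.nb P \ {α}
    · obtain ⟨s, ls, sP, -⟩ := S.thick l P P
      obtain ⟨g, hg, e⟩ := H.tr s α R (v • R)
        (b2.ln_odd P l hP (by rw [hl.1]; decide) s ls) (dS l s hl.1 hl.2 ls sP) αR αR'
        (dR l s R hl.1 hl.2 ls sP αR RP) (dR l s _ hl.1 hl.2 ls sP αR' R'P)
      exact ⟨s, g, fun _ => ⟨ls, sP, hg, e⟩⟩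
    · exact ⟨l, 1, fun h => (hl h).elim⟩
  choose s g hs using ex
  have mem : ∀ l ∈ S.toPol.nb P \ {α}, v⁻¹ * g l ∈ S.F P ⊓ S.fixB 1 α := fun l hl => by
    obtain ⟨ls, sP, hg, e⟩ := hs l hl
    have m1 := Q_le_F b1 b2 H hP pl0 l0s hv
    have m2 := Q_le_F b1 b2 H hP hl.1 ls hg
    have q : ∀ l, S.d P l = 1 → ∀ e ∈ S.E l, e ∈ S.V α P := fun l pl e he => S.V_symm _ _ ▸
      b2.Q_le 1 P α pα (b2.Q_mono _ 1 l P le_rfl (by rw [sy pl]) (b2.E_le l (by omega) he))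
    exact Subgroup.mem_inf.2 ⟨mul_mem (inv_mem (mem_F pl0 m1)) (mem_F hl.1 m2), H.reg α lα P R (sy pα) αR RP.symm _
      (mul_mem (inv_mem (q _ pl0 _ m1)) (q _ hl.1 _ m2)) (by rw [mul_smul, e, inv_smul_smul])⟩
  have PR := two (sy pα) αR RP.symm
  obtain ⟨l, hl, e⟩ := onto (s := S.toPol.nb P \ {α}) (t := S.toPol.nb R \ {α})
    (by rw [b1.card_nb P α pα, b1.card_nb R α (sy αR), b2.q_even P R (by rw [PR]; decide)])
    (fun l => (v⁻¹ * g l) • β) (fun l hl => ⟨by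
      have := (mem l hl).2
      change S.d R _ = 1
      rwa [d_left _ (this R αR.le)], fun e =>
        n1 (smul_left_cancel _ ((e : _ = α).trans (fix_self (mem l hl).2).symm))⟩)
    (fun l hl l' hl' e => by
      by_contra hne
      obtain ⟨ls, sP, hg, e1⟩ := hs l hl
      obtain ⟨ls', sP', hg', e1'⟩ := hs l' hl'
      have e : g l • β = g l' • β := by
        simp only [mul_smul] at e
        exact smul_left_cancel _ e
      obtain ⟨x, βx, xR, -⟩ := S.thick β R R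
      obtain ⟨a, xa, aβ, -⟩ := S.thick x β β
      have gα := hg.2 α (by rw [dS l _ hl.1 hl.2 ls sP])
      have gP := hg.2 P (by rw [two ls (sy hl.1) sP]; omega)
      have gP' := hg'.2 P (by rw [two ls' (sy hl'.1) sP']; omega)
      have Pβ : S.d P β = 3 := fwd (by omega) PR pα (sy αR) Rβ n1
      have Px : S.d P x = 4 := fwd (by omega) Pβ PR (sy Rβ) βx xR
      obtain ⟨c, hc, cx⟩ := H.tr P (g l • β) (g l • x) (g l' • x) hP (by rwa [d_left _ gP])
        (by rwa [S.d_smul]) (by rwa [e, S.d_smul]) (by rwa [d_left _ gP]) (by rwa [d_left _ gP'])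
      obtain ⟨s1, ls1, hs1⟩ := H.part l (b2.ln_odd P l hP (by rw [hl.1]; decide)) (c * g l)
        (mul_mem (Q_le_F b1 b2 H hP hl.1 (sy hl.1) hc) (Q_le_F b1 b2 H hP hl.1 ls hg))
      have s1P : s1 ≠ P := fun e => R'R (by
        have h1 := hs1.2 R (by rw [e, PR]; omega)
        rw [mul_smul, e1, hc.2 _ (by rw [two (sy pα) αR' R'P.symm]; omega)] at h1
        exact h1)
      have key : ∀ l s, S.d P l = 1 → l ≠ α → S.d l s = 1 → s ≠ P → S.d l a = 6 ∧ S.d s x = 6 :=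
        fun l s pl lα ls sP => by
          have h2 := two pl pα lα
          have h3 := fwd (by omega) h2 (sy pl) (sy pα) αR RP
          have h4 := fwd (by omega) h3 h2 (sy αR) Rβ n1
          have h5 := fwd (by omega) h4 h3 (sy Rβ) βx xR
          have k4 := dR l s R pl lα ls sP αR RP
          have k5 := fwd (by omega) k4 (dS l s pl lα ls sP) (sy αR) Rβ n1
          exact ⟨fwd (by omega) h5 h4 (sy βx) xa aβ, fwd (by omega) k5 k4 (sy Rβ) βx xR⟩
      obtain ⟨m, m1, m2, m3, m4⟩ := lam b1 b2 hl.1 ls1 s1P (key l s1 hl.1 hl.2 ls1 s1P).1 xa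
        (key l s1 hl.1 hl.2 ls1 s1P).2 hs1 (by rw [mul_smul, cx])
      obtain ⟨m', m1', m2', m3', m4'⟩ := lam b1 b2 hl'.1 ls' sP' (key l' _ hl'.1 hl'.2 ls' sP').1 xa
        (key l' _ hl'.1 hl'.2 ls' sP').2 hg' rfl
      have xx : S.d x (g l' • x) = 6 := by
        have h2 := two βx (sy Rβ) xR
        have h3 := fwd (by omega) h2 (sy βx) Rβ (sy αR) n1.symm
        have h4 := fwd (by omega) h3 h2 αR αR' R'R
        have gα' := hg'.2 α (by rw [dS l' _ hl'.1 hl'.2 ls' sP'])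
        have h5 := fwd (y' := g l' • β) (by omega) h4 h3 (sy αR') (by rwa [d_left _ e1'])
          fun e => n1 (smul_left_cancel _ (e.trans gα'.symm))
        exact fwd (by omega) h5 h4 (by rw [← e1', S.d_smul]; exact sy Rβ) (by rwa [S.d_smul])
          fun e => xR (smul_left_cancel _ (e.trans e1'.symm))
      have ax : S.d a (g l' • x) = 5 := by have := opp_nb (sy xx) xa; rw [S.d_symm]; omega
      have := b1.geo_uniq a (g l' • x) m m' (by omega) (by omega) (by omega) (by omega)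
      subst this
      exact hne (back_uniq (by omega) m3 hl.1 hl'.1 m4 m4')) ⟨Rβ', n2⟩
  exact ⟨_, mem l hl, e⟩

omit b1 b2 H in
theorem h6tStmt : H6tStmt.{u} := by
  intro n p X G _ _ _ _ S _ b1 b2 hn H
  subst hn
  exact h6t b1 b2 H

theorem E_sub {P l : X} (hP : S.Cen P) (pl : S.d P l = 1) {e : G} (he : e ∈ S.E l) :
    e ∈ S.Q 3 P ∨ ∃ y, S.d P y = 2 ∧ e ∈ S.Q 3 y := by
  obtain ⟨v, lv, h⟩ := H.part l (b2.ln_odd P l hP (by rw [pl]; decide)) e he
  by_cases e : P = v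
  · exact .inl (e ▸ h)
  · exact .inr ⟨v, two (sy pl) lv e, h⟩

omit H in
theorem F_le (P : X) : S.F P ≤ S.Q 1 P := F_le_of fun l pl _ he =>
  b2.Q_mono _ 1 l P le_rfl (by rw [sy pl]) (b2.E_le l (by omega) he)

theorem C_cent {P : X} (hP : S.Cen P) {c f : G} (hc : c ∈ S.Q 3 P) (hf : f ∈ S.F P) :
    f * c = c * f := by
  obtain ⟨l, pl, -⟩ := S.thick P P P
  exact A_cent (H.eq P l hP pl ▸ hc) (b2.Q_le 1 P l pl (F_le b1 b2 P hf))

theorem F_comm {P : X} (hP : S.Cen P) {t f : G} (ht : t ∈ S.F P) (hf : f ∈ S.F P) :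
    t * f * t⁻¹ * f⁻¹ ∈ S.Q 3 P := by
  have nm : ∀ g ∈ S.F P, ∀ c ∈ S.Q 3 P, g * c * g⁻¹ ∈ S.Q 3 P := fun g hg c hc => by
    rwa [C_cent b1 b2 H hP hc hg, mul_inv_cancel_right]
  have key : ∀ (f : G), (∀ l, S.d P l = 1 → ∀ t ∈ S.E l, t * f * t⁻¹ * f⁻¹ ∈ S.Q 3 P) →
      ∀ t ∈ S.F P, t * f * t⁻¹ * f⁻¹ ∈ S.Q 3 P := fun f h t ht => by
    let K : Subgroup G :=
      { carrier := {t | t ∈ S.F P ∧ t * f * t⁻¹ * f⁻¹ ∈ S.Q 3 P}
        one_mem' := ⟨one_mem _, by simpa using one_mem _⟩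
        mul_mem' := fun {a b} ha hb => ⟨mul_mem ha.1 hb.1, by
          have := mul_mem (nm a ha.1 _ hb.2) ha.2
          convert this using 1
          group⟩
        inv_mem' := fun {a} ha => ⟨inv_mem ha.1, by
          have := nm _ (inv_mem ha.1) _ (inv_mem ha.2)
          convert this using 1
          group⟩ }
    exact (F_le_of (K := K) (fun l pl t ht => ⟨mem_F pl ht, h l pl t ht⟩) ht).2
  refine key f (fun l pl t ht => ?_) t ht
  have := inv_mem (key t (fun l' pl' f hf => ?_) f hf)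
  · convert this using 1
    group
  rcases E_sub b1 b2 H hP pl ht with h | ⟨y, py, h⟩
  · rw [C_cent b1 b2 H hP h (mem_F pl' hf)]
    simpa using one_mem _
  rcases E_sub b1 b2 H hP pl' hf with h' | ⟨y', py', h'⟩
  · rw [← C_cent b1 b2 H hP h' (mem_F pl ht)]
    simpa using one_mem _
  exact H.comm P y' y hP py' py f h' t h

theorem F_sq {P : X} (hP : S.Cen P) (h2 : p = 2) {f : G} (hf : f ∈ S.F P) : f * f ∈ S.Q 3 P := by
  have nm : ∀ g ∈ S.F P, ∀ c ∈ S.Q 3 P, g * c * g⁻¹ ∈ S.Q 3 P := fun g hg c hc => by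
    rwa [C_cent b1 b2 H hP hc hg, mul_inv_cancel_right]
  let K : Subgroup G :=
    { carrier := {t | t ∈ S.F P ∧ t * t ∈ S.Q 3 P}
      one_mem' := ⟨one_mem _, by simpa using one_mem _⟩
      mul_mem' := fun {a b} ha hb => ⟨mul_mem ha.1 hb.1, by
        have := mul_mem (mul_mem (nm a ha.1 _ (F_comm b1 b2 H hP hb.1 ha.1)) ha.2) hb.2
        convert this using 1
        group⟩
      inv_mem' := fun {a} ha => ⟨inv_mem ha.1, by
        have := inv_mem ha.2
        convert this using 1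
        group⟩ }
  refine (F_le_of (K := K) (fun l pl t ht => ⟨mem_F pl ht, ?_⟩) hf).2
  have := b2.E_pow l (by omega) t ht
  rw [h2, sq] at this
  rw [this]
  exact one_mem _

omit b1 b2 H in
theorem h6pStmt : H6pStmt.{u} := by
  intro n p X G _ _ _ _ S _ b1 b2 hn t1 ms inv H ht x hx
  subst hn
  obtain ⟨α, xα, -⟩ := S.thick x x x
  obtain ⟨P, αP, Px, -⟩ := S.thick α x x
  have lα := b2.ln_odd x α hx (by rw [xα]; decide)
  have hP := lα P αP
  have CB : ∀ y y', S.d α y = 1 → S.d α y' = 1 → S.Q 3 y ≤ S.fixB 1 y' := fun y y' h h' g hg =>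
    fixB_mono b1 (by have := b1.tri y α y'; rw [sy h] at this; omega) hg.2
  have triv : ∀ a b : G, b⁻¹ * a ∈ S.fixB 1 x → ∀ β, S.d x β = 1 → a • β = b • β :=
    fun a b h β hβ => by
      have := h β hβ.le
      rwa [mul_smul, inv_smul_eq_iff] at this
  refine ms x α (S.F P ⊓ S.fixB 1 α) xα (fun r hr => ?_) (fun β γ a b c e => ?_)
    (fun r hr r' hr' => ?_) (fun g gx gα r hr => ?_) (fun h2 r hr β hβ => ?_) fun _ => ?_
  · exact b2.uni P α x α (sy αP) xα r (b2.Q_le 1 P α (sy αP) (F_le b1 b2 P hr.1))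
      (hr.2 x (sy xα).le) (fix_self hr.2)
  · exact ht P α x β γ hP (sy αP) (sy xα) Px.symm a b c e
  · refine triv _ _ ?_
    have := CB P x αP (sy xα) (F_comm b1 b2 H hP (inv_mem hr.1) (inv_mem hr'.1))
    convert this using 1
    group
  · obtain ⟨t, ht, tP⟩ := t2 t1 xα (k := 1) (by omega) (two (sy xα) αP Px.symm) αP (u' := g • P)
      (by rw [d_left g gx]; exact two (sy xα) αP Px.symm) (by rwa [d_left g gα])
    refine ⟨t⁻¹ * (g * r * g⁻¹) * t⁻¹⁻¹, ⟨?_, ?_⟩, fun β hβ => ?_⟩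
    · have := b2.F_conj _ t⁻¹ _ (b2.F_conj P g r hr.1)
      rwa [← tP, inv_smul_smul] at this
    · have := b2.fixB_conj _ _ t⁻¹ _ (b2.fixB_conj 1 α g r hr.2)
      rwa [gα, (inv_mem ht).2 α xα.le] at this
    · rw [inv_inv, mul_smul _ t, ht.2 β hβ.le, mul_smul t⁻¹, (inv_mem ht).2]
      have : (g * r * g⁻¹) • x = x := by
        rw [mul_smul, mul_smul, inv_smul_eq_iff.2 gx.symm, hr.2 x (sy xα).le, gx]
      rw [d_left _ this, hβ]
  · exact CB P x αP (sy xα) (F_sq b1 b2 H hP h2 hr.1) β hβ.le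
  · have dS : ∀ y, S.d α y = 1 → ∃ l s, S.d y l = 1 ∧ S.d l s = 1 ∧ S.d s α = 3 ∧
        ∀ z, S.d α z = 1 → z ≠ y → S.d s z = 4 := fun y αy => by
      obtain ⟨l, yl, lα, -⟩ := S.thick y α α
      obtain ⟨s, ls, sy', -⟩ := S.thick l y y
      have h3 := sy (fwd (by omega) (two (sy αy) yl lα.symm) αy (sy yl) ls sy')
      exact ⟨l, s, yl, ls, h3, fun z a b => fwd (by omega) h3 (two ls (sy yl) sy') αy a b⟩
    obtain ⟨l, s, Pl, ls, h3, h4⟩ := dS P αP
    obtain ⟨c, hc, c1⟩ := b2.ln_odd P l hP (by rw [Pl]; decide) s ls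
    have cF := mem_F Pl (Q_le_F b1 b2 H hP Pl ls hc)
    refine (fun ⟨h, h1, h2, h3⟩ => ⟨h, h2, h1, h3⟩) <| inv α P x S.F S.F (S.Q 3) c αP (sy xα) Px (fun g l _ _ => b2.F_conj l g)
      (fun g l _ _ => b2.Q_conj 3 l g) (fun l _ _ h => (F_le b1 b2 l h).2)
      (fun l _ _ h => (F_le b1 b2 l h).2) CB (fun l hl t ht f hf => F_comm b1 b2 H (lα l hl) ht hf)
      (fun y y' a b c e => ?_) cF cF
      fun e => c1 (b2.rigA c s x 3 (by omega) hc.2 e (by rw [h4 x (sy xα) Px.symm]))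
    obtain ⟨l, s, xl, ls, h3, h4⟩ := dS x (sy xα)
    obtain ⟨g, hg, e⟩ := H.tr s α y y' (b2.ln_odd x l hx (by rw [xl]; decide) s ls) h3 a b
      (h4 y a c) (h4 y' b e)
    exact ⟨g, mem_F xl (Q_le_F b1 b2 H hx xl ls hg), e⟩

end Cfsg.Agent.H49.BN2.H6T
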