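import Cfsg.Agent.H49.BN2Defs

set_option autoImplicit false

namespace Cfsg.Agent.H49.BN2.Sys

universe u

variable {n p : ℕ} {X G : Type u} [Group G] [MulAction G X] (S : Sys n p X G)

theorem d_self (x : X) : S.d x x = 0 := (S.d_zero _ _).2 rfl

theorem ne_of_d {x y z : X} (h : S.d x y ≠ S.d x z) : y ≠ z := fun e => h (e ▸ rfl)

theorem ne_of_pos {x y : X} (h : S.d x y ≠ 0) : x ≠ y := fun e => h ((S.d_zero _ _).2 e)

variable {S}

theorem sy {x y : X} {k : ℕ} (h : S.d x y = k) : S.d y x = k := by rw [S.d_symm]; exact h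

theorem two {m x y : X} (h1 : S.d m x = 1) (h2 : S.d m y = 1) (h : x ≠ y) : S.d x y = 2 := by
  have := S.step m x y h1
  have h0 : S.d x y ≠ 0 := fun e => h ((S.d_zero _ _).1 e)
  omega

/-- A neighbour of `y` closer to `x`. -/
theorem back {x y : X} {k : ℕ} (h : S.d x y = k + 1) : ∃ w, S.d y w = 1 ∧ S.d x w = k := by
  obtain ⟨w, h1, h2⟩ := S.ex y x (fun e => by rw [e, S.d_self] at h; omega)
  rw [S.d_symm y x, S.d_symm w x] at h2
  exact ⟨w, h1, by omega⟩

theorem back_uniq {x y w w' : X} {k : ℕ} (hk : k + 1 < n) (h : S.d x y = k + 1) (h1 : S.d y w = 1)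
    (h2 : S.d y w' = 1) (h3 : S.d x w = k) (h4 : S.d x w' = k) : w = w' :=
  S.uniq y w w' x (by rw [S.d_symm]; omega) h1 h2 (by rw [S.d_symm w, S.d_symm y]; omega)
    (by rw [S.d_symm w', S.d_symm y]; omega)

/-- One step away from `z`. -/
theorem fwd {z x y y' : X} {k : ℕ} (hk : k + 1 < n) (h : S.d z x = k + 1) (h0 : S.d z y = k)
    (h1 : S.d x y = 1) (h2 : S.d x y' = 1) (hne : y' ≠ y) : S.d z y' = k + 2 := by
  have := S.step x y' z h2
  rw [S.d_symm y' z, S.d_symm x z] at this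
  by_contra hc
  exact hne (back_uniq hk h h2 h1 (by omega) h0)

theorem opp_nb {x y l : X} (h : S.d x y = n) (h1 : S.d y l = 1) : S.d x l + 1 = n := by
  have := S.step y l x h1
  have := S.d_le l x
  rw [S.d_symm y x] at *
  rw [S.d_symm x l]; omega

theorem d_left (g : G) {x y x' : X} (h : g • x = x') : S.d x' (g • y) = S.d x y := by
  rw [← h, S.d_smul]

theorem fix_self {k : ℕ} {x : X} {g : G} (h : g ∈ S.fixB k x) : g • x = x :=
  h x (by rw [S.d_self]; omega)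

theorem fixB_mono {k l : ℕ} {x y : X} (b1 : S.toPol.Bas) (h : l + S.d x y ≤ k) {g : G}
    (hg : g ∈ S.fixB k x) : g ∈ S.fixB l y := fun v hv =>
  hg v ((b1.tri x y v).trans (by omega))

theorem fix1 {x : X} {g : G} (h0 : g • x = x) (h : ∀ v, S.d x v = 1 → g • v = v) :
    g ∈ S.fixB 1 x := fun v hv => by
  rcases Nat.le_one_iff_eq_zero_or_eq_one.1 hv with e | e
  · rw [← (S.d_zero _ _).1 e, h0]
  · exact h v e

/-- If the balls around all neighbours are fixed, then the larger ball is fixed. -/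
theorem fixB_succ {k : ℕ} {x : X} {g : G} (h0 : g • x = x)
    (h : ∀ y, S.d x y = 1 → g ∈ S.fixB k y) : g ∈ S.fixB (k + 1) x := fun v hv => by
  by_cases e : x = v
  · rw [← e, h0]
  · obtain ⟨y, h1, h2⟩ := S.ex x v e
    exact h y h1 v (by omega)

/-- Trick C. -/
theorem trick (b2 : S.Bas) {k : ℕ} {w : X} {c g : G} (hc : c ∈ S.fixB k w) (h : g * c = c * g) :
    c ∈ S.fixB k (g • w) := by
  have := b2.fixB_conj k w g c hc
  rwa [h, mul_inv_cancel_right] at this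

theorem comm_smul {c g : G} (h : g * c = c * g) {x : X} (hx : g • x = x) : g • c • x = c • x := by
  rw [← mul_smul, h, mul_smul, hx]

theorem mem_E {l y : X} (h : S.d l y = 1) {a : G} (ha : a ∈ S.A y l) : a ∈ S.E l :=
  (le_iSup₂ (f := fun y (_ : y ∈ S.toPol.nb l) => S.A y l) y h) ha

theorem E_le_of {l : X} {K : Subgroup G} (h : ∀ y, S.d l y = 1 → S.A y l ≤ K) : S.E l ≤ K :=
  iSup₂_le h

theorem mem_F {x l : X} (h : S.d x l = 1) {a : G} (ha : a ∈ S.E l) : a ∈ S.F x :=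
  (le_iSup₂ (f := fun l (_ : l ∈ S.toPol.nb x) => S.E l) l h) ha

theorem F_le_of {x : X} {K : Subgroup G} (h : ∀ l, S.d x l = 1 → S.E l ≤ K) : S.F x ≤ K :=
  iSup₂_le h

theorem E_comm (b2 : S.Bas) (hn : 4 ≤ n) {l : X} {a b : G} (ha : a ∈ S.E l) (hb : b ∈ S.E l) :
    a * b = b * a :=
  b2.E_cent l b hb a (b2.Q_mono _ 1 l l le_rfl (by rw [S.d_self]; omega) (b2.E_le l hn ha))

theorem A_cent {x y : X} {a g : G} (ha : a ∈ S.A x y) (hg : g ∈ S.V x y) : g * a = a * g :=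
  ha.1.2 g hg

theorem Z_cent {x y : X} {a g : G} (ha : a ∈ S.Z x y) (hg : g ∈ S.V x y) : g * a = a * g :=
  ha.2 g hg

theorem V_fix' {x y : X} (h : S.d x y = 1) {g : G} (hg : g ∈ S.V x y) : g • y = y :=
  S.V_fix y x (sy h) g (S.V_symm x y ▸ hg)

/-- `T1` for `Q 1 x` alone. -/
theorem t2 (t1 : S.T1) {x y u u' : X} {k : ℕ} (h : S.d x y = 1) (hk : 2 * (k + 1) ≤ n + 1)
    (h1 : S.d x u = k + 1) (h2 : S.d y u = k) (h3 : S.d x u' = k + 1) (h4 : S.d y u' = k) :
    ∃ g ∈ S.Q 1 x, g • u = u' := by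
  obtain ⟨x', e1, e2, -⟩ := S.thick x y y
  obtain ⟨g, hg, e⟩ := t1 x x' y u u' k e1 h e2.symm hk h1 h2 h3 h4
  exact ⟨g, hg.1, e⟩

/-- An injective map between finite sets of the same size is onto. -/
theorem onto {α β : Type*} [Finite β] {s : Set α} {t : Set β} (hc : t.ncard ≤ s.ncard)
    (f : α → β) (hf : ∀ a ∈ s, f a ∈ t) (hi : Set.InjOn f s) {b : β} (hb : b ∈ t) :
    ∃ a ∈ s, f a = b := by
  have : f '' s = t := Set.eq_of_subset_of_ncard_le (by rintro _ ⟨a, ha, rfl⟩; exact hf a ha)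
    (by rwa [hi.ncard_image])
  rw [← this] at hb
  exact hb

theorem disj (b1 : S.toPol.Bas) (b2 : S.Bas) {a c : ℕ} {y y' : X} {g : G} (ha : 2 ≤ a)
    (h : g ∈ S.fixB a y) (h' : g ∈ S.fixB c y') (hd : n + 1 ≤ a + S.d y y' + c) : g = 1 := by
  have := S.d_le y y'
  obtain ⟨w, w1, w2⟩ := b1.ext y y' (min c (n - S.d y y')) (by omega)
  exact b2.rigA g y w a ha h (h' w (by omega)) (by omega)

/-- `E l` acts on the neighbours of `w` through `A z l`. -/
theorem act (b2 : S.Bas) {l z w : X} (h0 : ∀ a ∈ S.A z l, a • w = w)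
    (h : ∀ v, S.d l v = 1 → S.A v l ≤ S.fixB 1 w ∨ ∃ t ∈ S.fixB 1 w, t • z = v ∧ t • l = l)
    {e : G} (he : e ∈ S.E l) : ∃ a ∈ S.A z l, a⁻¹ * e ∈ S.fixB 1 w := by
  have cj : ∀ g : G, g • w = w → ∀ f ∈ S.fixB 1 w, g * f * g⁻¹ ∈ S.fixB 1 w := fun g hg f hf => by
    have := b2.fixB_conj 1 w g f hf
    rwa [hg] at this
  let K : Subgroup G :=
    { carrier := {e | ∃ a ∈ S.A z l, a⁻¹ * e ∈ S.fixB 1 w}
      one_mem' := ⟨1, one_mem _, by simpa using one_mem _⟩
      mul_mem' := by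
        rintro e e' ⟨a, ha, h1⟩ ⟨a', ha', h2⟩
        refine ⟨a * a', mul_mem ha ha', ?_⟩
        have := mul_mem (cj a'⁻¹ (h0 _ (inv_mem ha')) _ h1) h2
        convert this using 1
        group
      inv_mem' := by
        rintro e ⟨a, ha, h1⟩
        refine ⟨a⁻¹, inv_mem ha, ?_⟩
        have := cj a (h0 _ ha) _ (inv_mem h1)
        convert this using 1
        group }
  refine E_le_of (K := K) (fun v hv e he => ?_) he
  rcases h v hv with h | ⟨t, ht, tz, tl⟩
  · exact ⟨1, one_mem _, by simpa using h he⟩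
  · have ha := b2.A_conj v l t⁻¹ (sy hv) e he
    rw [inv_smul_eq_iff.2 tz.symm, inv_smul_eq_iff.2 tl.symm] at ha
    refine ⟨_, ha, ?_⟩
    have ew : e • w = w := by
      have := h0 _ ha
      rw [mul_smul, mul_smul, inv_inv, fix_self ht, inv_smul_eq_iff, fix_self ht] at this
      exact this
    have := mul_mem (inv_mem ht) (cj e⁻¹ (inv_smul_eq_iff.2 ew.symm) t ht)
    convert this using 1
    group

theorem ncard_A [Finite G] (b2 : S.Bas) {x y x' y' : X} (h : S.d x y = 1) (h' : S.d x' y' = 1)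
    (he : Even (S.d x x')) : (S.A x y : Set G).ncard = (S.A x' y' : Set G).ncard :=
  b2.card_A x y x' y' h h' he

end Cfsg.Agent.H49.BN2.Sys
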