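import Cfsg.Agent.H49.BN2Kit

set_option autoImplicit false

namespace Cfsg.Agent.H49.BN2.Mix

open Cfsg.Agent.H49.BN2 Sys

universe u

theorem invStmt : InvStmt.{u} := by
  intro n p X G _ _ _ _ S _ b1 b2 z L M Φ T K c zL zM LM cΦ cK ΦB TB KB cm tr c1 c2 cM
  have cz : c • z = z := ΦB L zL c1 z (sy zL).le
  have cL : c • L = L := fix_self (ΦB L zL c1)
  have ci : c⁻¹ • z = z := inv_smul_eq_iff.2 cz.symm
  obtain ⟨g'', h'', e''⟩ := tr L (c⁻¹ • M) zL (by rwa [d_left _ ci]) LM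
    fun e => cM (inv_smul_eq_iff.1 e).symm
  obtain ⟨g', h', e'⟩ := tr (c • M) L (by rwa [d_left _ cz]) zL cM LM
  have z'' : g'' • z = z := TB M zM h'' z (sy zM).le
  have z' : g' • z = z := TB M zM h' z (sy zM).le
  have M'' : g'' • M = M := fix_self (TB M zM h'')
  have M' : g' • M = M := fix_self (TB M zM h')
  have μz : (g' * c * g'') • z = z := by rw [mul_smul, mul_smul, z'', cz, z']
  have μM : (g' * c * g'') • M = L := by rw [mul_smul, mul_smul, M'', e']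
  have μL : (g' * c * g'') • L = M := by rw [mul_smul, mul_smul, e'', smul_inv_smul, M']
  refine ⟨g' * c * g'' * (g' * c * g''), by rw [mul_smul, μz, μz], by rw [mul_smul, μM, μL],
    fun r hr => ?_⟩
  suffices h : g' * c * g'' * (g' * c * g'') * r * (g' * c * g'' * (g' * c * g''))⁻¹ * r ∈
      S.fixB 1 M from fun β hβ => h β hβ.le
  have cj : ∀ g : G, g • M = M → ∀ f ∈ S.fixB 1 M, g * f * g⁻¹ ∈ S.fixB 1 M := fun g hg f hf => by
    have := b2.fixB_conj 1 M g f hf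
    rwa [hg] at this
  set w := c * g'' * r * (c * g'')⁻¹ with hw
  have wΦ : w ∈ Φ M := by
    have := cΦ (c * g'') L (by rw [mul_smul, z'', cz]) zL r hr.1
    rwa [mul_smul, e'', smul_inv_smul] at this
  have wz : w ∈ S.fixB 1 z := by
    have := b2.fixB_conj 1 z (c * g'') r hr.2
    rwa [mul_smul, z'', cz] at this
  have k1 := cK _ M μz zM _ (cm M zM g' h' w wΦ)
  rw [μM] at k1
  have k2 := cK (g' * c) M (by rw [mul_smul, cz, z']) zM _ (cm M zM g'' h'' w wΦ)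
  rw [mul_smul, e'] at k2
  have φ : c⁻¹ * (w * c * w⁻¹) ∈ Φ L := by
    have := cΦ w L (fix_self wz) zL c c1
    rw [wz L zL.le] at this
    exact mul_mem (inv_mem c1) this
  have k3 := cm L zL c c2 _ φ
  have rM : r • M = M := hr.2 M zM.le
  have xM : (c * w * c⁻¹) • M = M := by
    have := b2.fixB_conj 1 z c w wz
    rw [cz] at this
    exact this M zM.le
  -- `c w c⁻¹ r` is trivial on the neighbours of `M`
  have s1 : r⁻¹ * (c⁻¹ * w * c) ∈ S.fixB 1 M := by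
    have := mul_mem (cj r⁻¹ (inv_smul_eq_iff.2 rM.symm) _ (TB M zM h'')) (inv_mem (TB M zM h''))
    convert this using 1
    rw [hw]; group
  have s2 : r⁻¹ * (c⁻¹ * (w * c * w⁻¹)) ∈ S.fixB 1 M := by
    have := mul_mem s1 (inv_mem (ΦB M zM wΦ))
    convert this using 1
    group
  have s3 : c * w * c⁻¹ * r ∈ S.fixB 1 M := by
    have := mul_mem (mul_mem (inv_mem s2) (cj r⁻¹ (inv_smul_eq_iff.2 rM.symm) _
      (inv_mem (KB L M zL zM k3)))) (cj r⁻¹ (inv_smul_eq_iff.2 rM.symm) _ (ΦB M zM wΦ))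
    convert this using 1
    group
  have s4 : g' * (c * w * c⁻¹) * g'⁻¹ * r ∈ S.fixB 1 M := by
    have := mul_mem (mul_mem (TB M zM h') (cj _ xM _ (inv_mem (TB M zM h')))) s3
    convert this using 1
    group
  have := mul_mem (mul_mem (KB L M zL zM k1) (KB L M zL zM k2)) s4
  convert this using 1
  rw [hw]; group

theorem q4lStmt : Q4lStmt.{u} := by
  intro n p X G _ _ _ _ S _ b1 b2 hn t1 ms inv q4u l hl
  subst hn
  obtain ⟨z, lz, -⟩ := S.thick l l l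
  obtain ⟨L, zL, Ll, -⟩ := S.thick z l l
  obtain ⟨y, Ly, yz, -⟩ := S.thick L z z
  have EQ : ∀ m, S.E m ≤ S.Q 1 m := fun m => b2.E_le m (by omega)
  have l2 := two (sy lz) zL Ll.symm
  refine ms l z (S.E L ⊓ S.fixB 1 z) lz (fun r hr => ?_) (fun β γ a b c e => ?_)
    (fun r hr r' hr' β _ => ?_) (fun g gx gα r hr => ?_) (fun h2 r hr β hβ => ?_) fun _ => ?_
  · exact b2.uni L z l z (sy zL) lz r (b2.Q_le 1 L z (sy zL) (EQ L hr.1))
      (hr.2 l (sy lz).le) (fix_self hr.2)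
  · obtain ⟨g, hg, e⟩ := q4u l z L y β γ (hl z lz) (sy lz) zL Ll.symm Ly yz a b c e
    exact ⟨g, ⟨hg.1.1, hg.1.2.2⟩, e⟩
  · rw [E_comm b2 (by omega) hr.1 hr'.1]
  · obtain ⟨t, ht, tP⟩ := t2 t1 lz (k := 1) (by omega) l2 zL (u' := g • L)
      (by rwa [d_left g gx]) (by rwa [d_left g gα])
    refine ⟨t⁻¹ * (g * r * g⁻¹) * t⁻¹⁻¹, ⟨?_, ?_⟩, fun β hβ => ?_⟩
    · have := b2.E_conj _ t⁻¹ _ (b2.E_conj L g r hr.1)
      rwa [← tP, inv_smul_smul] at this
    · have := b2.fixB_conj _ _ t⁻¹ _ (b2.fixB_conj 1 z g r hr.2)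
      rwa [gα, (inv_mem ht).2 z lz.le] at this
    · rw [inv_inv, mul_smul _ t, ht.2 β hβ.le, mul_smul t⁻¹, (inv_mem ht).2]
      have : (g * r * g⁻¹) • l = l := by
        rw [mul_smul, mul_smul, inv_smul_eq_iff.2 gx.symm, hr.2 l (sy lz).le, gx]
      rw [d_left _ this, hβ]
  · have := b2.E_pow L (by omega) r hr.1
    rw [h2, sq] at this
    rw [this, one_smul]
  · obtain ⟨c, hc, c1⟩ := b2.A_ne y L (by omega)
      (b2.cen_even z y (hl z lz) (by rw [two (sy zL) Ly yz.symm]; decide)) (sy Ly)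
    refine (fun ⟨h, h1, h2, h3⟩ => ⟨h, h2, h1, h3⟩) <| inv z L l S.E (S.Q 1) (fun _ => ⊥) c zL
      (sy lz) Ll (fun g l _ _ => b2.E_conj l g) (fun g l _ _ f hf => by simpa using hf)
      (fun l _ _ h => (EQ l h).2) (fun l _ _ h => h.2) (fun _ _ _ _ => bot_le)
      (fun l hl t ht f hf => by rw [b2.E_cent l f hf t ht]; simp) (fun y y' a b c e => ?_)
      (mem_E Ly hc) (EQ L (mem_E Ly hc)) fun e => c1 (b2.rigA c y l 2 (by omega) hc.2.1 e
        (by rw [sy (fwd (by omega) l2 lz (sy zL) Ly yz)]))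
    exact t2 t1 lz (k := 1) (by omega) (two (sy lz) a c.symm) a (two (sy lz) b e.symm) b

theorem q4uStmt : Q4uStmt.{u} := by
  intro n p X G _ _ _ _ S _ b1 b2 hn t1 M P L R x x' hP PM PL ML LR RP Mx Mx' xP x'P
  subst hn
  have EQ : S.E L ≤ S.Q 1 L := b2.E_le L (by omega)
  have PR := two (sy PL) LR RP.symm
  obtain ⟨v, hv, v1⟩ := b2.A_ne R L (by omega) (b2.cen_even P R hP (by rw [PR]; decide)) (sy LR)
  have cj : ∀ (w y y' : X) (a : G), S.d L w = 1 → S.d L y = 1 → S.d L y' = 1 → y ≠ w → y' ≠ w →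
      a ∈ S.A y L → a ≠ 1 → ∃ b ∈ S.A y' L, b ≠ 1 ∧ b * a⁻¹ ∈ S.fixB 1 w :=
    fun w y y' a h1 h2 h3 h4 h5 ha a1 => by
      obtain ⟨t, ht, e⟩ := t2 t1 (sy h1) (k := 1) (by omega) (two h1 h2 h4.symm) h2
        (two h1 h3 h5.symm) h3
      have hb := b2.A_conj y L t (sy h2) a ha
      rw [e, ht.2 L (sy h1).le] at hb
      refine ⟨_, hb, by simpa using a1, ?_⟩
      have := b2.fixB_conj 1 w a _ (inv_mem ht.2)
      rw [(EQ (mem_E h2 ha)).2 w h1.le] at this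
      have := (S.fixB 1 w).mul_mem ht.2 this
      convert this using 1
      group
  have AB : ∀ y a, a ∈ S.A y L → a ∈ S.fixB 1 y := fun y a ha w hw => ha.2.1 w (by omega)
  have ex : ∀ y, ∃ a c : G, y ∈ S.toPol.nb L \ {P} → a ∈ S.A y L ∧ a ≠ 1 ∧ c ∈ S.A P L ∧
      a * v⁻¹ * c⁻¹ ∈ S.E L ⊓ S.Q 1 P ⊓ S.Q 1 R := fun y => by
    by_cases hy : y ∈ S.toPol.nb L \ {P}
    swap
    · exact ⟨1, 1, fun h => (hy h).elim⟩
    by_cases e : y = R
    · exact ⟨v, 1, fun _ => ⟨e ▸ hv, v1, one_mem _, by simpa using one_mem _⟩⟩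
    obtain ⟨a, ha, a1, h1⟩ := cj P R y v (sy PL) LR hy.1 RP hy.2 hv v1
    obtain ⟨c, hc, -, h2⟩ := cj R y P a LR hy.1 (sy PL) e RP.symm ha a1
    have hE : a * v⁻¹ * c⁻¹ ∈ S.E L :=
      mul_mem (mul_mem (mem_E hy.1 ha) (inv_mem (mem_E LR hv))) (inv_mem (mem_E (sy PL) hc))
    refine ⟨a, c, fun _ => ⟨ha, a1, hc, ⟨hE, ?_⟩, ?_⟩⟩
    · exact b2.mem_Q 1 P L le_rfl PL _ (S.V_symm _ _ ▸ b2.Q_le 1 L P (sy PL) (EQ hE))
        (mul_mem h1 (inv_mem (AB P c hc)))
    · refine b2.mem_Q 1 R L le_rfl (sy LR) _ (S.V_symm _ _ ▸ b2.Q_le 1 L R LR (EQ hE)) ?_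
      rw [E_comm b2 (by omega) (mem_E hy.1 ha) (inv_mem (mem_E LR hv))]
      have := mul_mem (inv_mem (AB R v hv)) (inv_mem h2)
      convert this using 1
      group
  choose a c h using ex
  have LM := two PL PM ML.symm
  have Px := two (sy PM) Mx xP.symm
  have Lx : S.d L x = 3 := fwd (by omega) LM (sy PL) (sy PM) Mx xP
  have dM : ∀ y, S.d L y = 1 → y ≠ P → S.d y M = 3 := fun y h1 h2 =>
    sy (fwd (by omega) (sy LM) (sy PM) (sy PL) h1 h2)
  have dx : ∀ y, S.d L y = 1 → y ≠ P → S.d y x = 4 := fun y h1 h2 =>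
    fwd (by omega) (dM y h1 h2) (two h1 (sy PL) h2) (sy PM) Mx xP
  obtain ⟨y, hy, e⟩ := onto (s := S.toPol.nb L \ {P}) (t := S.toPol.nb M \ {P})
    (by rw [b1.card_nb L P (sy PL), b1.card_nb M P (sy PM), b2.q_even L M (by rw [LM]; decide)])
    (fun y => (a y * v⁻¹ * (c y)⁻¹) • x) (fun y hy => ⟨by
      change S.d M _ = 1
      rwa [d_left _ ((h y hy).2.2.2.1.2.2 M PM.le)], fun e =>
        xP (smul_left_cancel _ ((e : _ = P).trans (fix_self (h y hy).2.2.2.1.2.2).symm))⟩)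
    (fun y hy y' hy' e => by
      by_contra hne
      obtain ⟨ha, a1, hc, hm⟩ := h y hy
      obtain ⟨ha', -, hc', hm'⟩ := h y' hy'
      obtain ⟨N, RN, NL, -⟩ := S.thick R L L
      have hg := mul_mem (inv_mem hm') hm
      have e1 := b2.rig _ x M R N P L ⟨sy Mx, RN, sy (dx R LR RP),
        fwd (by omega) (sy (dM R LR RP)) (sy LM) (sy LR) RN NL⟩
        (by rw [mul_smul, inv_smul_eq_iff]; exact e) (hg.1.2.2 M PM.le) (fix_self hg.2.2)
        (hg.2.2 N RN.le) PL hg.1.2.2 (EQ hg.1.1).2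
      have e2 : a y' = a y * ((c y)⁻¹ * c y') := by
        have e1 := inv_mul_eq_one.1 e1
        have e3 := E_comm b2 (by omega) (inv_mem (mem_E LR hv))
          (mem_E (sy PL) (mul_mem (inv_mem hc) hc'))
        calc a y' = a y' * v⁻¹ * (c y')⁻¹ * c y' * v := by group
          _ = a y * (v⁻¹ * ((c y)⁻¹ * c y')) * v := by rw [e1]; group
          _ = _ := by rw [e3]; group
      have e3 : a y' • x = a y • x := by
        rw [e2, mul_smul, (mul_mem (inv_mem hc) hc').2.1 x Px.le]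
      have aP := (EQ (mem_E hy.1 ha)).2 P (sy PL).le
      have xx : S.d x (a y • x) = 4 := by
        have h3 := fwd (y' := a y • M) (by omega) (sy Px) (sy Mx) PM (by rwa [d_left _ aP])
          fun e => a1 (b2.rigA _ y M 2 le_rfl ha.2.1 e (by rw [dM y hy.1 hy.2]))
        exact fwd (by omega) h3 (sy Px) (by rw [← aP, S.d_smul]; exact sy PM) (by rwa [S.d_smul])
          fun e => xP (smul_left_cancel _ (e.trans aP.symm))
      obtain ⟨K, yK, KL, -⟩ := S.thick y L L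
      have xK : S.d x K = 2 + 1 := by have := opp_nb (sy (dx y hy.1 hy.2)) yK; omega
      obtain ⟨w, Kw, xw⟩ := back xK
      have yw := two (sy yK) Kw (S.ne_of_d (x := x) (by rw [sy (dx y hy.1 hy.2)]; omega))
      obtain ⟨N, wN, xN⟩ := back xw
      have yN : S.d y' N = 2 + 1 := by have := opp_nb (dx y' hy'.1 hy'.2) xN; omega
      obtain ⟨w', Nw, yw'⟩ := back yN
      have xw' := two (sy xN) Nw (S.ne_of_d (x := y') (by rw [dx y' hy'.1 hy'.2]; omega))
      have xN' : S.d (a y • x) N = 2 + 1 := by have := opp_nb (sy xx) xN; omega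
      have := back_uniq (by omega) xN' (sy wN) Nw
        (by rw [← ha.2.1 w yw.le, S.d_smul]; exact xw)
        (by rw [← e3, ← ha'.2.1 w' yw'.le, S.d_smul]; exact xw')
      have h2 := two hy'.1 hy.1 (Ne.symm hne)
      have h3 := fwd (by omega) h2 (sy hy'.1) (sy hy.1) yK KL
      have h4 := fwd (by omega) h3 h2 (sy yK) Kw (S.ne_of_pos (by omega)).symm
      rw [this] at h4
      omega) ⟨Mx', x'P⟩
  exact ⟨_, (h y hy).2.2.2, e⟩

end Cfsg.Agent.H49.BN2.Mix
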