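import Cfsg.Agent.H49.BN2Kit

set_option autoImplicit false

namespace Cfsg.Agent.H49.BN2.O8L

open Cfsg.Agent.H49.BN2 Sys

universe u

section

variable {n p : ℕ} {X G : Type u} [Group G] [MulAction G X] {S : Sys n p X G}

/-- An element of `Z x y` fixing a vertex at distance `k + 1` from `x` beyond `y`. -/
theorem cen_of (b2 : S.Bas) (zt : S.Zt) {m : ℕ} (hn : n = 2 * (m + 2)) {x y w : X} (xy : S.d x y = 1)
    {z : G} (hz : z ∈ S.Z x y) (z1 : z ≠ 1) (h1 : S.d x w = m + 3) (h2 : S.d y w = m + 2)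
    (h : z • w = w) : S.Cen y := by
  refine ⟨z, b2.mem_Q _ y x (by omega) (sy xy) z (S.V_symm _ _ ▸ hz.1) fun v hv => ?_, z1⟩
  by_cases e : S.d y v ≤ m + 1
  · exact (zt y x (sy xy) (b2.Z_symm _ _ ▸ hz)).2 v (by omega)
  · have := S.step x y v xy
    by_cases e' : S.d x v ≤ m + 1
    · exact (zt x y xy hz).2 v (by omega)
    · exact b2.Z_all x y w v (m + 2) xy h1 h2 (by omega) (by omega) z hz h

theorem ce (b1 : S.toPol.Bas) (b2 : S.Bas) (zt : S.Zt) {m : ℕ} (hn : n = 2 * (m + 2)) (x0 : X)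
    (hc : ¬ ∃ x, S.Cen x) : ∃ x1 x3, ∃ k : G, S.d x1 x3 = m + 1 ∧ k ≠ 1 ∧ k ∈ S.Q (m + 1) x1 ∧
      k ∈ S.fixB (m + 1) x3 ∧ ∀ g ∈ S.Q 1 x1, g * k = k * g := by
  obtain ⟨x1, h01, -⟩ := S.thick x0 x0 x0
  obtain ⟨x4, h14, h04⟩ := b1.ext x0 x1 (m + 2) (by omega)
  obtain ⟨x3, h43, h13⟩ := back h14
  have h03 : S.d x0 x3 = m + 2 := by
    have := S.step x0 x1 x3 h01
    have := S.step x4 x3 x0 h43
    rw [S.d_symm x3, S.d_symm x4] at this
    omega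
  obtain ⟨z, hz, z1⟩ := b2.Z_ne x0 x1 h01
  obtain ⟨z', hz', z1'⟩ := b2.Z_ne x4 x3 h43
  have q1 : ∀ x y, S.d x y = 1 → ∀ z ∈ S.Z x y, z ∈ S.Q (m + 1) y := fun x y h z hz => by
    have := zt y x (sy h) (b2.Z_symm _ _ ▸ hz)
    rwa [show (n - 1) / 2 = m + 1 by omega] at this
  have e1 : z' • x1 = x1 := (q1 _ _ h43 z' hz').2 x1 (sy h13).le
  have e3 : z • x3 = x3 := (q1 _ _ h01 z hz).2 x3 h13.le
  have h01' : S.d (z' • x0) x1 = 1 := by rw [← e1, S.d_smul]; exact h01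
  have c1 := b2.Z_conj x0 x1 z' h01 _ (inv_mem hz)
  rw [e1] at c1
  have c3 := b2.fixB_conj _ x3 z _ (q1 _ _ h43 z' hz').2
  rw [e3] at c3
  refine ⟨x1, x3, z * (z' * z⁻¹ * z'⁻¹), h13, fun e => hc ?_,
    mul_mem (q1 _ _ h01 z hz) (q1 _ _ h01' _ c1), ?_, fun g hg => ?_⟩
  · by_cases e0 : z' • x0 = x0
    · exact ⟨x3, cen_of b2 zt hn h43 hz' z1' (by rw [S.d_symm]; omega) (sy h03) e0⟩
    · have hz2 : z ∈ S.Z (z' • x0) x1 := by
        rw [← inv_inv z, ← eq_inv_of_mul_eq_one_right e]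
        exact inv_mem c1
      have d2 := two (sy h01) (sy h01') (Ne.symm e0)
      obtain ⟨w, w1, w2⟩ := b1.ext x0 (z' • x0) (m + 1) (by omega)
      have := zt _ _ h01' hz2
      refine ⟨x1, cen_of b2 zt hn h01 hz z1 (w := w) (by omega) ?_ (this.2 w (by omega))⟩
      have := S.step x0 x1 w h01
      have := S.step _ x1 w h01'
      omega
  · have := (S.fixB (m + 1) x3).mul_mem c3 (inv_mem (q1 _ _ h43 z' hz').2)
    convert this using 1
    group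
  · rw [← mul_assoc, Z_cent hz (S.V_symm _ _ ▸ b2.Q_le 1 x1 x0 (sy h01) hg), mul_assoc,
      Z_cent c1 (S.V_symm _ _ ▸ b2.Q_le 1 x1 _ (sy h01') hg), ← mul_assoc]

end

theorem ce68Stmt : Ce68Stmt.{u} := by
  intro n p X G _ _ _ _ S _ b1 b2 hn zt t1 ⟨x0⟩
  by_contra hc
  rcases hn with hn | hn
  · obtain ⟨x1, x3, k, h13, k1, kQ, kB, kc⟩ := ce b1 b2 zt (m := 1) hn x0 hc
    subst hn
    obtain ⟨x2, h32, h12⟩ := back h13
    refine hc ⟨x2, k, b2.mem_Q _ x2 x1 (by omega) (sy h12) k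
      (S.V_symm _ _ ▸ b2.Q_le _ x1 x2 h12 kQ) (fixB_succ (kQ.2 x2 (by omega)) fun y hy => ?_), k1⟩
    by_cases e : y = x1
    · rw [e]; exact kQ.2
    · obtain ⟨g, hg, gm⟩ := t2 t1 h12 (k := 1) (by omega) h13 (sy h32)
        (two (sy h12) hy (Ne.symm e)) hy
      rw [← gm]
      exact trick b2 kB (kc g hg)
  · obtain ⟨x1, x3, k, h13, k1, kQ, kB, -⟩ := ce b1 b2 zt (m := 2) hn x0 hc
    exact k1 (disj b1 b2 (by omega) kQ.2 kB (by omega))

variable {p : ℕ} {X G : Type u} [Group G] [MulAction G X] {S : Sys 8 p X G}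
  (b1 : S.toPol.Bas) (b2 : S.Bas) (t1 : S.T1)
include b1 b2 t1

theorem three_four {P : X} (hP : S.Cen P) {m : G} (hm : m ∈ S.fixB 3 P) : m ∈ S.fixB 4 P := by
  intro P2 h
  by_cases h4 : S.d P P2 ≤ 3
  · exact hm P2 h4
  have h4 : S.d P P2 = 3 + 1 := by omega
  by_contra hne
  obtain ⟨l2, a2, h3⟩ := back h4
  obtain ⟨P1, a1, h2⟩ := back h3
  obtain ⟨l1, a0, h1⟩ := back h2
  obtain ⟨z, hz, z1⟩ := b2.A_ne P2 l2 (by omega) (b2.cen_even P P2 hP (by rw [h4]; decide)) a2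
  have ml := hm l2 h3.le
  have k1 : m * z * m⁻¹ * z⁻¹ ∈ S.E l2 := by
    have := b2.E_conj l2 m z (mem_E (sy a2) hz)
    rw [ml] at this
    exact mul_mem this (inv_mem (mem_E (sy a2) hz))
  have k2 : m * z * m⁻¹ * z⁻¹ ∈ S.fixB 3 P := by
    have := b2.fixB_conj 3 P z _ (inv_mem hm)
    rw [hz.2.1 P (sy h4).le] at this
    have := (S.fixB 3 P).mul_mem hm this
    convert this using 1
    group
  obtain ⟨l, b0, n1, n2⟩ := S.thick P1 l1 l2
  obtain ⟨P', b1', n3, -⟩ := S.thick l P1 P1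
  have d3 := fwd (by omega) h2 h1 a0 b0 n1
  have d4 := fwd (by omega) d3 h2 (sy b0) b1' n3
  obtain ⟨g, hg, e⟩ := t2 t1 a1 (k := 2) (by omega) (sy h3) (sy h2) (u' := P')
    (fwd (by omega) (two (sy a1) b0 n2.symm) a1 (sy b0) b1' n3) (two (sy b0) b1' n3.symm)
  have k3 := disj b1 b2 (by omega) k2 (e ▸ trick b2 k2 (b2.E_cent l2 _ k1 g hg)) (by omega)
  have k4 := b2.fixB_conj _ P2 m z hz.2.1
  rw [mul_inv_eq_one.1 k3] at k4
  have := two (by rw [d_left m ml]; exact sy a2) (sy a2) hne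
  exact z1 (disj b1 b2 (by omega) k4 hz.2.1 (by omega))

section

variable {l P l1 P1 : X} (lP : S.d l P = 1) (Pl : S.d P l1 = 1) (n1 : l1 ≠ l) (lP1 : S.d l1 P1 = 1)
  (n2 : P1 ≠ P)
include lP Pl n1 lP1 n2

omit b1 b2 t1 in
theorem d3 : S.d P1 l = 3 := sy (fwd (by omega) (two (sy lP) Pl n1.symm) lP (sy Pl) lP1 n2)

omit b1 b2 t1 in
theorem d4 {y : X} (ly : S.d l y = 1) (n3 : y ≠ P) : S.d P1 y = 4 :=
  fwd (by omega) (d3 lP Pl n1 lP1 n2) (two lP1 (sy Pl) n2) lP ly n3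

omit b1 in
theorem mv {y y' : X} (ly : S.d l y = 1) (n3 : y ≠ P) (ly' : S.d l y' = 1) (n4 : y' ≠ P) :
    ∃ t ∈ S.fixB 1 P1, t • y = y' ∧ t • l = l := by
  have far : ∀ y, S.d l y = 1 → y ≠ P → S.d l1 y = 3 := fun y a b =>
    fwd (by omega) (two Pl (sy lP) n1) (sy Pl) lP a b
  obtain ⟨t, ht, e⟩ := t2 t1 (sy lP1) (k := 3) (by omega) (d4 lP Pl n1 lP1 n2 ly n3) (far y ly n3)
    (d4 lP Pl n1 lP1 n2 ly' n4) (far y' ly' n4)
  exact ⟨t, ht.2, e, back_uniq (k := 3) (by omega) (d4 lP Pl n1 lP1 n2 ly' n4)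
    (by rw [d_left t e]; exact sy ly) (sy ly')
    (by rw [d_left t (fix_self ht.2)]; exact d3 lP Pl n1 lP1 n2) (d3 lP Pl n1 lP1 n2)⟩

theorem act1 {R : X} (lR : S.d l R = 1) (n3 : R ≠ P) {e : G} (he : e ∈ S.E l) :
    ∃ a ∈ S.A R l, a⁻¹ * e ∈ S.fixB 1 P1 := by
  refine act b2 (fun a ha => ha.2.1 P1 (by rw [S.d_symm, d4 lP Pl n1 lP1 n2 lR n3]))
    (fun v hv => ?_) he
  by_cases e : v = P
  · exact .inl fun a ha => fixB_mono b1 (by rw [e, two (sy Pl) lP1 n2.symm]; omega) ha.2.1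
  · exact .inr (mv b2 t1 lP Pl n1 lP1 n2 lR n3 hv e)

theorem ker (hP : S.Cen P) {e : G} (he : e ∈ S.E l) (h : e ∈ S.fixB 1 P1) : e ∈ S.fixB 4 P := by
  refine three_four b1 b2 t1 hP fun v hv => ?_
  have hE := (b2.E_le l (by omega) he).2
  by_cases h3 : S.d l v ≤ 3
  · exact hE v h3
  have := S.step l P v lP
  have h3 : S.d P v = 2 + 1 := by omega
  obtain ⟨w, vw, Pw⟩ := back h3
  have lw : S.d l w = 3 := by
    have := S.step l P w lP
    have := S.step v w l vw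
    rw [S.d_symm w, S.d_symm v] at this
    omega
  obtain ⟨g, hg, e⟩ := t2 t1 lP (k := 2) (by omega) (sy (d3 lP Pl n1 lP1 n2))
    (two (sy Pl) lP1 n2.symm) lw Pw
  exact (e ▸ trick b2 h (b2.E_cent l _ he g hg)) v (sy vw).le

end

theorem dec {l P R : X} (hl : S.Ln l) (lP : S.d l P = 1) (lR : S.d l R = 1) (n : R ≠ P) {e : G}
    (he : e ∈ S.E l) : ∃ a ∈ S.A P l, ∃ b ∈ S.A R l, e = a * b ∧ (e ∈ S.fixB 4 P → b = 1) := by
  obtain ⟨l1, Pl, n1, -⟩ := S.thick P l l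
  obtain ⟨P1, lP1, n2, -⟩ := S.thick l1 P P
  obtain ⟨m1, Rm, n3, -⟩ := S.thick R l l
  obtain ⟨R1, mR1, n4, -⟩ := S.thick m1 R R
  obtain ⟨b, hb, h1⟩ := act1 b1 b2 t1 lP Pl n1 lP1 n2 lR n he
  obtain ⟨a, ha, h2⟩ := act1 b1 b2 t1 lR Rm n3 mR1 n4 lP n.symm he
  have k1 := mul_mem (inv_mem ha.2.1)
    (ker b1 b2 t1 lP Pl n1 lP1 n2 (hl P lP) (mul_mem (inv_mem (mem_E lR hb)) he) h1)
  have k2 := mul_mem (inv_mem hb.2.1)
    (ker b1 b2 t1 lR Rm n3 mR1 n4 (hl R lR) (mul_mem (inv_mem (mem_E lP ha)) he) h2)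
  have c := E_comm b2 (by omega) (inv_mem (mem_E lR hb)) (inv_mem (mem_E lP ha))
  rw [← mul_assoc, c, mul_assoc] at k2
  have d := two lP lR n.symm
  have e1 := disj b1 b2 (by omega) k1 k2 (by omega)
  have e2 : e = a * b := by
    rw [E_comm b2 (by omega) (mem_E lP ha) (mem_E lR hb), ← mul_one (b * a), ← e1]
    group
  refine ⟨a, ha, b, hb, e2, fun h => disj b1 b2 (a := 8 / 2) (y := P) (by omega) ?_ hb.2.1 (by omega)⟩
  have := mul_mem (inv_mem ha.2.1) h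
  rwa [e2, inv_mul_cancel_left] at this

omit b1 b2 t1 in
theorem o8lStmt : O8lStmt.{u} := by
  intro n p X G _ _ _ _ S _ b1 b2 hn t1 l hl
  subst hn
  refine ⟨fun P R lP lR n w hw wR => ?_, fun P lP => ?_⟩
  · have wl := S.V_fix l P lP w hw
    refine fix1 wl fun y ly => by_contra fun hne => ?_
    obtain ⟨e, he, e1⟩ := b2.A_ne y l (by omega) (hl y ly) (sy ly)
    obtain ⟨a, ha, b, hb, h, -⟩ := dec b1 b2 t1 hl lP lR n.symm (mem_E ly he)
    have c : w * e = e * w := by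
      rw [h, ← mul_assoc, A_cent ha (S.V_symm _ _ ▸ hw), mul_assoc,
        A_cent hb (S.V_symm _ _ ▸ S.V_uni l P R lP lR w hw wR), mul_assoc]
    have := two (by rw [d_left w wl]; exact ly) ly hne
    exact e1 (disj b1 b2 (by omega) (trick b2 he.2.1 c) he.2.1 (by omega))
  · obtain ⟨R, lR, n, -⟩ := S.thick l P P
    obtain ⟨l1, Pl, n1, -⟩ := S.thick P l l
    obtain ⟨P1, lP1, n2, -⟩ := S.thick l1 P P
    obtain ⟨v, hv, v1⟩ := b2.A_ne R l (by omega) (hl R lR) (sy lR)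
    have ex : ∀ y, ∃ a : G, y ∈ S.toPol.nb l \ {P} → a ∈ S.A y l ∧ a ≠ 1 ∧ a * v⁻¹ ∈ S.A P l :=
      fun y => by
        by_cases hy : y ∈ S.toPol.nb l \ {P}
        swap
        · exact ⟨1, fun h => (hy h).elim⟩
        obtain ⟨t, ht, e1, e2⟩ := mv b2 t1 lP Pl n1 lP1 n2 lR n hy.1 hy.2
        have ha := b2.A_conj R l t (sy lR) v hv
        rw [e1, e2] at ha
        refine ⟨_, fun _ => ⟨ha, by simpa using v1, ?_⟩⟩
        have hE := mul_mem (mem_E hy.1 ha) (inv_mem (mem_E lR hv))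
        obtain ⟨a, ha, b, -, h, hb⟩ := dec b1 b2 t1 hl lP lR n hE
        rw [h, hb, mul_one]
        · exact ha
        refine ker b1 b2 t1 lP Pl n1 lP1 n2 (hl P lP) hE ?_
        have := b2.fixB_conj 1 P1 v _ (inv_mem ht)
        rw [hv.2.1 P1 (sy (d4 lP Pl n1 lP1 n2 lR n)).le] at this
        have := (S.fixB 1 P1).mul_mem ht this
        convert this using 1
        group
    choose a h using ex
    rw [← b1.card_nb l P lP]
    refine Set.ncard_le_ncard_of_injOn (t := (S.A P l : Set G)) (fun y => a y * v⁻¹)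
      (fun y hy => (h y hy).2.2) fun y hy y' hy' e => by_contra fun hne => ?_
    have e : a y = a y' := mul_right_cancel e
    have := two hy.1 hy'.1 hne
    exact (h y hy).2.1 (disj b1 b2 (by omega) (h y hy).1.2.1 (e ▸ (h y' hy').1.2.1) (by omega))

end Cfsg.Agent.H49.BN2.O8L
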