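import Cfsg.Agent.H49.BN2Defs

set_option autoImplicit false

namespace Cfsg.Agent.H49.BN2.Q4P

open Cfsg.Agent.H49.BN2

universe u

variable {p : ℕ} {X G : Type u} [Group G] [MulAction G X] {S : Sys 4 p X G}

theorem two {m x y : X} (h1 : S.d m x = 1) (h2 : S.d m y = 1) (h : x ≠ y) : S.d x y = 2 := by
  have := S.step m x y h1
  have h0 : S.d x y ≠ 0 := fun e => h ((S.d_zero _ _).1 e)
  omega

theorem mid (b1 : S.toPol.Bas) {x y : X} (h : S.d x y = 2) : ∃ m, S.d x m = 1 ∧ S.d y m = 1 := by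
  obtain ⟨m, h1, h2⟩ := b1.geo_ex x y 1 (by omega)
  exact ⟨m, h1, by rw [S.d_symm]; omega⟩

theorem three {x y l : X} (h : S.d x y = 4) (h1 : S.d y l = 1) : S.d x l = 3 := by
  have := S.step y l x h1
  have := S.d_le l x
  rw [S.d_symm y x] at *
  rw [S.d_symm x l]; omega

theorem proj {x K : X} (h : S.d x K = 3) : ∃ w, S.d K w = 1 ∧ S.d x w = 2 := by
  obtain ⟨w, h1, h2⟩ := S.ex K x (fun e => by rw [e, (S.d_zero _ _).2 rfl] at h; omega)
  rw [S.d_symm K x, S.d_symm w x] at h2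
  exact ⟨w, h1, by omega⟩

theorem proj_uniq {x K w w' : X} (h : S.d x K = 3) (h1 : S.d K w = 1) (h2 : S.d K w' = 1)
    (h3 : S.d x w = 2) (h4 : S.d x w' = 2) : w = w' :=
  S.uniq K w w' x (by rw [S.d_symm]; omega) h1 h2 (by rw [S.d_symm w, S.d_symm K]; omega)
    (by rw [S.d_symm w', S.d_symm K]; omega)

variable (S) in
theorem ne_of_d {x y z : X} (h : S.d x y ≠ S.d x z) : y ≠ z := fun e => h (e ▸ rfl)

variable (S) in
theorem ne_of_pos {x y : X} (h : S.d x y ≠ 0) : x ≠ y := fun e => h ((S.d_zero _ _).2 e)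

/-- Two points collinear with two opposite points are opposite. -/
theorem t4 (b1 : S.toPol.Bas) {a c u u' : X} (h : S.d a c = 4) (h1 : S.d a u = 2) (h2 : S.d c u = 2)
    (h3 : S.d a u' = 2) (h4 : S.d c u' = 2) (hne : u ≠ u') : S.d u u' = 4 := by
  have hp := b1.par a u u'
  have hl := S.d_le u u'
  have h0 : S.d u u' ≠ 0 := fun e => hne ((S.d_zero _ _).1 e)
  by_contra hn
  have h5 : S.d u u' = 2 := by rw [h1, h3] at hp; obtain ⟨k, hk⟩ := hp; omega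
  obtain ⟨m, m1, m2⟩ := mid b1 h5
  have key : ∀ z, S.d z u = 2 → S.d z u' = 2 → S.d z m = 1 := fun z z1 z2 => by
    have := S.step u m z m1
    rw [S.d_symm m z, S.d_symm u z] at this
    by_contra hz
    exact hne (proj_uniq (x := z) (K := m) (by omega) (by rw [S.d_symm]; exact m1)
      (by rw [S.d_symm]; exact m2) z1 z2)
  have := b1.tri a m c
  rw [key a h1 h3, S.d_symm m c, key c h2 h4] at this
  omega

theorem d_left (g : G) {x y x' : X} (h : g • x = x') : S.d x' (g • y) = S.d x y := by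
  rw [← h, S.d_smul]

section

variable (b1 : S.toPol.Bas) (b2 : S.Bas) (t1 : S.T1) (q4u : S.Q4u)
include b1 b2 t1 q4u

theorem hH {P R x w w' : X} (hP : S.Cen P) (h1 : S.d P R = 2) (h2 : S.d P x = 2) (h3 : S.d R x = 4)
    (w1 : S.d R w = 2) (w2 : S.d x w = 2) (w3 : S.d R w' = 2) (w4 : S.d x w' = 2) (n1 : w ≠ P)
    (n2 : w' ≠ P) : ∃ b ∈ S.fixB 1 P, b • R = R ∧ b • x = x ∧ b • w = w' := by
  obtain ⟨L, L1, L2⟩ := mid b1 h1
  obtain ⟨M, M1, M2⟩ := mid b1 h2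
  obtain ⟨l, l1, l2⟩ := mid b1 w2
  obtain ⟨l', l1', l2'⟩ := mid b1 w4
  have RM : S.d R M = 3 := three h3 M2
  have hLM : L ≠ M := ne_of_d S (x := R) (by omega)
  have hl : ∀ {l w : X}, S.d x l = 1 → S.d w l = 1 → S.d R w = 2 → w ≠ P → S.d M l = 2 :=
    fun {l w} a b c e => two M2 a fun h => e (proj_uniq RM (by rw [S.d_symm, h]; exact b)
      (by rw [S.d_symm]; exact M1) c (by rw [S.d_symm]; exact h1))
  have xP : x ≠ P := (ne_of_pos S (by omega)).symm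
  obtain ⟨ν, ⟨nM, nP⟩, hν⟩ := t1 M P x l l' 1 (by rw [S.d_symm]; exact M1)
    (by rw [S.d_symm]; exact M2) xP (by omega) (hl l1 l2 w1 n1) l1 (hl l1' l2' w3 n2) l1'
  have νL : ν • L = L := nP.2 L (by omega)
  have νP : ν • P = P := nP.2 P (by rw [(S.d_zero _ _).2 rfl]; omega)
  have νx : ν • x = x := nM.2 x (by rw [S.d_symm]; omega)
  have RP : R ≠ P := (ne_of_pos S (by omega)).symm
  obtain ⟨g, ⟨⟨-, gP⟩, gx⟩, hg⟩ := q4u L P M x (ν • R) R hP L1 M1 hLM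
    (by rw [S.d_symm]; exact M2) xP (by rw [d_left ν νL, S.d_symm]; exact L2)
    (by rw [S.d_symm]; exact L2) (fun e => RP (by rw [← νP] at e; exact smul_left_cancel ν e)) RP
  have e1 : (g * ν) • R = R := by rw [mul_smul, hg]
  have e2 : (g * ν) • l = l' := by rw [mul_smul, hν, gx.2 l' (by omega)]
  refine ⟨g * ν, mul_mem gP.2 nP.2, e1,
    by rw [mul_smul, νx, gx.2 x (by rw [(S.d_zero _ _).2 rfl]; omega)], ?_⟩
  exact proj_uniq (three h3 l1') (by rw [d_left _ e2, S.d_symm]; exact l2)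
    (by rw [S.d_symm]; exact l2') (by rw [d_left _ e1]; exact w1) w3

end

/-- The properties of the fixed structure. -/
structure Fx (S : Sys 4 p X G) (F : Set X) : Prop where
  conv : S.toPol.Conv F
  opp : S.toPol.HasOpp F
  norm : ∀ (g : G) x y u v, S.toPol.Opp x y u v → x ∈ F → y ∈ F → u ∈ F → v ∈ F → g • x ∈ F →
    g • y ∈ F → g • u ∈ F → g • v ∈ F → ∀ w ∈ F, g • w ∈ F
  full : ∀ l ∈ F, S.Ln l → ∀ w, S.d l w = 1 → w ∈ F
  ne : ∃ w, w ∉ F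

theorem Fx.mid {F : Set X} (H : Fx S F) {x y m : X} (hx : x ∈ F) (hy : y ∈ F) (h : S.d x y = 2)
    (h1 : S.d x m = 1) (h2 : S.d y m = 1) : m ∈ F :=
  H.conv x hx y hy m (by omega) (by rw [S.d_symm m]; omega)

theorem opp4 (b1 : S.toPol.Bas) {a0 a2 a4 a6 a1 a5 : X} (h04 : S.d a0 a4 = 4)
    (h24 : S.d a4 a2 = 2) (h26 : S.d a2 a6 = 4) (h01 : S.d a0 a1 = 1) (h21 : S.d a2 a1 = 1)
    (h45 : S.d a4 a5 = 1) (h65 : S.d a6 a5 = 1) : S.toPol.Opp a0 a1 a4 a5 := by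
  obtain ⟨a3, h43, h23⟩ := mid b1 h24
  have h41 : S.d a4 a1 = 3 := three (by rw [S.d_symm]; exact h04) h01
  have h13 : S.d a1 a3 = 2 := two h21 h23 (ne_of_d S (x := a4) (by omega))
  have h25 : S.d a2 a5 = 3 := three h26 h65
  have := b1.away a4 a3 a5 a1 h43 h45 (ne_of_d S (x := a2) (by omega))
    (by rw [S.d_symm a1 a4]; omega) (by rw [S.d_symm a1 a4]; omega)
  rw [S.d_symm a1 a4] at this
  exact ⟨h01, h45, h04, by omega⟩

section

variable (b1 : S.toPol.Bas) (b2 : S.Bas) (t1 : S.T1) (q4u : S.Q4u) {F : Set X} (H : Fx S F)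
include b1 b2 t1 q4u H

theorem claimA {a0 a2 a4 a6 w o : X} (c0 : S.Cen a0) (f0 : a0 ∈ F) (f2 : a2 ∈ F) (f4 : a4 ∈ F)
    (f6 : a6 ∈ F) (h04 : S.d a0 a4 = 4) (h02 : S.d a0 a2 = 2) (h42 : S.d a4 a2 = 2)
    (h06 : S.d a0 a6 = 2) (h46 : S.d a4 a6 = 2) (n26 : a2 ≠ a6) (hw : w ∉ F) (w0 : S.d a0 w = 2)
    (w4 : S.d a4 w = 2) (fo : o ∈ F) (ow : S.d w o = 2) (o6 : S.d a6 o = 2) : S.d a2 o = 2 := by
  have c2 : S.Cen a2 := b2.cen_even a0 a2 c0 (by rw [h02]; decide)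
  have c6 : S.Cen a6 := b2.cen_even a0 a6 c0 (by rw [h06]; decide)
  have cw : S.Cen w := b2.cen_even a0 w c0 (by rw [w0]; decide)
  have w2 : w ≠ a2 := fun e => hw (e ▸ f2)
  have w6 : w ≠ a6 := fun e => hw (e ▸ f6)
  have h26 := t4 b1 h04 h02 h42 h06 h46 n26
  have h2w := t4 b1 h04 h02 h42 w0 w4 w2.symm
  have hw6 := t4 b1 h04 w0 w4 h06 h46 w6
  obtain ⟨b, bB, b0, b4, bw⟩ := hH b1 b2 t1 q4u c6 (by rw [S.d_symm]; exact h06)
    (by rw [S.d_symm]; exact h46) h04 h02 h42 w0 w4 n26 w6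
  obtain ⟨b'', bB'', b0'', b4'', bw''⟩ := hH b1 b2 t1 q4u (w := a6) (w' := b⁻¹ • a2) c2
    (by rw [S.d_symm]; exact h02) (by rw [S.d_symm]; exact h42) h04 h06 h46
    (by rw [d_left b⁻¹ (inv_smul_eq_iff.2 b0.symm)]; exact h02)
    (by rw [d_left b⁻¹ (inv_smul_eq_iff.2 b4.symm)]; exact h42) n26.symm
    (fun e => w2 (by rw [← bw, ← inv_smul_eq_iff.1 e]))
  obtain ⟨b', bB', b0', b4', bw'⟩ := hH b1 b2 t1 q4u c2
    (by rw [S.d_symm]; exact h02) (by rw [S.d_symm]; exact h42) h04 w0 w4 h06 h46 w2 n26.symm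
  have z0 : ∀ x : X, S.d x x ≤ 1 := fun x => by rw [(S.d_zero _ _).2 rfl]; omega
  have m0 : (b' * b * b'') • a0 = a0 := by rw [mul_smul, mul_smul, b0'', b0, b0']
  have m4 : (b' * b * b'') • a4 = a4 := by rw [mul_smul, mul_smul, b4'', b4, b4']
  have m2 : (b' * b * b'') • a2 = a6 := by rw [mul_smul, mul_smul, bB'' a2 (z0 _), bw, bw']
  have m6 : (b' * b * b'') • a6 = a2 := by
    rw [mul_smul, mul_smul, bw'', smul_inv_smul, bB' a2 (z0 _)]
  obtain ⟨a1, h01, h21⟩ := mid b1 h02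
  obtain ⟨a5, h45, h65⟩ := mid b1 h46
  have hμ := H.norm (b' * b * b'') a0 a1 a4 a5 (opp4 b1 h04 h42 h26 h01 h21 h45 h65) f0
    (H.mid f0 f2 h02 h01 h21) f4 (H.mid f4 f6 h46 h45 h65) (by rwa [m0])
    (H.mid f0 f6 h06 (by rwa [d_left _ m0]) (by rwa [d_left _ m2])) (by rwa [m4])
    (H.mid f4 f2 h42 (by rwa [d_left _ m4]) (by rwa [d_left _ m6]))
  obtain ⟨z', z6, zo⟩ := mid b1 o6
  have fz' := H.mid f6 fo o6 z6 zo
  have h2z := three h26 z6
  obtain ⟨z, z1, z2⟩ := proj (x := z') (K := a2) (by rw [S.d_symm]; exact h2z)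
  have fz : z ∈ F := H.conv a2 f2 z' fz' z (by omega) (by rw [S.d_symm z]; omega)
  obtain ⟨k, k1, k2⟩ := mid b1 ow
  have hwz := three hw6 z6
  have bz : b • z = k := proj_uniq (x := z') (K := w) (by rw [S.d_symm]; exact hwz)
    (by rwa [d_left b bw]) k1 (by rwa [d_left b (bB z' (by omega))])
    (two zo k2 (ne_of_d S (x := w) (by omega)))
  have h2k := three h2w k1
  obtain ⟨z'', y1, y2⟩ := proj (x := k) (K := a2) (by rw [S.d_symm]; exact h2k)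
  have fk : b' • k ∈ F := by
    have := hμ z fz
    rwa [mul_smul, mul_smul, bB'' z (by omega), bz] at this
  have e1 : S.d a2 (b' • k) = 3 := by rwa [d_left b' (bB' a2 (z0 _))]
  have e2 : S.d z'' (b' • k) = 2 := by rwa [d_left b' (bB' z'' (by omega)), S.d_symm]
  have fz'' : z'' ∈ F := H.conv a2 f2 _ fk z'' (by omega) (by omega)
  obtain ⟨o', o1, o2⟩ := mid b1 y2
  have fo' : o' ∈ F := H.full z'' fz'' (b2.ln_odd a2 z'' c2 (by rw [y1]; decide)) o' o2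
  have : o = o' := by
    by_contra hne
    have := H.mid fo fo' (two (by rw [S.d_symm]; exact k2) o1 hne) k2 (by rw [S.d_symm]; exact o1)
    exact hw (H.full k this (b2.ln_odd w k cw (by rw [k1]; decide)) w (by rw [S.d_symm]; exact k1))
  subst this
  exact two (by rw [S.d_symm]; exact y1) o2 (ne_of_d S (x := a6) (by rw [S.d_symm a6 a2]; omega))

omit t1 q4u in
theorem exT {a0 a4 : X} (c0 : S.Cen a0) (f0 : a0 ∈ F) (h04 : S.d a0 a4 = 4) :
    ∃ w, w ∉ F ∧ S.d a0 w = 2 ∧ S.d a4 w = 2 := by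
  by_contra hn
  push_neg at hn
  have key : ∀ l, S.d a0 l = 1 → l ∈ F := fun l hl => by
    obtain ⟨w, w1, w2⟩ := proj (x := a4) (K := l) (three (by rw [S.d_symm]; exact h04) hl)
    have w3 : S.d a0 w = 2 := two (by rw [S.d_symm]; exact hl) w1
      (ne_of_d S (x := a4) (by rw [S.d_symm a4 a0]; omega))
    exact H.mid f0 (by_contra fun h => hn w h w3 w2) w3 hl (by rw [S.d_symm]; exact w1)
  obtain ⟨l, hl, -⟩ := S.thick a0 a0 a0
  obtain ⟨w, hw⟩ := H.ne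
  exact hw (b1.rig F H.conv H.opp a0 l hl key
    (H.full l (key l hl) (b2.ln_odd a0 l c0 (by rw [hl]; decide))) w)

theorem claimA2 {a0 a2 a4 a6 w o : X} (c0 : S.Cen a0) (f0 : a0 ∈ F) (f2 : a2 ∈ F) (f4 : a4 ∈ F)
    (f6 : a6 ∈ F) (h04 : S.d a0 a4 = 4) (h02 : S.d a0 a2 = 2) (h42 : S.d a4 a2 = 2)
    (h06 : S.d a0 a6 = 2) (h46 : S.d a4 a6 = 2) (n26 : a2 ≠ a6) (w0 : S.d a0 w = 2)
    (w4 : S.d a4 w = 2) (fo : o ∈ F) (o2 : S.d a2 o = 2) (o6 : S.d a6 o = 2) : S.d w o = 2 := by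
  have c6 : S.Cen a6 := b2.cen_even a0 a6 c0 (by rw [h06]; decide)
  have key : ∀ w, w ∉ F → S.d a0 w = 2 → S.d a4 w = 2 → S.d w o = 2 := fun w hw w0 w4 => by
    have hw6 := t4 b1 h04 w0 w4 h06 h46 fun e => hw (e ▸ f6)
    obtain ⟨z, z6, zo⟩ := mid b1 o6
    obtain ⟨o', p1, p2⟩ := proj (three hw6 z6)
    have fo' := H.full z (H.mid f6 fo o6 z6 zo) (b2.ln_odd a6 z c6 (by rw [z6]; decide)) o' p1
    have := claimA b1 b2 t1 q4u H c0 f0 f2 f4 f6 h04 h02 h42 h06 h46 n26 hw w0 w4 fo' p2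
      (two (by rw [S.d_symm]; exact z6) p1 (ne_of_d S (x := w) (by omega)))
    rwa [proj_uniq (three (t4 b1 h04 h02 h42 h06 h46 n26) z6) (by rw [S.d_symm]; exact zo) p1 o2 this]
  by_cases hw : w ∈ F
  · by_cases w6 : w = a6
    · rwa [w6]
    · obtain ⟨w', hw', e0, e4⟩ := exT b1 b2 H c0 f0 h04
      exact claimA b1 b2 t1 q4u H c0 f0 hw f4 f6 h04 w0 w4 h06 h46 w6 hw' e0 e4 fo
        (key w' hw' e0 e4) o6
  · exact key w hw w0 w4

end

/-- The points collinear with `a` and `w`. -/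
def perp (S : Sys 4 p X G) (a w : X) : Set X := {v | S.d a v = 2 ∧ S.d w v = 2}

theorem perp_eq (b1 : S.toPol.Bas) {a w w' : X} (h : S.d w a = 4) (h' : S.d w' a = 4)
    (hs : perp S a w ⊆ perp S a w') : perp S a w = perp S a w' := by
  refine hs.antisymm fun v' ⟨v1, v2⟩ => ?_
  obtain ⟨l, l1, l2⟩ := mid b1 v1
  obtain ⟨v, p1, p2⟩ := proj (three h l1)
  have hv : v ∈ perp S a w :=
    ⟨two (by rw [S.d_symm]; exact l1) p1 (ne_of_d S (x := w) (by omega)), p2⟩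
  rwa [proj_uniq (three h' l1) (by rw [S.d_symm]; exact l2) p1 v2 (hs hv).2]

theorem claimB (b1 : S.toPol.Bas) (b2 : S.Bas) {F : Set X} (H : Fx S F) {a0 a2 a4 w : X} {δ : G}
    (c0 : S.Cen a0) (f0 : a0 ∈ F) (f2 : a2 ∈ F) (f4 : a4 ∈ F) (h04 : S.d a0 a4 = 4)
    (h02 : S.d a0 a2 = 2) (h42 : S.d a4 a2 = 2) (hw : w ∉ F) (w0 : S.d a0 w = 2)
    (w4 : S.d a4 w = 2) (hδ : ∀ x ∈ F, δ • x = x) (hne : δ • w ≠ w)
    (hp : perp S a2 w = perp S a2 (δ • w)) : False := by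
  have hw2 := t4 b1 h04 w0 w4 h02 h42 fun e => hw (e ▸ f2)
  have hδw := t4 b1 h04 (by rwa [d_left δ (hδ a0 f0)]) (by rwa [d_left δ (hδ a4 f4)]) w0 w4 hne
  have e : perp S w a2 = perp S w (δ • w) := perp_eq b1 (by rw [S.d_symm]; exact hw2) hδw
    fun v ⟨v1, v2⟩ => ⟨v1, (hp ▸ (⟨v2, v1⟩ : v ∈ perp S a2 w) : v ∈ perp S a2 (δ • w)).2⟩
  obtain ⟨a1, h01, h21⟩ := mid b1 h02
  have f1 := H.mid f0 f2 h02 h01 h21
  obtain ⟨r, r1, r0, r2⟩ := S.thick a1 a0 a2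
  have l1 := b2.ln_odd a0 a1 c0 (by rw [h01]; decide)
  have fr := H.full a1 f1 l1 r r1
  obtain ⟨K, fK, K1, K2⟩ := b1.fix2 F H.conv H.opp r fr a1
  have hw1 := three hw2 h21
  have hwr := b1.away a1 a0 r w (by rw [S.d_symm]; exact h01) r1 r0.symm
    (by rw [S.d_symm w a0]; omega) (by omega)
  obtain ⟨o, o1, o2⟩ := proj (three (x := w) (by omega) K1)
  have fo := H.full K fK (b2.ln_odd r K (l1 r r1) (by rw [K1]; decide)) o o1
  have ho : o ∈ perp S w a2 := e ▸ ⟨o2, by rw [← hδ o fo, S.d_smul]; exact o2⟩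
  have h2r := two (by rw [S.d_symm]; exact h21) r1 r2.symm
  have h2K := b1.away r a1 K a2 (by rw [S.d_symm]; exact r1) K1 K2.symm (by omega) (by omega)
  have := proj_uniq (x := a2) (by omega) o1 (by rw [S.d_symm]; exact K1) ho.2 h2r
  rw [this] at o2
  omega

theorem perp_smul (g : G) {a w : X} (h : g • a = a) (v : X) :
    g • v ∈ perp S a (g • w) ↔ v ∈ perp S a w := by
  simp only [perp, Set.mem_setOf_eq, d_left g h, S.d_smul]

theorem main [Finite G] (b1 : S.toPol.Bas) (b2 : S.Bas) (t1 : S.T1) (q4u : S.Q4u)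
    (hreg : ∀ l, S.Ln l → S.Reg l) {a0 a1 a4 a5 : X} (c0 : S.Cen a0)
    (ho : S.toPol.Opp a0 a1 a4 a5) {g : G} (hg : g ∈ S.D a0 a1 a4 a5) : g = 1 := by
  by_contra hg1
  set F : Set X := {w | ∀ δ ∈ (S.D a0 a1 a4 a5 : Set G), δ • w = w} with hF
  have f0 : a0 ∈ F := fun δ h => S.V_fix _ _ ho.1 δ h.1.1
  have f1 : a1 ∈ F := fun δ h =>
    S.V_fix _ _ (by rw [S.d_symm]; exact ho.1) δ (S.V_symm _ _ ▸ h.1.1)
  have f4 : a4 ∈ F := fun δ h => h.1.2
  have f5 : a5 ∈ F := fun δ h => h.2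
  have hO : S.toPol.HasOpp F := ⟨a0, f0, a1, f1, a4, f4, a5, f5, ho⟩
  have H : Fx S F := by
    refine ⟨b2.conv _, hO, ?_, ?_, ?_⟩
    · intro h x y u v o' fx fy fu fv gx gy gu gv w fw δ hδ
      have e1 := b2.dn _ _ _ _ x y u v ho o' fun δ h => ⟨fx δ h, fy δ h, fu δ h, fv δ h⟩
      have m : h⁻¹ * δ * h ∈ S.D x y u v := by
        refine ⟨⟨?_, ?_⟩, ?_⟩
        · have := S.V_conj (h • x) (h • y) (by rw [S.d_smul]; exact o'.1) h⁻¹ δ
            (b2.uni a0 a1 _ _ ho.1 (by rw [S.d_smul]; exact o'.1) δ hδ.1.1 (gx δ hδ) (gy δ hδ))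
          simpa using this
        · change (h⁻¹ * δ * h) • u = u
          rw [mul_smul, mul_smul, gu δ hδ, inv_smul_smul]
        · change (h⁻¹ * δ * h) • v = v
          rw [mul_smul, mul_smul, gv δ hδ, inv_smul_smul]
      have := fw _ (e1 ▸ m)
      rwa [mul_smul, mul_smul, inv_smul_eq_iff] at this
    · intro l fl hl w hw δ hδ
      obtain ⟨y, fy, y1, -⟩ := b1.fix2 F (b2.conv _) hO l fl l
      obtain ⟨z, fz, z1, hz⟩ := b1.fix2 F (b2.conv _) hO l fl y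
      exact hreg l hl y z y1 z1 hz.symm δ (b2.uni a0 a1 l y ho.1 y1 δ hδ.1.1 (fl δ hδ) (fy δ hδ))
        (fz δ hδ) w hw.le
    · by_contra hn
      push_neg at hn
      exact hg1 (S.faith g fun x => hn x g hg)
  obtain ⟨h01, h45, h04, h15⟩ := ho
  have h41 : S.d a4 a1 = 3 := three (by rw [S.d_symm]; exact h04) h01
  have h05 : S.d a0 a5 = 3 := three h04 h45
  obtain ⟨a2, h12, h42⟩ := proj h41
  obtain ⟨a6, h56, h06⟩ := proj h05
  have h02 : S.d a0 a2 = 2 := two (by rw [S.d_symm]; exact h01) h12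
    (ne_of_d S (x := a4) (by rw [S.d_symm a4 a0]; omega))
  have h46 : S.d a4 a6 = 2 := two (by rw [S.d_symm]; exact h45) h56 (ne_of_d S (x := a0) (by omega))
  have f2 : a2 ∈ F := H.conv a4 f4 a1 f1 a2 (by omega) (by rw [S.d_symm a2]; omega)
  have f6 : a6 ∈ F := H.conv a0 f0 a5 f5 a6 (by omega) (by rw [S.d_symm a6]; omega)
  have n26 : a2 ≠ a6 := fun e => by
    have := b1.tri a1 a2 a5
    rw [e, S.d_symm a6, h56, ← e] at this
    omega
  have h26 := t4 b1 h04 h02 h42 h06 h46 n26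
  set W := S.V a0 a1 ⊓ MulAction.stabilizer G a4 with hW
  have W0 : ∀ h ∈ W, h • a0 = a0 := fun h hh => S.V_fix _ _ h01 h hh.1
  have W2 : ∀ h ∈ W, h • a2 = a2 := fun h hh => b2.geo_fix h a4 a1 a2 hh.2
    (S.V_fix _ _ (by rw [S.d_symm]; exact h01) h (S.V_symm _ _ ▸ hh.1)) (by omega)
    (by rw [S.d_symm a2]; omega)
  let K : Subgroup W :=
    { carrier := {h | perp S a2 ((h : G) • a6) = perp S a2 a6}
      one_mem' := by simp
      mul_mem' := fun {a b} ha hb => by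
        change perp S a2 (((a : G) * b) • a6) = _
        rw [← ha]
        ext v
        rw [← smul_inv_smul (a : G) v, mul_smul, perp_smul _ (W2 _ a.2), perp_smul _ (W2 _ a.2), hb]
      inv_mem' := fun {a} ha => by
        change perp S a2 ((a : G)⁻¹ • a6) = _
        ext v
        have ha' : perp S a2 ((a : G) • a6) = perp S a2 a6 := ha
        rw [← perp_smul (a : G) (W2 _ a.2), smul_inv_smul, ← perp_smul (a : G) (W2 _ a.2) v, ha'] }
  have DK : ∀ δ (h : δ ∈ S.D a0 a1 a4 a5), (⟨δ, h.1⟩ : W) ∈ K := fun δ h => by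
    change perp S a2 (δ • a6) = _
    rw [f6 δ h]
  suffices h : ∃ h : W, (h : G) • a6 ∉ F ∧ ∀ k ∈ K, h⁻¹ * k * h ∈ K by
    obtain ⟨h, hw, hn⟩ := h
    obtain ⟨δ, hδ⟩ := not_forall.1 hw
    obtain ⟨hδ, hne⟩ := Classical.not_imp.1 hδ
    refine claimB b1 b2 H c0 f0 f2 f4 h04 h02 h42 hw (by rwa [d_left _ (W0 _ h.2)])
      (by rwa [d_left (h : G) h.2.2]) (fun x hx => hx δ hδ) hne ?_
    have e : perp S a2 (((h : G)⁻¹ * δ * h) • a6) = perp S a2 a6 := hn _ (DK δ hδ)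
    ext v
    rw [← smul_inv_smul (h : G) v, perp_smul _ (W2 _ h.2), ← e, ← perp_smul (h : G) (W2 _ h.2),
      mul_smul, mul_smul, smul_inv_smul, smul_inv_smul]
  by_cases hK : K = ⊤
  · obtain ⟨w, hw, w0, w4⟩ := exT b1 b2 H c0 f0 h04
    obtain ⟨l, l4, lw⟩ := mid b1 w4
    obtain ⟨h, hV, e4, e5⟩ := S.V_tr a0 a1 a4 a5 a4 l ⟨h01, h45, h04, h15⟩
      (opp4 b1 h04 h42 (t4 b1 h04 h02 h42 w0 w4 fun e => hw (e ▸ f2)) h01
        (by rw [S.d_symm]; exact h12) l4 lw)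
    have : h • a6 = w := proj_uniq (three h04 l4) (by rwa [d_left h e5])
      (by rw [S.d_symm]; exact lw) (by rwa [d_left h (S.V_fix _ _ h01 h hV)]) w0
    exact ⟨⟨h, hV, e4⟩, by rwa [this], fun k _ => hK ▸ Subgroup.mem_top _⟩
  · haveI := Fact.mk S.hp
    haveI := ((S.V_p a0 a1 h01).to_le (inf_le_left : W ≤ _)).isNilpotent
    obtain ⟨h, hN, hh⟩ := SetLike.exists_of_lt
      (normalizerCondition_of_isNilpotent K (lt_top_iff_ne_top.2 hK))
    refine ⟨h, fun fw => hh ?_, fun k hk => (Subgroup.mem_normalizer_iff''.1 hN k).1 hk⟩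
    have w0 : S.d a0 ((h : G) • a6) = 2 := by rwa [d_left _ (W0 _ h.2)]
    have w4 : S.d a4 ((h : G) • a6) = 2 := by rwa [d_left (h : G) h.2.2]
    refine (perp_eq b1 (by rw [S.d_symm]; exact h26)
      (by rw [S.d_symm, d_left _ (W2 _ h.2)]; exact h26) fun v hv => ⟨hv.1, ?_⟩).symm
    rw [S.d_symm]
    exact claimA2 b1 b2 t1 q4u H (b2.cen_even a0 a2 c0 (by rw [h02]; decide)) f2 f0 f6 f4 h26
      (by rw [S.d_symm]; exact h02) (by rw [S.d_symm]; exact h06) (by rw [S.d_symm]; exact h42)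
      (by rw [S.d_symm]; exact h46) (ne_of_pos S (by omega)) hv.1 hv.2 fw w0 w4

theorem q4pStmt : Q4pStmt.{u} := by
  intro n p X G _ _ _ _ S _ b1 b2 hn t1 q4u hreg ⟨o, hc⟩ x y u v ho g hg hu hv
  subst hn
  rcases Nat.even_or_odd (S.d o x) with he | he
  · exact main b1 b2 t1 q4u hreg (b2.cen_even o x hc he) ho ⟨⟨hg, hu⟩, hv⟩
  · exact main b1 b2 t1 q4u hreg (b2.ln_odd o x hc he y ho.1)
      ⟨by rw [S.d_symm]; exact ho.1, by rw [S.d_symm]; exact ho.2.1, ho.2.2.2, ho.2.2.1⟩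
      ⟨⟨S.V_symm _ _ ▸ hg, hv⟩, hu⟩

end Cfsg.Agent.H49.BN2.Q4P
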