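import Cfsg.Agent.H49.BN2Defs
import Cfsg.Agent.Lead.T3Defs

/-!
# Split BN-pairs: reduction to rank two

The paper proof is in `stubs/notes/h49_bn2.md`.
-/

set_option autoImplicit false

namespace Cfsg.Agent.H49.BN2

open Cfsg.Agent.Lead.T3

universe u

/-- **POLY1**: the polygon of a residue of rank two; `a x`, `b x` are the panels of types `i`, `j`
of the chamber `x`. -/
def Poly1Stmt : Prop :=
  ∀ {I W : Type} [Group W] [Finite W] {X : Cox I W} {C : Type u} [Finite C] (B : Bld X C)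
    (i j : I) (c : C), i ≠ j → 3 ≤ X.m i j →
    ∃ (Y : Type u) (_ : Finite Y) (Γ : Pol (X.m i j) Y) (a b : C → Y),
      (∀ x ∈ B.res {i, j} c, ∀ y ∈ B.res {i, j} c, a x = a y ↔ B.δ x y ∈ X.WJ {i}) ∧
      (∀ x ∈ B.res {i, j} c, ∀ y ∈ B.res {i, j} c, b x = b y ↔ B.δ x y ∈ X.WJ {j}) ∧
      (∀ x ∈ B.res {i, j} c, ∀ y ∈ B.res {i, j} c, a x ≠ b y) ∧
      (∀ v w, Γ.d v w = 1 ↔ ∃ x ∈ B.res {i, j} c, (v = a x ∧ w = b x) ∨ (v = b x ∧ w = a x)) ∧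
      (∀ x ∈ B.res {i, j} c, ∀ y ∈ B.res {i, j} c, Even (Γ.d (a x) (a y))) ∧
      ∀ x ∈ B.res {i, j} c, ∀ y ∈ B.res {i, j} c, B.δ x y = X.wJ {i, j} ↔
        (Γ.Opp (a x) (b x) (a y) (b y) ∨ Γ.Opp (a x) (b x) (b y) (a y))

/-- The rank two theorem for a residue of a building. -/
def BldStmt : Prop :=
  ∀ {I W : Type} [Group W] [Finite W] {X : Cox I W} {C : Type u} [Finite C] (B : Bld X C)
    {G : Type u} [Group G] [Finite G] [MulAction G C] (i j : I) (c : C) (V : Subgroup G),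
    i ≠ j → X.m i j = 3 ∨ X.m i j = 4 ∨ X.m i j = 6 ∨ X.m i j = 8 →
    (∀ (g : G) x y, B.δ (g • x) (g • y) = B.δ x y) → (∀ x : C, ∃ g : G, g • c = x) →
    Group.IsNilpotent V → (∀ v ∈ V, v • c = c) →
    (∀ g : G, g • c = c → ∀ v ∈ V, g * v * g⁻¹ ∈ V) →
    (∀ y y', B.δ c y = X.wJ {i, j} → B.δ c y' = X.wJ {i, j} → ∃ v ∈ V, v • y = y') →
    ∀ v ∈ V, ∀ y, B.δ c y = X.wJ {i, j} → v • y = y → ∀ x ∈ B.res {i, j} c, v • x = x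

/-- The statement `S3415`. -/
def Goal : Prop :=
  ∀ {G : Type u} [Group G] [Finite G]
    (P : Cfsg.BNPair G) (_ : 2 ≤ P.rank) (_ : P.Irreducible) (_ : P.B.normalCore = ⊥)
    (U U' : Subgroup G) (_ : U ≤ P.B) (_ : U' ≤ P.B)
    (_ : ∀ b ∈ P.B, ∀ u ∈ U, b * u * b⁻¹ ∈ U) (_ : ∀ b ∈ P.B, ∀ u ∈ U', b * u * b⁻¹ ∈ U')
    (_ : Group.IsNilpotent U) (_ : Group.IsNilpotent U')
    (_ : U ⊔ (P.B ⊓ P.N) = P.B) (_ : U' ⊔ (P.B ⊓ P.N) = P.B), U = U'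

/-- **POLY2** -/
def Poly2Stmt : Prop := G1Stmt.{u} → Poly1Stmt.{u} → R2Stmt.{u} → BldStmt.{u}

/-- **RED** -/
def RedStmt : Prop := BldStmt.{u} → Goal.{u}

/-- Assembly. -/
theorem goal (H : Pieces.{u}) (h1 : Poly1Stmt.{u}) (h2 : Poly2Stmt.{u}) (h3 : RedStmt.{u}) :
    Goal.{u} :=
  @h3 (@h2 @H.g1 @h1 (@r2 H))

end Cfsg.Agent.H49.BN2
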