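import Mathlib
import Cfsg.Agent.H50.E72Defs
import Cfsg.Agent.H40.Cent

/-! The three classes of lines of a torus of order 25, and the second Janko group. -/

set_option autoImplicit false
set_option maxRecDepth 100000
set_option synthInstance.maxSize 4000
set_option synthInstance.maxHeartbeats 200000

namespace Cfsg.Agent.H49.E72NoJ

open Equiv Cfsg.Lie H37 H40 H34 H29 Multiplicative Cfsg.Agent.H50.E72

/-- The isolated roots of the centraliser. -/
def B (e : E5) (r : Rt) : Prop := (5 : ℤ) ∣ F5 e r ∧ ∀ s : Rt, (5 : ℤ) ∣ F5 e s →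
  chevE7.pairing r s = 0 ∨ chevE7.pairing r s = 2 ∨ chevE7.pairing r s = -2

instance (e : E5) (r : Rt) : Decidable (B e r) := inferInstanceAs (Decidable (_ ∧ _))

def bL (c : ℤ) : List ℕ := if c = 1 then [0, 125] else if c = 2 then [33, 92] else
  if c = 3 then [62, 63] else []

theorem tab : ∀ a b : ZMod 5, ∀ r : Rt, B ![a, b] r ↔ r.1 ∈ bL (cls5 ![a, b]) := by
  decide +kernel

theorem eta (e : E5) : e = ![e 0, e 1] := by funext i; fin_cases i <;> rfl

theorem tab' (e : E5) (r : Rt) : B e r ↔ r.1 ∈ bL (cls5 e) := by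
  rw [eta e]; exact tab _ _ r

theorem sep : ∀ a b c d : ZMod 5, (∀ r : Rt, r.1 ∈ [0, 33, 62] →
    (r.1 ∈ bL (cls5 ![a, b]) ↔ r.1 ∈ bL (cls5 ![c, d]))) → cls5 ![a, b] = cls5 ![c, d] := by
  intro a b c d h
  have h0 := h ⟨0, by decide⟩ (by decide)
  have h1 := h ⟨33, by decide⟩ (by decide)
  have h2 := h ⟨62, by decide⟩ (by decide)
  revert h0 h1 h2
  clear h
  revert a b c d
  decide +kernel

theorem inv5 : Inv5Stmt := by
  intro w hw M hM e e' h
  have k : ∀ e r, (5 : ℤ) ∣ F5 (M e) r ↔ (5 : ℤ) ∣ F5 e (w r) := fun e r => by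
    rw [← show ((5 : ℕ) : ℤ) = 5 from rfl, ← ZMod.intCast_zmod_eq_zero_iff_dvd,
      ← ZMod.intCast_zmod_eq_zero_iff_dvd, hM]
  have b : ∀ e r, B (M e) r ↔ B e (w r) := fun e r => by
    refine and_congr (k e r) ⟨fun a s hs => ?_, fun a s hs => ?_⟩
    · obtain ⟨s, rfl⟩ := w.surjective s
      rw [pairing_W C7 hw]
      exact a s ((k e s).2 hs)
    · rw [← pairing_W C7 hw]
      exact a _ ((k e s).1 hs)
  rw [eta (M e), eta (M e')]
  refine sep _ _ _ _ fun r _ => ?_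
  rw [← eta, ← eta, ← tab', ← tab', b, b, tab', tab', h]

/-- A linear map of the plane. -/
def lin (a b c d : ZMod 5) (e : E5) : E5 := ![e 0 * a + e 1 * c, e 0 * b + e 1 * d]

def pts : List E5 := [![1, 0], ![0, 1], ![1, 1], ![1, 2], ![1, 3], ![1, 4]]

theorem fin : ∀ a b c d : ZMod 5, (∀ e ∈ pts, lin a b c d e 0 ≠ 0 ∨ lin a b c d e 1 ≠ 0) →
    ¬ ∀ e ∈ pts, ∀ e' ∈ pts, cls5 (lin a b c d e) = cls5 (lin a b c d e') →
      cls5 (lin a b c d ![-e 1, e 0 - e 1]) = cls5 (lin a b c d ![-e' 1, e' 0 - e' 1]) ∧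
      cls5 (lin a b c d ![e 1, e 0]) = cls5 (lin a b c d ![e' 1, e' 0]) := by
  decide +kernel

theorem noJ (hS : Syl5Stmt) (hI : Inv5Stmt) : NoJStmt := by
  rintro ⟨x, a, t, hx, ha, ht⟩
  obtain ⟨j, ζ, N, hζ, hN⟩ := hS x hx
  have key : ∀ (g : G0) (μ : E5 → E5), (∀ e, g * x (ofAdd e) * g⁻¹ = x (ofAdd (μ e))) →
      ∀ e e', cls5 (N e) = cls5 (N e') → cls5 (N (μ e)) = cls5 (N (μ e')) := fun g μ hg e e' h => by
    obtain ⟨w, hw, hw'⟩ := exists_act' C7 j g
    have := hI w hw (fun e => N (μ (N.symm e))) (fun e r => by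
      have := hw' hζ 1 (hN (N.symm e)) (hN (μ (N.symm e))) (by rw [pow_one, hg]) r
      rw [N.apply_symm_apply] at this
      simpa using this) (N e) (N e') h
    simpa using this
  have hl : ∀ e, N e = lin (N ![1, 0] 0) (N ![1, 0] 1) (N ![0, 1] 0) (N ![0, 1] 1) e := fun e => by
    have h1 : e = (e 0).val • (![1, 0] : E5) + (e 1).val • (![0, 1] : E5) := by
      funext i; fin_cases i <;> simp
    conv_lhs => rw [h1, map_add, map_nsmul, map_nsmul]
    funext i
    fin_cases i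
    · change (e 0).val • N ![1, 0] 0 + (e 1).val • N ![0, 1] 0 = e 0 * _ + e 1 * _
      rw [nsmul_eq_mul, nsmul_eq_mul, ZMod.natCast_zmod_val, ZMod.natCast_zmod_val]
    · change (e 0).val • N ![1, 0] 1 + (e 1).val • N ![0, 1] 1 = e 0 * _ + e 1 * _
      rw [nsmul_eq_mul, nsmul_eq_mul, ZMod.natCast_zmod_val, ZMod.natCast_zmod_val]
  refine fin (N ![1, 0] 0) (N ![1, 0] 1) (N ![0, 1] 0) (N ![0, 1] 1) (fun e he => ?_)
    fun e _ e' _ h => ?_
  · rw [← hl]
    by_contra hc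
    push_neg at hc
    have h0 : N e = 0 := by rw [eta (N e), hc.1, hc.2]; funext i; fin_cases i <;> rfl
    have : e = 0 := N.injective (h0.trans (map_zero N).symm)
    revert he; rw [this]; decide +kernel
  · simp only [← hl] at h ⊢
    exact ⟨key a _ ha e e' h, key t _ ht e e' h⟩

end Cfsg.Agent.H49.E72NoJ
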