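import Cfsg.Agent.H44.K5Defs
import Cfsg.Agent.H44.K0Fw3
import Cfsg.Agent.H54.K0Tri
import Cfsg.Agent.H29.K0R0
import Cfsg.Agent.H47.K0R
import Cfsg.Agent.H26.K0Ineq
import Cfsg.Agent.H49.K0Gal

set_option autoImplicit false

namespace Cfsg.Agent.H49.K5Ch

open Cfsg Cfsg.Agent.H76.K0

universe u

theorem gen (ineq : IneqStmt.{u}) {G : Type u} [Group G] [Fintype G] {ι : Type} [Fintype ι]
    (c : ι → IrrCharacter G) (hc : Function.Injective c) (i0 : ι) (h0 : c i0 = H21.triv G)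
    (n : ι → ℤ) (q : ℕ) (hq : 0 < q)
    (hint : ∀ g, IsIntegral ℤ ((∑ i, (n i : ℂ) * (c i).1 g) / q))
    (heq : (q : ℤ) * n i0 = ∑ i, n i ^ 2) :
    ∑ i, n i * (charDegree ((c i).1 : G → ℂ) : ℤ) = 0 ∨
      ∑ i, n i * (charDegree ((c i).1 : G → ℂ) : ℤ) = q := by
  classical
  set θ : G → ℂ := ∑ i, n i • ((c i).1 : G → ℂ) with hθ
  have gen : IsGeneralizedCharacter G θ := by
    refine ⟨∑ i, ((n i).toNat : ℂ) • ((c i).1 : G → ℂ),
      ∑ i, ((-n i).toNat : ℂ) • ((c i).1 : G → ℂ),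
      H11.isCharacter_sum _ _ (fun χ _ =>
        H11.isCharacter_natCast_smul (H11.isCharacter_of_irr (c χ).2) _),
      H11.isCharacter_sum _ _ (fun χ _ =>
        H11.isCharacter_natCast_smul (H11.isCharacter_of_irr (c χ).2) _), ?_⟩
    rw [← Finset.sum_sub_distrib, hθ]
    refine Finset.sum_congr rfl fun χ _ => ?_
    rw [← sub_smul, ← Int.cast_smul_eq_zsmul ℂ]
    congr 1
    exact_mod_cast (Int.toNat_sub_toNat_neg (n χ)).symm
  have e : ∀ g, θ g = ∑ i, (n i : ℂ) * (c i).1 g := fun g => by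
    rw [hθ, Finset.sum_apply]
    exact Finset.sum_congr rfl fun i _ => by rw [Pi.smul_apply, zsmul_eq_mul]
  have i1 : ∀ j, classInner θ ((c j).1 : G → ℂ) = n j := fun j => by
    rw [hθ, H11.classInner_sum_left, Finset.sum_eq_single j]
    · rw [H11.classInner_zsmul_left, H11.classInner_irr_self (c j).2, mul_one]
    · intro i _ hi
      rw [H11.classInner_zsmul_left, H11.classInner_irr_of_ne (c i).2 (c j).2
        (fun e => hi (hc (Subtype.ext e))), mul_zero]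
    · simp
  have i2 : classInner θ θ = ((∑ i, n i ^ 2 : ℤ) : ℂ) := by
    conv_lhs => arg 2; rw [hθ]
    rw [H11.classInner_sum_right]
    push_cast
    exact Finset.sum_congr rfl fun i _ => by rw [H11.classInner_zsmul_right, i1 i, sq]
  refine (H54.K0Tri.core ineq G θ gen q hq (fun g => by rw [e]; exact hint g) (n i0) _ _ ?_ i2 ?_).2 heq
  · have := i1 i0
    rw [h0] at this
    exact this
  · rw [e]
    push_cast
    exact Finset.sum_congr rfl fun i _ => by rw [H21.cast_deg (c i)]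

theorem ch (nei : H44.K5.NeiStmt) : H44.K5.ChStmt.{u} := by
  intro G _ _ p hp M hM P h5c
  classical
  haveI := Fintype.ofFinite G
  obtain ⟨h1, h2, h4, h5⟩ := H29.K0R0.r0 H47.K0R.r G p M hM P
  have hP : p ∣ Nat.card P := by
    by_contra h
    have := h5 h
    omega
  let t : Ht0 p M G := ⟨H21.triv G, H21.triv_mem_principal hM.2.1, by
    change ¬ p ∣ charDegree (fun _ : G => (1 : ℂ))
    rw [H21.charDegree_one]; exact hp.out.not_dvd_one⟩
  have ht : charDegree (t.1 : G → ℂ) = 1 := H21.charDegree_one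
  haveI : Finite (Ht0 p M G) := Nat.finite_of_card_ne_zero (by omega)
  haveI := Fintype.ofFinite (Ht0 p M G)
  let f : Ht0 p M G ≃ Fin 5 := Fintype.equivFinOfCardEq (by rw [← Nat.card_eq_fintype_card, h5c])
  let σ : Fin 5 ≃ Ht0 p M G := (Equiv.swap 0 (f t)).trans f.symm
  have s0 : σ 0 = t := by simp [σ]
  have hs : ∀ {A : Type} [AddCommMonoid A] (F : Ht0 p M G → A),
      ∑ᶠ z, F z = F t + F (σ 1) + F (σ 2) + F (σ 3) + F (σ 4) := by
    intro A _ F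
    rw [finsum_eq_sum_of_fintype, ← Equiv.sum_comp σ, Fin.sum_univ_five, s0]
  have h2' := h2 hP
  rw [hs, ht, one_pow] at h2' h4
  obtain ⟨x, hx⟩ : ∃ x, x = charDegree ((σ 1).1 : G → ℂ) := ⟨_, rfl⟩
  obtain ⟨y, hy⟩ : ∃ x, x = charDegree ((σ 2).1 : G → ℂ) := ⟨_, rfl⟩
  obtain ⟨z, hz⟩ : ∃ x, x = charDegree ((σ 3).1 : G → ℂ) := ⟨_, rfl⟩
  obtain ⟨w, hw⟩ : ∃ x, x = charDegree ((σ 4).1 : G → ℂ) := ⟨_, rfl⟩
  have px : ¬ p ∣ x := hx ▸ (σ 1).2.2
  have py : ¬ p ∣ y := hy ▸ (σ 2).2.2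
  have pz : ¬ p ∣ z := hz ▸ (σ 3).2.2
  have pw : ¬ p ∣ w := hw ▸ (σ 4).2.2
  rw [← hx, ← hy, ← hz, ← hw] at h2' h4
  have hp2 : p ≠ 2 := by
    rintro rfl
    have a1 := Nat.odd_iff.mp ((Nat.not_even_iff_odd.mp (fun h => px h.two_dvd)).pow (n := 2))
    have a2 := Nat.odd_iff.mp ((Nat.not_even_iff_odd.mp (fun h => py h.two_dvd)).pow (n := 2))
    have a3 := Nat.odd_iff.mp ((Nat.not_even_iff_odd.mp (fun h => pz h.two_dvd)).pow (n := 2))
    have a4 := Nat.odd_iff.mp ((Nat.not_even_iff_odd.mp (fun h => pw h.two_dvd)).pow (n := 2))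
    omega
  obtain ⟨a, b, c, d, e, ha, ⟨m1, hb⟩, ⟨m2, hc⟩, ⟨m3, hd⟩, ⟨m4, he⟩, hN⟩ := nei p hp.out hp2 x y z w
    (fun h => px (Int.natCast_dvd_natCast.mp h)) (by exact_mod_cast h2')
  have hp0 : (p : ℂ) ≠ 0 := Nat.cast_ne_zero.mpr hp.out.ne_zero
  have key := gen (H26.K0Ineq.ineq H49.K0Gal.gal) (fun i => (σ i).1)
    (fun i j h => σ.injective (Subtype.ext h)) 0 (by rw [s0]) ![a, b, c, d, e] p hp.out.pos
    (fun g => by
      obtain ⟨α, hα, h⟩ := h1 hP g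
      rw [hs, ht, ← hx, ← hy, ← hz, ← hw] at h
      have b1 : (b : ℂ) = a * x + p * m1 := by exact_mod_cast sub_eq_iff_eq_add'.1 hb
      have b2 : (c : ℂ) = a * y + p * m2 := by exact_mod_cast sub_eq_iff_eq_add'.1 hc
      have b3 : (d : ℂ) = a * z + p * m3 := by exact_mod_cast sub_eq_iff_eq_add'.1 hd
      have b4 : (e : ℂ) = a * w + p * m4 := by exact_mod_cast sub_eq_iff_eq_add'.1 he
      have e1 : (∑ i : Fin 5, ((![a, b, c, d, e] i : ℤ) : ℂ) * ((σ i).1 : G → ℂ) g) / p =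
          a * α + m1 * ((σ 1).1 : G → ℂ) g + m2 * ((σ 2).1 : G → ℂ) g +
            m3 * ((σ 3).1 : G → ℂ) g + m4 * ((σ 4).1 : G → ℂ) g := by
        rw [div_eq_iff hp0, Fin.sum_univ_five, s0]
        change (a : ℂ) * _ + (b : ℂ) * _ + (c : ℂ) * _ + (d : ℂ) * _ + (e : ℂ) * _ = _
        rw [b1, b2, b3, b4]
        push_cast at h
        linear_combination (a : ℂ) * h
      rw [e1]
      have hz : ∀ k : ℤ, IsIntegral ℤ (k : ℂ) := fun k => isIntegral_algebraMap (x := k)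
      exact (((((hz a).mul hα).add ((hz m1).mul (H19.irr_isIntegral _ g))).add
        ((hz m2).mul (H19.irr_isIntegral _ g))).add ((hz m3).mul (H19.irr_isIntegral _ g))).add
        ((hz m4).mul (H19.irr_isIntegral _ g)))
    (by rw [Fin.sum_univ_five]; exact hN)
  rw [Fin.sum_univ_five, s0, ht, ← hx, ← hy, ← hz, ← hw] at key
  change a * ((1 : ℕ) : ℤ) + b * x + c * y + d * z + e * w = 0 ∨
    a * ((1 : ℕ) : ℤ) + b * x + c * y + d * z + e * w = p at key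
  have h9 : ¬ p ^ 2 ∣ 1 + x ^ 2 + y ^ 2 + z ^ 2 + w ^ 2 := by
    rintro ⟨k, hk⟩
    have hk' : (1 : ℤ) + x ^ 2 + y ^ 2 + z ^ 2 + w ^ 2 = p ^ 2 * k := by exact_mod_cast hk
    have hpz : (p : ℤ) ≠ 0 := by exact_mod_cast hp.out.ne_zero
    have b1 : b = a * x + p * m1 := sub_eq_iff_eq_add'.1 hb
    have b2 : c = a * y + p * m2 := sub_eq_iff_eq_add'.1 hc
    have b3 : d = a * z + p * m3 := sub_eq_iff_eq_add'.1 hd
    have b4 : e = a * w + p * m4 := sub_eq_iff_eq_add'.1 he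
    subst b1 b2 b3 b4
    push_cast at key
    apply ha
    rcases key with key | key
    · refine ⟨m1 ^ 2 + m2 ^ 2 + m3 ^ 2 + m4 ^ 2 - a ^ 2 * k, mul_left_cancel₀ hpz ?_⟩
      linear_combination hN + 2 * a * key - a ^ 2 * hk'
    · refine ⟨a ^ 2 * k - (m1 ^ 2 + m2 ^ 2 + m3 ^ 2 + m4 ^ 2), mul_left_cancel₀ hpz ?_⟩
      linear_combination -hN - 2 * a * key + a ^ 2 * hk'
  obtain ⟨k, hk⟩ := P.isPGroup'.exists_card_eq
  rw [hk] at hP h4 ⊢
  rcases k with _ | _ | k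
  · exact absurd (by simpa using hP) hp.out.one_lt.ne'
  · simp
  · exact absurd (h4 (pow_dvd_pow p (by omega))) h9

end Cfsg.Agent.H49.K5Ch
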