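import Cfsg.Agent.H50.L81Defs

/-! The Weyl group elements and sign characters for three classes of elements of order `40`. -/

set_option autoImplicit false
set_option maxRecDepth 100000

namespace Cfsg.Agent.H49.L81Datz

open Equiv Cfsg.Lie H37 H40 H34 H29 H50.E83 H50.L81 Finset

section
variable {D : ChevalleyDatum} {C : Cert D} {f : Fin D.nroots → ℤ} {s : ℕ} {a : List ℕ}

theorem rp_word (hs : 0 < s) {A : List (List ℤ)} (hA : A.length = D.rank ∧ ∀ i < D.rank,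
    ∀ j < D.rank, gt A i j = D.cartan i (D.simple j)) (l : List (Fin D.rank)) (h : Rp C s a f)
    (hf : IsAdd C.R f) :
    Rp C s ((l.map Fin.val).foldl (svN s A) a) fun r => f (C.S.word l r) := by
  induction l generalizing a f with
  | nil => exact h
  | cons i l ih =>
    have h1 := ih (a := svN s A a i) (f := fun r => f (C.R.τ (C.R.simple i) r)) (fun j => by
      simp [svN, hA.1, cast_res hs dvd_rfl, hf.τ, ← h _, hA.2, RS.pair_simple_simple, C.A_eq])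
      (hf.comp (C.R.τ_mem_W (C.R.simple i)))
    rw [RS.τ_simple] at h1
    rw [SignedSys.word_cons]
    exact h1

theorem mulk (hs : 0 < s) {A : List (List ℤ)} (hA : A.length = D.rank ∧ ∀ i < D.rank,
    ∀ j < D.rank, gt A i j = D.cartan i (D.simple j)) (l : List (Fin D.rank)) (a : List ℕ) (k : ℕ)
    (h : ∀ j < D.rank, ((l.map Fin.val).foldl (svN s A) a).getD j 0 % s = k * a.getD j 0 % s)
    (r : Fin D.nroots) : (vN C a (C.S.word l r) : ZMod s) = k * vN C a r := by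
  have h1 := (rp_word hs hA l (rp_vN C s a) (isAdd_vN C a)).vN_eq
    ((isAdd_vN C a).comp (C.S.word_mem_W l)) r
  rw [← h1]
  simp only [vN, Int.cast_sum, Int.cast_mul, Int.cast_natCast, Finset.mul_sum]
  refine Finset.sum_congr rfl fun j _ => ?_
  rw [(ZMod.natCast_eq_natCast_iff' _ _ _).2 (h j j.2)]
  push_cast
  ring

end

theorem hA : H34.cartE8.length = chevE8.rank ∧ ∀ i < chevE8.rank,
    ∀ j < chevE8.rank, gt H34.cartE8 i j = chevE8.cartan i (chevE8.simple j) := by decide +kernel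

def wl (i : ℕ) : List (Fin 8) :=
  if i = 3 then [4, 3, 1, 2, 0, 3, 2, 4, 3, 1, 5, 4, 3, 1, 2, 0, 3, 2, 4, 3, 1, 5, 4, 3, 2, 6, 5, 4,
    3, 1, 7, 6, 5, 4, 3, 2, 0]
  else if i = 5 then [0, 2, 3, 1, 4, 3, 2, 0, 6, 5, 4, 3, 1, 2, 3, 4, 5, 7, 6, 5, 4, 3, 1, 2, 0, 3,
    2, 4, 3, 1, 5, 4, 3, 2, 0]
  else [5, 4, 3, 1, 2, 0, 3, 2, 4, 3, 1, 5, 4, 3, 2, 0, 7, 6, 5, 4, 3, 1, 2, 3, 4, 5, 6, 7]

def ch (i : ℕ) : List ℕ :=
  if i = 3 then [0, 0, 0, 1, 0, 0, 1, 0] else if i = 5 then [0, 0, 0, 0, 0, 1, 0, 0]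
  else [0, 0, 0, 0, 0, 0, 1, 1]

theorem t1 : ∀ i ∈ [3, 5, 6], ∀ j < chevE8.rank,
    (((wl i).map Fin.val).foldl (svN 40 H34.cartE8) (rep i)).getD j 0 % 40 =
      3 * (rep i).getD j 0 % 40 := by decide +kernel

theorem t2 : ∀ i ∈ [3, 5, 6], ∀ j < chevE8.rank,
    (((wl i).map Fin.val).foldl (svN 2 H34.cartE8) (ch i)).getD j 0 % 2 =
      1 * (ch i).getD j 0 % 2 := by decide +kernel

theorem t3 : ∀ i ∈ [3, 5, 6], ∀ r < chevE8.nroots,
    (∑ j : Fin chevE8.rank, gt rcE8 r j * ((rep i).getD j 0 : ℕ)) % 40 = 0 →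
      (∑ j : Fin chevE8.rank, gt rcE8 r j * ((ch i).getD j 0 : ℕ)) % 2 = 0 := by decide +kernel

theorem t4 : ∀ i ∈ [3, 5, 6], (∃ j : Fin chevE8.rank, (ch i).getD j 0 % 2 = 1) ∧
    ∃ j : Fin chevE8.rank, ((ch i).getD j 0 + (rep i).getD j 0) % 2 = 1 := by decide +kernel

theorem datz : DatzStmt := fun i hi => by
  refine ⟨C8.S.word (wl i), C8.S.word_mem_W _, fun r => ?_, vN C8 (ch i), isAdd_vN _ _,
    fun r => ?_, fun r hr => ?_, ?_, ?_⟩
  · exact_mod_cast mulk (C := C8) (by decide) hA (wl i) (rep i) 3 (t1 i hi) r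
  · simpa using mulk (C := C8) (by decide) hA (wl i) (ch i) 1 (t2 i hi) r
  · rw [ZMod.intCast_zmod_eq_zero_iff_dvd] at hr
    have h := t3 i hi r r.2
    simp only [ff, vN, rc_eq C8 tabOKE8] at hr ⊢
    rw [Int.even_iff]
    exact h (Int.emod_eq_zero_of_dvd hr)
  · obtain ⟨j, hj⟩ := (t4 i hi).1
    refine ⟨C8.R.simple j, ?_⟩
    rw [vN_simple, Int.odd_iff]
    omega
  · obtain ⟨j, hj⟩ := (t4 i hi).2
    refine ⟨C8.R.simple j, ?_⟩
    rw [ff, vN_simple, vN_simple, Int.odd_iff]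
    omega

end Cfsg.Agent.H49.L81Datz
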