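import Cfsg.Agent.H1.O8P0

/-!
# The Sylow subgroup of the symmetric group on eight letters, enumerated (project O8P)
-/

set_option autoImplicit false

namespace Cfsg.Agent.H49.O8PKb

open Equiv Subgroup Cfsg.Agent.H1.O8P

/-- A binary digit. -/
def bt (t k : ℕ) : ℕ := (t >>> k) % 2

/-- The permutation with code `t`. -/
def pf (t : Fin 128) (i : Fin 8) : Fin 8 :=
  Fin.ofNat 8 (i.val ^^^ (4 * bt t.val 0) ^^^ (2 * bt t.val (1 + i.val / 4)) ^^^
    bt t.val (3 + i.val / 2))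

/-- First step of the inverse. -/
def pg1 (t j : ℕ) : ℕ := j ^^^ (2 * bt t (1 + j / 4))
/-- Second step of the inverse. -/
def pg2 (t j : ℕ) : ℕ := j ^^^ bt t (3 + j / 2)

/-- Its inverse. -/
def pg (t : Fin 128) (j : Fin 8) : Fin 8 :=
  Fin.ofNat 8 (pg2 t.val (pg1 t.val (j.val ^^^ (4 * bt t.val 0))))

theorem pf_pg : ∀ t i, pg t (pf t i) = i ∧ pf t (pg t i) = i := by decide +kernel

/-- The permutation with code `t`. -/
def pe (t : Fin 128) : Perm (Fin 8) :=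
  ⟨pf t, pg t, fun i => (pf_pg t i).1, fun i => (pf_pg t i).2⟩

theorem pe_app (t : Fin 128) (i : Fin 8) : pe t i = pf t i := rfl
theorem pe_inv (t : Fin 128) (i : Fin 8) : (pe t)⁻¹ i = pg t i := rfl

/-- The partner. -/
def xo (i : Fin 8) : Fin 8 := Fin.ofNat 8 (i.val ^^^ 1)

/-- The code from four values. -/
def cd (a b c d : Fin 8) : Fin 128 :=
  Fin.ofNat 128 (a.val / 4 + 2 * (a.val / 2 % 2) + 4 * (c.val / 2 % 2) + 8 * (a.val % 2) +
    16 * (b.val % 2) + 32 * (c.val % 2) + 64 * (d.val % 2))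

theorem xo_of : ∀ x y : Fin 8, x.val / 2 = y.val / 2 → x ≠ y → y = xo x := by decide +kernel

theorem pf_xo : ∀ t, pf t 1 = xo (pf t 0) ∧ pf t 3 = xo (pf t 2) ∧ pf t 5 = xo (pf t 4) ∧
    pf t 7 = xo (pf t 6) := by decide +kernel

theorem cd_ok : ∀ a b : Fin 8, a.val / 4 = b.val / 4 → a.val / 2 ≠ b.val / 2 → ∀ c : Fin 8,
    a.val / 4 ≠ c.val / 4 → ∀ d : Fin 8, c.val / 4 = d.val / 4 → c.val / 2 ≠ d.val / 2 →
    pf (cd a b c d) 0 = a ∧ pf (cd a b c d) 2 = b ∧ pf (cd a b c d) 4 = c ∧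
      pf (cd a b c d) 6 = d := by decide +kernel

theorem cd_pf : ∀ t, cd (pf t 0) (pf t 2) (pf t 4) (pf t 6) = t := by decide +kernel

theorem pe_inj : Function.Injective pe := fun t u h => by
  rw [← cd_pf t, ← cd_pf u]
  simp only [← pe_app, h]

theorem pe_P8 : ∀ t, P8 (pe t) := by decide +kernel

theorem exists_pe {p : Perm (Fin 8)} (h : P8 p) : ∃ t, p = pe t := by
  obtain ⟨h0, h2, h4, h6⟩ := cd_ok (p 0) (p 2) ((h 0 2).2.1 (by decide))
    (fun e => absurd ((h 0 2).1.2 e) (by decide)) (p 4)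
    (fun e => absurd ((h 0 4).2.2 e) (by decide)) (p 6) ((h 4 6).2.1 (by decide))
    (fun e => absurd ((h 4 6).1.2 e) (by decide))
  obtain ⟨g1, g3, g5, g7⟩ := pf_xo (cd (p 0) (p 2) (p 4) (p 6))
  have e1 := xo_of (p 0) (p 1) ((h 0 1).1.1 (by decide)) (p.injective.ne (by decide))
  have e3 := xo_of (p 2) (p 3) ((h 2 3).1.1 (by decide)) (p.injective.ne (by decide))
  have e5 := xo_of (p 4) (p 5) ((h 4 5).1.1 (by decide)) (p.injective.ne (by decide))
  have e7 := xo_of (p 6) (p 7) ((h 6 7).1.1 (by decide)) (p.injective.ne (by decide))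
  refine ⟨cd (p 0) (p 2) (p 4) (p 6), Equiv.ext fun i => ?_⟩
  rw [pe_app]
  rw [h0] at g1; rw [h2] at g3; rw [h4] at g5; rw [h6] at g7
  fin_cases i
  exacts [h0.symm, e1.trans g1.symm, h2.symm, e3.trans g3.symm, h4.symm, e5.trans g5.symm,
    h6.symm, e7.trans g7.symm]

/-- The parity of the code. -/
def ev (t : Fin 128) : Prop := (bt t.val 3 + bt t.val 4 + bt t.val 5 + bt t.val 6) % 2 = 0

instance (t : Fin 128) : Decidable (ev t) := by unfold ev; infer_instance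

/-- An optional factor. -/
def op (b : ℕ) (σ : Perm (Fin 8)) : Perm (Fin 8) := if b = 0 then 1 else σ

theorem pe_eq : ∀ t i, pe t i = (op (bt t.val 0) ww.p * (op (bt t.val 1) (swap 0 2 * swap 1 3) *
    op (bt t.val 2) (swap 4 6 * swap 5 7)) * (op (bt t.val 3) (swap 0 1) * op (bt t.val 4) (swap 2 3) *
    op (bt t.val 5) (swap 4 5) * op (bt t.val 6) (swap 6 7))) i := by decide +kernel

theorem sign_op (b : ℕ) (σ : Perm (Fin 8)) :
    Perm.sign (op b σ) = if b = 0 then 1 else Perm.sign σ := by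
  unfold op; split_ifs <;> simp

theorem sign_pe (t : Fin 128) : Perm.sign (pe t) = 1 ↔ ev t := by
  rw [Equiv.ext (pe_eq t)]
  have hw : Perm.sign ww.p = 1 := by decide +kernel
  have h1 : Perm.sign (swap (0 : Fin 8) 2 * swap 1 3) = 1 := by decide +kernel
  have h2 : Perm.sign (swap (4 : Fin 8) 6 * swap 5 7) = 1 := by decide +kernel
  have h3 : Perm.sign (swap (0 : Fin 8) 1) = -1 := Perm.sign_swap (by decide)
  have h4 : Perm.sign (swap (2 : Fin 8) 3) = -1 := Perm.sign_swap (by decide)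
  have h5 : Perm.sign (swap (4 : Fin 8) 5) = -1 := Perm.sign_swap (by decide)
  have h6 : Perm.sign (swap (6 : Fin 8) 7) = -1 := Perm.sign_swap (by decide)
  simp only [map_mul (Perm.sign) (op _ _), map_mul (Perm.sign) (_ * _), sign_op, hw, h1, h2, h3, h4,
    h5, h6, ite_self]
  revert t
  decide +kernel

theorem card_prod (H : Subgroup SP) (A : (Fin 8 → ZMod 2) → Prop) (B : Fin 128 → Prop)
    (hP : H ≤ PP) (h : ∀ s t, (⟨s, pe t⟩ : SP) ∈ H ↔ A s ∧ B t) :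
    Nat.card H = Nat.card {s // A s} * Nat.card {t // B t} := by
  rw [← Nat.card_prod]
  refine (Nat.card_congr (Equiv.ofBijective
    (fun x : {s // A s} × {t // B t} => (⟨⟨x.1.1, pe x.2.1⟩, (h _ _).2 ⟨x.1.2, x.2.2⟩⟩ : H))
    ⟨?_, ?_⟩)).symm
  · rintro ⟨⟨s, hs⟩, ⟨t, ht⟩⟩ ⟨⟨s', hs'⟩, ⟨t', ht'⟩⟩ e
    have e1 : s = s' := congrArg (fun x : H => x.1.s) e
    have e2 : t = t' := pe_inj (congrArg (fun x : H => x.1.p) e)
    subst e1 e2; rfl
  · rintro ⟨⟨s, p⟩, hn⟩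
    obtain ⟨t, rfl⟩ := exists_pe (p := p) (hP hn)
    exact ⟨⟨⟨s, ((h _ _).1 hn).1⟩, ⟨t, ((h _ _).1 hn).2⟩⟩, rfl⟩

theorem cA1 : Nat.card {s : Fin 8 → ZMod 2 // ∑ i, s i = 0} = 128 := by
  rw [Nat.card_eq_fintype_card, Fintype.card_subtype]; decide +kernel

theorem cA2 : Nat.card {s : Fin 8 → ZMod 2 // ∑ i, s i = 0 ∧ s 6 = 0 ∧ s 7 = 0} = 32 := by
  rw [Nat.card_eq_fintype_card, Fintype.card_subtype]; decide +kernel

theorem cA3 : Nat.card {s : Fin 8 → ZMod 2 // ∑ i, s i = 0 ∧ s 6 = s 7} = 64 := by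
  rw [Nat.card_eq_fintype_card, Fintype.card_subtype]; decide +kernel

end Cfsg.Agent.H49.O8PKb
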