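import Cfsg.Agent.H71.P3Defs

/-! Project P3, piece OE: orbits on pairs of flags whose second point is not perpendicular to the
first line. -/

set_option autoImplicit false

namespace Cfsg.Agent.H49.P3Oe

open Cfsg Module Cfsg.Agent.H27 Cfsg.Agent.H71.P3 Submodule
open scoped Pointwise

variable {F V : Type} [Field F] [AddCommGroup V] [Module F V] [Finite V]

theorem eq_pt {x : Submodule F V} (h : dm x = 1) {e : V} (he : e ∈ x) (h0 : e ≠ 0) : x = F ∙ e :=
  (eq_of_le_of_finrank_eq ((span_singleton_le_iff_mem _ _).2 he)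
    ((finrank_span_singleton h0).trans h.symm)).symm

theorem eq_ln {L : Submodule F V} (h : dm L = 2) (φ : V →ₗ[F] F) {p q : V} (hp : p ∈ L) (hq : q ∈ L)
    (h0 : p ≠ 0) (h1 : φ p = 0) (h2 : φ q = 1) : L = span F {p, q} := by
  have li : LinearIndependent F ![p, q] := LinearIndependent.pair_iff.2 fun s t e => by
    have := congrArg φ e
    simp only [map_add, map_smul, h1, h2, smul_eq_mul, mul_zero, mul_one, zero_add, map_zero] at this
    rw [this, zero_smul, add_zero] at e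
    exact ⟨(smul_eq_zero.1 e).resolve_right h0, this⟩
  have h3 := finrank_span_eq_card li
  rw [Matrix.range_cons_cons_empty] at h3
  refine (eq_of_le_of_finrank_eq (span_le.2 ?_) (h3.trans h.symm)).symm
  rintro _ (rfl | rfl) <;> assumption

theorem exists_ker {L : Submodule F V} (h : dm L = 2) (φ : V →ₗ[F] F) :
    ∃ p ∈ L, p ≠ 0 ∧ φ p = 0 := by
  obtain ⟨p, hp, h0⟩ := exists_mem_ne_zero_of_ne_bot (LinearMap.ker_ne_bot_of_finrank_lt
    (f := φ.domRestrict L) (by rw [finrank_self, show finrank F L = 2 from h]; norm_num))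
  exact ⟨p, p.2, fun e => h0 (Subtype.ext e), hp⟩

variable (S : Sp F V)

/-- adapted vectors -/
structure Ad (t : Fin 3) (p q y m : V) : Prop where
  p0 : p ≠ 0
  pq : S.B p q = 0
  py : S.B p y = 0
  qy : S.B q y = 1
  ym : S.B y m = 0
  qm : S.B q m = 0
  t0 : t = 0 → m = p
  t1 : t = 1 → S.B p m = 0 ∧ ∀ a d : F, a • p + d • m = 0 → d = 0
  t2 : t = 2 → S.B p m = 1

variable {S}

omit [Finite V] in
theorem Ad.neg (u v : V) : S.B v u = -S.B u v := (S.alt.neg_eq u v).symm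

omit [Finite V] in
theorem Ad.li {t : Fin 3} {p q y m : V} (h : Ad S t p q y m) {a b c d : F}
    (e : a • p + (b • q + (c • y + d • m)) = 0) : b = 0 ∧ c = 0 ∧ a • p + d • m = 0 := by
  have h1 := congrArg (S.B q) e
  have h2 := congrArg (S.B y) e
  simp only [map_add, map_smul, smul_eq_mul, map_zero, Ad.neg p q, Ad.neg p y, Ad.neg q y, h.pq,
    h.py, h.qy, h.ym, h.qm, S.alt.self_eq_zero, neg_zero, mul_zero, zero_add, add_zero, mul_one,
    mul_neg, neg_eq_zero] at h1 h2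
  exact ⟨h2, h1, by simpa [h1, h2] using e⟩

omit [Finite V] in
theorem Ad.li3 {t : Fin 3} {p q y m : V} (h : Ad S t p q y m) : LinearIndependent F ![p, q, y] := by
  rw [Fintype.linearIndependent_iff]
  intro g e
  obtain ⟨h1, h2, h3⟩ := h.li (a := g 0) (b := g 1) (c := g 2) (d := 0)
    (by simpa [Fin.sum_univ_succ] using e)
  rw [zero_smul, add_zero] at h3
  have h4 := (smul_eq_zero.1 h3).resolve_right h.p0
  intro i
  fin_cases i <;> assumption

omit [Finite V] in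
theorem Ad.li4 {t : Fin 3} {p q y m : V} (h : Ad S t p q y m) (ht : t ≠ 0) :
    LinearIndependent F ![p, q, y, m] := by
  rw [Fintype.linearIndependent_iff]
  intro g e
  obtain ⟨h1, h2, h3⟩ := h.li (a := g 0) (b := g 1) (c := g 2) (d := g 3)
    (by simpa [Fin.sum_univ_succ] using e)
  have h5 : g 3 = 0 := by
    by_cases t1 : t = 1
    · exact (h.t1 t1).2 _ _ h3
    · have := congrArg (S.B p) h3
      simpa [S.alt.self_eq_zero, h.t2 (by omega)] using this
  rw [h5, zero_smul, add_zero] at h3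
  have h4 := (smul_eq_zero.1 h3).resolve_right h.p0
  intro i
  fin_cases i <;> assumption

theorem Ad.witt {t : Fin 3} {p q y m p' q' y' m' : V} (h : Ad S t p q y m)
    (k : Ad S t p' q' y' m') : ∃ g ∈ S.G, g p = p' ∧ g q = q' ∧ g y = y' ∧ g m = m' := by
  by_cases ht : t = 0
  · obtain ⟨g, -, hg, e⟩ := witt_family S.nd S.alt ⊤ (fun _ _ => trivial) h.li3 k.li3 (fun i j => by
      fin_cases i <;> fin_cases j <;>
        simp [S.alt.self_eq_zero, Ad.neg p q, Ad.neg p y, Ad.neg q y, Ad.neg p' q', Ad.neg p' y',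
          Ad.neg q' y', h.pq, h.py, h.qy, k.pq, k.py, k.qy])
    exact ⟨g, hg, e 0, e 1, e 2, by rw [h.t0 ht, k.t0 ht]; exact e 0⟩
  · have e1 : S.B p' m' = S.B p m := by
      by_cases t1 : t = 1
      · rw [(h.t1 t1).1, (k.t1 t1).1]
      · rw [h.t2 (by omega), k.t2 (by omega)]
    obtain ⟨g, -, hg, e⟩ := witt_family S.nd S.alt ⊤ (fun _ _ => trivial) (h.li4 ht) (k.li4 ht)
      (fun i j => by
        fin_cases i <;> fin_cases j <;>
          simp [S.alt.self_eq_zero, Ad.neg p q, Ad.neg p y, Ad.neg q y, Ad.neg p' q', Ad.neg p' y',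
            Ad.neg q' y', Ad.neg p m, Ad.neg q m, Ad.neg y m, Ad.neg p' m', Ad.neg q' m',
            Ad.neg y' m', h.pq, h.py, h.qy, k.pq, k.py, k.qy, h.ym, h.qm, k.ym, k.qm, e1])
    exact ⟨g, hg, e 0, e 1, e 2, e 3⟩

theorem exists_ad {M : Submodule F V} (hM : S.IsLn M) {p q y : V} (hy : y ∈ M) (p0 : p ≠ 0)
    (pq : S.B p q = 0) (py : S.B p y = 0) (qy : S.B q y = 1) :
    ∃ t m, Ad S t p q y m ∧ M = span F {m, y} := by
  obtain ⟨m, hm, m0, qm⟩ := exists_ker hM.1 (S.B q)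
  by_cases h1 : S.B p m = 0
  · by_cases h2 : ∀ a d : F, a • p + d • m = 0 → d = 0
    · exact ⟨1, m, ⟨p0, pq, py, qy, hM.2 _ hy _ hm, qm, fun h => absurd h (by decide), fun _ => ⟨h1, h2⟩,
        fun h => absurd h (by decide)⟩, eq_ln hM.1 _ hm hy m0 qm qy⟩
    · push Not at h2
      obtain ⟨a, d, e, hd⟩ := h2
      have ha : a ≠ 0 := fun ha => by
        rw [ha, zero_smul, zero_add] at e
        exact m0 ((smul_eq_zero.1 e).resolve_left hd)
      have hp : p ∈ M := by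
        rw [← smul_mem_iff M ha, eq_neg_of_add_eq_zero_left e]
        exact neg_mem (M.smul_mem _ hm)
      have qp : S.B q p = 0 := by rw [Ad.neg, pq, neg_zero]
      exact ⟨0, p, ⟨p0, pq, py, qy, hM.2 _ hy _ hp, qp, fun _ => rfl, fun h => absurd h (by decide),
        fun h => absurd h (by decide)⟩, eq_ln hM.1 _ hp hy p0 qp qy⟩
  · have hm' := M.smul_mem (S.B p m)⁻¹ hm
    have qm' : S.B q ((S.B p m)⁻¹ • m) = 0 := by rw [map_smul, qm, smul_zero]
    exact ⟨2, _, ⟨p0, pq, py, qy, hM.2 _ hy _ hm', qm', fun h => absurd h (by decide),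
      fun h => absurd h (by decide), fun _ => by rw [map_smul, smul_eq_mul, inv_mul_cancel₀ h1]⟩,
      eq_ln hM.1 _ hm' hy (smul_ne_zero (inv_ne_zero h1) m0) qm' qy⟩

/-- normal forms -/
def NF (c : Fin 2 × Fin 3) (a b : S.Fl) : Prop := ∃ p q y m, Ad S c.2 p q y m ∧
  a.1.1 = (F ∙ if c.1 = 0 then p else q) ∧ a.1.2 = span F {p, q} ∧ b.1.1 = (F ∙ y) ∧
    b.1.2 = span F {m, y}

theorem exists_nf (a b : S.Fl) (h : ¬ ∀ u ∈ a.1.2, ∀ v ∈ b.1.1, S.B u v = 0) : ∃ c, NF c a b := by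
  push Not at h
  obtain ⟨u, hu, y, hy, h⟩ := h
  have y0 : y ≠ 0 := fun e => h (by rw [e, map_zero])
  obtain ⟨e, he, e0⟩ := exists_mem_ne_zero_of_ne_bot (p := a.1.1) fun e => by
    have := a.2.1
    rw [e] at this
    simp [dm] at this
  have sc : ∀ w, S.B w y ≠ 0 → S.B ((S.B w y)⁻¹ • w) y = 1 := fun w hw => by
    rw [map_smul, LinearMap.smul_apply, smul_eq_mul, inv_mul_cancel₀ hw]
  by_cases h1 : S.B e y = 0
  · have hq := a.1.2.smul_mem (S.B u y)⁻¹ hu
    obtain ⟨t, m, h2, h3⟩ := exists_ad b.2.2.1 (b.2.2.2 hy) e0 (a.2.2.1.2 _ (a.2.2.2 he) _ hq) h1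
      (sc u h)
    exact ⟨(0, t), _, _, _, _, h2, eq_pt a.2.1 he e0,
      eq_ln a.2.2.1.1 (S.B.flip y) (a.2.2.2 he) hq e0 h1 (sc u h), eq_pt b.2.1 hy y0, h3⟩
  · have hq := a.1.1.smul_mem (S.B e y)⁻¹ he
    obtain ⟨p, hp, p0, py⟩ := exists_ker a.2.2.1.1 (S.B.flip y)
    obtain ⟨t, m, h2, h3⟩ := exists_ad b.2.2.1 (b.2.2.2 hy) p0 (a.2.2.1.2 _ hp _ (a.2.2.2 hq)) py
      (sc e h1)
    exact ⟨(1, t), _, _, _, _, h2, eq_pt a.2.1 hq (smul_ne_zero (inv_ne_zero h1) e0),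
      eq_ln a.2.2.1.1 (S.B.flip y) hp (a.2.2.2 hq) p0 py (sc e h1), eq_pt b.2.1 hy y0, h3⟩

theorem NF.conj {c : Fin 2 × Fin 3} {a b a' b' : S.Fl} (h : NF c a b) (k : NF c a' b') :
    ∃ g : S.G, g • a = a' ∧ g • b = b' := by
  obtain ⟨p, q, y, m, h, h1, h2, h3, h4⟩ := h
  obtain ⟨p', q', y', m', k, k1, k2, k3, k4⟩ := k
  obtain ⟨g, hg, e1, e2, e3, e4⟩ := h.witt k
  refine ⟨⟨g, hg⟩, Subtype.ext (Prod.ext ?_ ?_), Subtype.ext (Prod.ext ?_ ?_)⟩
  · rw [Sp.Fl_smul1, h1, k1, H71.P3.smul_span]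
    split_ifs <;> simp only [e1, e2]
  · rw [Sp.Fl_smul2, h2, k2, smul_span_pair, e1, e2]
  · rw [Sp.Fl_smul1, h3, k3, H71.P3.smul_span, e3]
  · rw [Sp.Fl_smul2, h4, k4, smul_span_pair, e3, e4]

theorem oe : OeStmt := by
  classical
  intro F V _ _ _ _ _ S
  refine ⟨fun a b => if h : ∃ c, NF c a b then finProdFinEquiv h.choose else 0,
    fun a b a' b' h h' e => ?_⟩
  simp only [dif_pos (exists_nf a b h), dif_pos (exists_nf a' b' h')] at e
  have e' := finProdFinEquiv.injective e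
  exact (exists_nf a b h).choose_spec.conj (e' ▸ (exists_nf a' b' h').choose_spec)

end Cfsg.Agent.H49.P3Oe
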