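import Cfsg.Agent.H56.SpDefs
import Cfsg.Agent.S0111

/-! All involutions are line involutions, and the `2`-rank is at most two. -/

set_option autoImplicit false

namespace Cfsg.Agent.H49.SpRk

open Subgroup MulAction Cfsg.Agent.H11.Cy Cfsg.Agent.H56.Sp
open scoped Pointwise

theorem conj_into {G : Type} [Group G] [Finite G] (P : Sylow 2 G) {t : G} (ht : t * t = 1) :
    ∃ g : G, g * t * g⁻¹ ∈ (P : Subgroup G) := by
  have : Fact (Nat.Prime 2) := ⟨Nat.prime_two⟩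
  have h : IsPGroup 2 (zpowers t) := by
    rintro ⟨_, k, rfl⟩
    refine ⟨1, Subtype.ext ?_⟩
    show (t ^ k) ^ 2 ^ 1 = 1
    rw [pow_one, ← zpow_natCast, ← zpow_mul, mul_comm, zpow_mul, zpow_natCast, pow_two, ht, one_zpow]
  obtain ⟨P', hP'⟩ := h.exists_le_sylow
  obtain ⟨g, rfl⟩ := exists_smul_eq G P' P
  exact ⟨g, Subgroup.smul_mem_pointwise_smul t (MulAut.conj g) _ (hP' (mem_zpowers t))⟩

theorem thompson {G : Type} [Group G] [Finite G] [IsSimpleGroup G] (nc : ¬ IsMulCommutative G)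
    (M : Subgroup G) (h : ∀ j, 2 ^ (j + 1) ∣ Nat.card G → 2 ^ j ∣ Nat.card M) {t : G}
    (ht : t * t = 1) : ∃ g : G, g * t * g⁻¹ ∈ M := by
  have : Fact (Nat.Prime 2) := ⟨Nat.prime_two⟩
  obtain ⟨S⟩ : Nonempty (Sylow 2 M) := inferInstance
  obtain ⟨P, hP⟩ := (S.isPGroup'.map M.subtype).exists_le_sylow
  set Q := (S : Subgroup M).map M.subtype with hQ
  have hQM : Q ≤ M := map_subtype_le _
  obtain ⟨g, hg⟩ := conj_into P ht
  by_cases hgQ : g * t * g⁻¹ ∈ Q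
  · exact ⟨g, hQM hgQ⟩
  have cQ : Nat.card Q = Nat.card S := card_map_of_injective M.subtype_injective
  have h1 : Nat.card Q * Q.relIndex P = Nat.card P := by
    rw [← Nat.card_congr (subgroupOfEquivOfLe hP).toEquiv]
    exact card_mul_index _
  obtain ⟨a, ha⟩ := IsPGroup.iff_card.1 P.isPGroup'
  obtain ⟨b, hb⟩ := IsPGroup.iff_card.1 S.isPGroup'
  have ha' : Nat.card P = 2 ^ a := ha
  have hb' : Nat.card S = 2 ^ b := hb
  obtain ⟨c, -, hc⟩ := (Nat.dvd_prime_pow Nat.prime_two).1 (ha' ▸ Dvd.intro_left _ h1)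
  rw [cQ, hb', hc, ha', ← pow_add] at h1
  have h2 : b + c = a := Nat.pow_right_injective le_rfl h1
  have c0 : c ≠ 0 := by
    rintro rfl
    exact hgQ (relIndex_eq_one.1 hc hg)
  have h3 : 2 ^ (a - 1) ∣ Nat.card S := S.pow_dvd_card_of_pow_dvd_card (h _ (by
    rw [show a - 1 + 1 = a by omega, ← ha']
    exact card_subgroup_dvd_card _))
  rw [hb', Nat.pow_dvd_pow_iff_le_right (by decide)] at h3
  have h4 : Q.relIndex P = 2 := by rw [hc, show c = 1 by omega, pow_one]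
  have h5 : orderOf (g * t * g⁻¹) = 2 := orderOf_eq_prime
    (by rw [conj_pow, pow_two, ht, mul_one, mul_inv_cancel]) fun e => hgQ (e ▸ one_mem _)
  rcases Cfsg.Agent.S0111.result P Q hP h4 _ h5 hg hgQ with ⟨N, hN, hi, -⟩ | ⟨k, hk⟩
  · rcases hN.eq_bot_or_eq_top with rfl | rfl
    · rw [index_bot] at hi
      have := isCyclic_of_prime_card (p := 2) hi
      exact (nc inferInstance).elim
    · rw [index_top] at hi
      omega
  · exact ⟨k * g, hQM (by rwa [show k * g * t * (k * g)⁻¹ = k * (g * t * g⁻¹) * k⁻¹ by group])⟩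

theorem rk : RkStmt := by
  intro G _ _ Ω _ _ p A h hy hs nc bb w1 n0 c3 od
  have := h.nt
  obtain ⟨x, y, hxy⟩ := exists_pair_ne Ω
  obtain ⟨z, hz⟩ := (hy.lf x y hxy).ex
  obtain ⟨b, hb⟩ := (Set.ne_univ_iff_exists_notMem _).1 (hy.ml x y hxy)
  have hzb : z • b ≠ b := fun e => hb (hy.fz x y hxy z hz ▸ e)
  obtain ⟨u, hu⟩ := (hy.lf b (z • b) hzb.symm).ex
  have sw := hy.cz.sw x y hxy z hz b hzb u hu
  have pr : Pr A x y b (z • b) z u := ⟨hxy, hzb.symm, hz, hu, sw.1, sw.2⟩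
  have all : ∀ t : G, t * t = 1 → t ≠ 1 → Iv A t := fun t ht t1 => by
    obtain ⟨g, hg⟩ := thompson nc (Fl A x y ⊔ Tl A b (z • b) z) (fun j hj => c3 _ _ _ _ _ _ pr j (by
      rw [← (Nl A x y).card_mul_index] at hj
      exact (Nat.Coprime.pow_left _ (Nat.coprime_two_left.2 (od x y hxy).1)).dvd_of_dvd_mul_right hj)) ht
    obtain ⟨v, w, hvw, hZ⟩ := n0 _ _ _ _ _ _ pr _ hg
      (by rw [← pow_two, conj_pow, pow_two, ht, mul_one, mul_inv_cancel])
      (fun e => t1 (by simpa using e))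
    have := hy.cz.cj g⁻¹ v w _ hZ
    rw [show g⁻¹ * (g * t * g⁻¹) * g⁻¹⁻¹ = t by group] at this
    exact ⟨_, _, fun e => hvw (smul_left_cancel _ e), this⟩
  intro E hc hE
  have sq : ∀ a ∈ E, a * a = 1 := fun a ha => by rw [← pow_two]; exact hE a ha
  have cm : ∀ a ∈ E, ∀ c ∈ E, a * c = c * a := fun a ha c hc' =>
    congrArg Subtype.val (hc.is_comm.comm (⟨a, ha⟩ : E) ⟨c, hc'⟩)
  obtain ⟨a, c, hs⟩ : ∃ a c : G, (E : Set G) ⊆ {1, a, c, a * c} := by
    by_cases e1 : ∃ a ∈ E, a ≠ 1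
    · obtain ⟨a, ha, a1⟩ := e1
      by_cases e2 : ∃ c ∈ E, c ≠ 1 ∧ c ≠ a
      · obtain ⟨c, hc', c1, ca⟩ := e2
        obtain ⟨v, w, hvw, hZ⟩ := all a (sq a ha) a1
        obtain ⟨v', w', hvw', hZ'⟩ := all c (sq c hc') c1
        refine ⟨a, c, fun d hd => ?_⟩
        by_cases d1 : d = 1
        · exact Or.inl d1
        · exact Or.inr (w1 _ _ _ _ _ _ ⟨hvw, hvw', hZ, hZ', ca, cm c hc' a ha⟩ d
            (all d (sq d hd) d1) (cm d hd a ha) (cm d hd c hc'))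
      · refine ⟨a, 1, fun d hd => ?_⟩
        by_contra e3
        exact e2 ⟨d, hd, fun e => e3 (Or.inl e), fun e => e3 (Or.inr (Or.inl e))⟩
    · refine ⟨1, 1, fun d hd => ?_⟩
      by_contra e3
      exact e1 ⟨d, hd, fun e => e3 (Or.inl e)⟩
  have h1 := Set.ncard_le_ncard hs (Set.toFinite _)
  have h2 := Set.ncard_insert_le (1 : G) {a, c, a * c}
  have h3 := Set.ncard_insert_le a {c, a * c}
  have h4 := Set.ncard_insert_le c {a * c}
  rw [Set.ncard_singleton] at h4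
  have h5 : Nat.card E = (E : Set G).ncard := rfl
  omega

end Cfsg.Agent.H49.SpRk
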